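import Cfsg.Agent.WA.G0b
import Cfsg.Agent.H7.Pump
import Cfsg.Agent.H8.QuoComp
import Cfsg.Agent.S3225

/-! Intrinsic 2-components of 2-rank one: basic lemmas. -/

set_option autoImplicit false
set_option linter.unusedSectionVars false

namespace Cfsg.Agent.H1.Ci

open Subgroup Cfsg.Agent.FT Cfsg.Agent.L0 Cfsg.Agent.H8 Cfsg.Agent.WA Cfsg.Agent.WA.GS
open Cfsg.Agent.H7 (opp op PQS PCompOf playerOf pClos SN CompOf layerOf)
open scoped commutatorElement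

universe u

variable {G : Type u} [Group G] [Finite G] {J K L S T X : Subgroup G} {a b g k s u v w x y z : G}

local instance ci1 : Fact (Nat.Prime 2) := Nat.fact_prime_two

/-- 2-elements -/
def P2 (x : G) : Prop := ∃ k, x ^ 2 ^ k = 1

theorem p2 (hT : IsPGroup 2 T) (hx : x ∈ T) : P2 x := H5.IsPGroup_pow_eq_one hT hx

theorem P2.zp (h : P2 x) : IsPGroup 2 (zpowers x) := H9.isPGroup_zpowers h

theorem P2.of_sq (h : x * x = 1) : P2 x := ⟨1, (pow_two x).trans h⟩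

theorem P2.step (h : P2 x) (hx : x ∉ X) : ∃ r ∈ zpowers x, r ∉ X ∧ r * r ∈ X := by
  obtain ⟨k, hk⟩ := h
  obtain ⟨i, h1, h2⟩ := H5.exists_pow_not_mem_pow_mem (H := X) (hk ▸ one_mem X) hx
  exact ⟨_, pow_mem (mem_zpowers x) _, h1, pow_two (x ^ 2 ^ i) ▸ h2⟩

theorem P2.mem (h : P2 x) {N O : Subgroup G} (hn : x ∈ 𝐍(N)) (hNO : N ≤ 𝐍(O) ∨ O ≤ 𝐍(N)) (hO : ¬ 2 ∣ #|O|)
    (hx : x ∈ N ⊔ O) : x ∈ N :=
  H7.pClos_le_of_le_sup (zpowers_le.mpr hn) hNO hO (zpowers_le.mpr hx) (H7.le_pClos h.zp le_rfl (mem_zpowers x))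

theorem cm_comm (hT : IsPGroup 2 T) (hk : k ∈ T) (hx : x ∈ T) (kK : k ∈ K) (xc : x ∈ cm K) : k * x = x * k := by
  have e : T ⊓ opp 2 K = ⊥ := eq_bot_of_isPGroup_of_not_dvd (hT.to_le inf_le_left)
    fun h => H7.not_dvd_card_opp K (h.trans (card_dvd_of_le inf_le_right))
  have : k * x * k⁻¹ * x⁻¹ = 1 := mem_bot.mp (e ▸ mem_inf.mpr
    ⟨mul_mem (mul_mem (mul_mem hk hx) (inv_mem hk)) (inv_mem hx), xc.2 k kK⟩)
  rwa [mul_inv_eq_one, mul_inv_eq_iff_eq_mul] at this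

/-- perfect, with the unique involution `w` -/
structure U0 (K : Subgroup G) (w : G) : Prop where
  perf : ⁅K, K⁆ = K
  mem : w ∈ K
  sq : w * w = 1
  ne : w ≠ 1
  uq : ∀ t ∈ K, t * t = 1 → t = 1 ∨ t = w

namespace U0

theorem inv_eq (h : U0 K w) : w⁻¹ = w := inv_eq_of_mul_eq_one_right h.sq

theorem ord (h : U0 K w) : orderOf w = 2 := orderOf_eq_prime ((pow_two w).trans h.sq) h.ne

theorem fix (h : U0 K w) (hg : g ∈ 𝐍(K)) : g * w = w * g := by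
  refine mul_inv_eq_iff_eq_mul.mp ((h.uq _ ((mem_normalizer_iff.mp hg w).mp h.mem) ?_).resolve_left
    fun e => h.ne (conj_eq_one_iff.mp e))
  rw [conj_mul, h.sq]; simp

theorem mem_zp (h : U0 K w) (h2 : P2 x) (hx : x ∈ K) (x1 : x ≠ 1) : w ∈ zpowers x := by
  obtain ⟨r, hr, r1, r2⟩ := h2.step (X := ⊥) x1
  exact (h.uq r (zpowers_le.mpr hx hr) r2).resolve_left r1 ▸ hr

theorem four (h : U0 K w) (h2 : P2 x) (hx : x ∈ K) (x1 : x * x ≠ 1) : ∃ r ∈ zpowers x, r * r = w := by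
  have k : ∀ {t}, t ∈ zpowers w ↔ t = 1 ∨ t = w := Dich.mem_zp_two ((pow_two w).trans h.sq)
  obtain ⟨r, hr, r1, r2⟩ := h2.step (X := zpowers w) fun e => x1 (by rcases k.mp e with rfl | rfl; exacts [mul_one 1, h.sq])
  exact ⟨r, hr, (k.mp r2).resolve_left fun e => r1 (k.mpr (h.uq r (zpowers_le.mpr hx hr) e))⟩

theorem top (h : U0 K w) : commutator K = ⊤ := by
  apply map_injective K.subtype_injective
  rw [commutator_def, map_commutator, ← MonoidHom.range_eq_map, K.range_subtype, h.perf]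

theorem gens (h : U0 K w) (hS : IsSylowIn 2 S K) : ∃ (m : ℕ) (a b : G), a ∈ S ∧ b ∈ S ∧ b ∉ zpowers a ∧ b * b = w ∧
    a ^ 2 ^ m * a ^ 2 ^ m = w ∧ b * a * b⁻¹ = a⁻¹ ∧ ∀ x ∈ S, ∃ i : ℤ, x = a ^ i ∨ x = a ^ i * b := by
  have u : ∀ x ∈ S, orderOf x = 2 → x = w := fun x hx e =>
    (h.uq x (hS.le hx) (H9.mul_self_of_orderOf_two e)).resolve_left (H9.ne_one_of_orderOf_two e)
  obtain ⟨m, a, b, ha, hb, o, ba, b2, r, al⟩ := H9.exists_quaternion_gens hS.pgroup (fun c =>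
    H6.not_hasNormalPComplement_of_perfect h.top (H7.two_dvd_card_of_mem h.mem h.ord)
      (H9.hasNormalPComplement_two_of_isCyclic hS.toSylow
        (isCyclic_of_surjective _ (subgroupOfEquivOfLe hS.le).symm.surjective)))
    fun x hx y hy e f => (u x hx e).trans (u y hy f).symm
  have e : a ^ 2 ^ (m + 1) = w := u _ (pow_mem ha _) (by
    rw [orderOf_pow' _ (by positivity), o, Nat.gcd_eq_right (pow_dvd_pow 2 (by omega)), pow_succ 2 (m + 1)]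
    exact Nat.mul_div_cancel_left 2 (by positivity))
  exact ⟨m, a, b, ha, hb, ba, by rw [← pow_two, b2, e], by rw [← pow_add, ← two_mul, ← pow_succ', e], r, al⟩

omit [Finite G] in
theorem q_sq (h : U0 K w) (b2 : b * b = w) (r : b * a * b⁻¹ = a⁻¹) (i : ℤ) : a ^ i * b * (a ^ i * b) = w := by
  rw [show a ^ i * b * (a ^ i * b) = a ^ i * (b * a ^ i * b⁻¹) * (b * b) by group, ← conj_zpow, r, b2]; group

theorem inv (h : U0 K w) (hS : IsSylowIn 2 S K) (hs : s ∈ S) : ∃ v ∈ S, v * v = w ∧ v * s * v⁻¹ = s⁻¹ := by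
  obtain ⟨m, a, b, ha, hb, -, b2, a2, r, al⟩ := h.gens hS
  obtain ⟨i, rfl | rfl⟩ := al s hs
  · exact ⟨b, hb, b2, by rw [← conj_zpow, r, inv_zpow]⟩
  · refine ⟨_, pow_mem ha _, a2, ?_⟩
    rw [eq_inv_iff_mul_eq_one, show a ^ 2 ^ m * (a ^ i * b) * (a ^ 2 ^ m)⁻¹ * (a ^ i * b) =
      a ^ 2 ^ m * (a ^ i * (b * a ^ 2 ^ m * b⁻¹)⁻¹ * (a ^ i)⁻¹) * (a ^ i * b * (a ^ i * b)) by group, ← conj_pow, r,
      h.q_sq b2 r, inv_pow, inv_inv, show a ^ i * a ^ 2 ^ m * (a ^ i)⁻¹ = a ^ 2 ^ m by group, a2, h.sq]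

theorem fus_top (h : U0 (⊤ : Subgroup G) w) (hx : x * x = w) (hy : y * y = w) : IsConj x y := by
  obtain ⟨S, hS⟩ := exists_isSylowIn 2 (⊤ : Subgroup G)
  obtain ⟨m, a, b, ha, hb, ba, b2, a2, r, al⟩ := h.gens hS
  have c : ∀ g, g * w * g⁻¹ = w := fun g => by rw [h.fix (g := g) (le_normalizer (mem_top g)), mul_inv_cancel_right]
  have k1 : ∀ x ∈ zpowers a, x * x = w → IsConj x (a ^ 2 ^ m) := by
    rintro _ ⟨i, rfl⟩ e
    simp only at e ⊢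
    rcases h.uq (a ^ i * (a ^ 2 ^ m)⁻¹) trivial (by
      rw [show a ^ i * (a ^ 2 ^ m)⁻¹ * (a ^ i * (a ^ 2 ^ m)⁻¹) = a ^ i * a ^ i * (a ^ 2 ^ m * a ^ 2 ^ m)⁻¹ by group, e, a2,
        mul_inv_cancel]) with f | f
    · rw [mul_inv_eq_one.mp f]
    · refine IsConj.symm (isConj_iff.mpr ⟨b, ?_⟩)
      rw [← conj_pow, r, inv_pow, eq_mul_of_mul_inv_eq f, inv_eq_iff_mul_eq_one, ← mul_assoc, ← a2, mul_assoc, mul_assoc, a2,
        ← mul_assoc, a2, h.sq]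
  have o : ∀ x : G, x * x = w → orderOf x = 2 ^ 2 := fun x e =>
    orderOf_eq_prime_pow (n := 1) (by rw [pow_one, pow_two, e]; exact h.ne)
      (by rw [show 2 ^ (1 + 1) = 2 * 2 from rfl, pow_mul, pow_two, pow_two, e, h.sq])
  have k : ∀ x, x * x = w → IsConj x (a ^ 2 ^ m) := fun x e => by
    obtain ⟨g, -, l⟩ := B07.exists_cj_le_sylow hS (P2.zp ⟨2, o x e ▸ pow_orderOf_eq_one x⟩) le_top
    have e' : ∀ {x} g, x * x = w → g * x * g⁻¹ * (g * x * g⁻¹) = w := fun g e => by rw [conj_mul, e, c]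
    obtain ⟨S, rfl⟩ := hS.exists_sylow_top
    have nz : ∀ s ∈ (S : Subgroup G), s ∉ zpowers a → ∃ i : ℤ, s = a ^ i * b := fun s hs n =>
      (al s hs).imp fun i f => f.resolve_left fun f => n ⟨i, f.symm⟩
    obtain ⟨g', m'⟩ := S3225.result (even_iff_two_dvd.mpr (h.ord ▸ orderOf_dvd_natCard w))
      (H6.index_ne_two_of_perfect h.perf) S (zpowers a) (zpowers_le.mpr ha)
      (H9.relIndex_eq_two_of hb ba fun s hs n => by
        obtain ⟨i, rfl⟩ := nz s hs n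
        rw [mul_assoc, b2, ← a2]
        exact mul_mem (zpow_mem (mem_zpowers a) _) (mul_mem (pow_mem (mem_zpowers a) _) (pow_mem (mem_zpowers a) _)))
      2 one_le_two (fun s hs n => by
        obtain ⟨i, rfl⟩ := nz s hs n
        rw [o _ (h.q_sq b2 r i)]; norm_num) _ (l (conj_mem_cj g (mem_zpowers x))) (o _ (e' g e))
    exact ((isConj_iff.mpr ⟨g, rfl⟩).trans (isConj_iff.mpr ⟨g', rfl⟩)).trans (k1 _ m' (e' g' (e' g e)))
  exact (k x hx).trans (k y hy).symm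

theorem fus (h : U0 K w) (xK : x ∈ K) (yK : y ∈ K) (hx : x * x = w) (hy : y * y = w) : ∃ g ∈ K, g * x * g⁻¹ = y := by
  have : U0 (⊤ : Subgroup K) ⟨w, h.mem⟩ := ⟨h.top, trivial, Subtype.ext h.sq, fun e => h.ne (congrArg Subtype.val e),
    fun t _ e => (h.uq t t.2 (congrArg Subtype.val e)).imp Subtype.ext Subtype.ext⟩
  obtain ⟨g, e⟩ := isConj_iff.mp (this.fus_top (x := ⟨x, xK⟩) (y := ⟨y, yK⟩) (Subtype.ext hx) (Subtype.ext hy))
  exact ⟨g, g.2, congrArg Subtype.val e⟩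

theorem moved (h : U0 K w) (hT : IsPGroup 2 T) (zT : z ∈ T) (zn : z ∈ 𝐍(K)) (z2 : z * z = 1) (xT : x ∈ T) (xK : x ∈ K)
    (n : z * x ≠ x * z) : ∃ k ∈ T, k ∈ K ∧ z * k * z⁻¹ = k * w := by
  have dT : x⁻¹ * (z * x * z⁻¹) ∈ T := mul_mem (inv_mem xT) (mul_mem (mul_mem zT xT) (inv_mem zT))
  have dK : x⁻¹ * (z * x * z⁻¹) ∈ K := mul_mem (inv_mem xK) ((mem_normalizer_iff.mp zn x).mp xK)
  by_cases c : x⁻¹ * (z * x * z⁻¹) * (x⁻¹ * (z * x * z⁻¹)) = 1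
  · refine ⟨x, xT, xK, eq_mul_of_inv_mul_eq ((h.uq _ dK c).resolve_left fun e => n ?_)⟩
    rw [← mul_inv_eq_iff_eq_mul, ← inv_mul_eq_one.mp e]
  obtain ⟨_, ⟨i, rfl⟩, e⟩ := h.four (p2 hT dT) dK c
  refine ⟨_, zpow_mem dT i, zpow_mem dK i, ?_⟩
  simp only at e
  rw [← conj_zpow, show z * (x⁻¹ * (z * x * z⁻¹)) * z⁻¹ = (z * x * z⁻¹)⁻¹ * ((z * z) * x * (z * z)⁻¹) by group, z2,
    show (z * x * z⁻¹)⁻¹ * (1 * x * 1⁻¹) = (x⁻¹ * (z * x * z⁻¹))⁻¹ by group, inv_zpow, inv_eq_iff_mul_eq_one,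
    ← mul_assoc, e, h.sq]

end U0

theorem diag (hJ : PCompOf 2 J X) (hw : w ∈ X) (w2 : w * w = 1) (hn : w ∉ 𝐍(J)) (hu : u ∈ J)
    (h2 : P2 (u * (w * u * w⁻¹))) (hc : u * (w * u * w⁻¹) ∈ 𝐂[w]) : u * (w * u * w⁻¹) ∈ playerOf 2 (X ⊓ 𝐂[w]) := by
  have hH := H7.le_normalizer_opp (p := 2) X
  have od := H7.not_dvd_card_opp (p := 2) X
  have hJ' : PCompOf 2 (cj w J) X := hJ.conj (le_normalizer hw)
  have e := quo_cj (hH hw) J
  have c : ⁅J ⁒ opp 2 X, cj (coset (opp 2 X) w) (J ⁒ opp 2 X)⁆ = ⊥ := by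
    rw [← e, QC.comm_quo_eq_bot_iff (hJ.le.trans hH) (hJ'.le.trans hH)]
    exact (hJ.eq_or_comm hJ').resolve_left fun f => hn (cj_eq_self_iff.mp f.symm)
  have q := QC.comp_quo hJ
  have q' := QC.comp_quo hJ'
  have w2' : coset (opp 2 X) w * coset (opp 2 X) w = 1 := by rw [← coset_mul (hH hw) (hH hw), w2, coset_one]
  have h3 := QC.quo_cent (P2.of_sq w2).zp (zpowers_le.mpr (hH hw)) hH (zpowers_le.mpr (le_normalizer hw)) od
  rw [quo_zpowers (hH hw), H8.centralizer_zpowers, H8.centralizer_zpowers] at h3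
  have aX : u * (w * u * w⁻¹) ∈ X := mul_mem (hJ.le hu) (mul_mem (mul_mem hw (hJ.le hu)) (inv_mem hw))
  have YH : X ⊓ 𝐂[w] ≤ 𝐍(opp 2 X) := inf_le_left.trans hH
  have MY : playerOf 2 (X ⊓ 𝐂[w]) ⊔ opp 2 (X ⊓ 𝐂[w]) ≤ X ⊓ 𝐂[w] := sup_le (H7.playerOf_le _) (H7.opp_le _)
  have m : coset (opp 2 X) (u * (w * u * w⁻¹)) ∈ (playerOf 2 (X ⊓ 𝐂[w]) ⊔ opp 2 (X ⊓ 𝐂[w])) ⁒ opp 2 X := by
    rw [quo_sup ((H7.playerOf_le _).trans YH) ((H7.opp_le _).trans YH), ← QC.opp_quo YH od]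
    refine sup_le_sup_right (H7.playerOf_le_iff.mpr fun E hE => ?_) _ (H7.layerOf_le_playerOf_sup_opp _ ?_)
    · obtain ⟨E', hE', rfl⟩ := QC.exists_lift YH od hE
      exact quo_mono hE'.le_playerOf _
    · rw [← h3]
      refine H7.layerOf_mono_of_sn (H7.SN.inf_right (H := J ⁒ opp 2 X ⊔ cj (coset (opp 2 X) w) (J ⁒ opp 2 X)) ?_ _) ?_
      · exact (H7.SN.of_normalizer (sup_le q.le_layerOf (e ▸ q'.le_layerOf))
          (le_normalizer_sup (H7.layerOf_le_normalizer q) (e ▸ H7.layerOf_le_normalizer q'))).trans (H7.layerOf_sn _)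
      · rw [H7.layerOf_inf_centralizer_eq_diag w2' c q.2, coset_mul (hH (hJ.le hu)) (hH (mul_mem (mul_mem hw (hJ.le hu))
          (inv_mem hw))), coset_conj (hH hw) (hH (hJ.le hu))]
        exact ⟨⟨_, coset_mem_quo hu⟩, rfl⟩
  have aY : u * (w * u * w⁻¹) ∈ X ⊓ 𝐂[w] := ⟨aX, hc⟩
  refine h2.mem (H7.le_normalizer_playerOf _ aY) (Or.inr ((H7.opp_le _).trans (H7.le_normalizer_playerOf _)))
    (H7.not_dvd_card_opp _) (h2.mem (le_normalizer_sup (H7.le_normalizer_playerOf _) (H7.le_normalizer_opp _) aY)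
      (Or.inl (MY.trans YH)) od ?_)
  rw [sup_comm]
  exact (coset_mem_quo_iff' (MY.trans YH) (hH aX)).mp m

theorem pump (h0 : PCompOf 2 K (X ⊓ 𝐂[a])) (ha : a ∈ K) (a2 : a * a = 1) (a1 : a ≠ 1) (hJ : PCompOf 2 J X) :
    K ≤ J ∨ K ≤ cm J := by
  have hH := H7.le_normalizer_opp (p := 2) X
  have h4 := h0.le.trans inf_le_left
  have hab := h4 ha
  have h1 := QC.pComp_quo h0 (inf_le_left.trans hH) (H7.not_dvd_card_opp X)
  have h2 := QC.quo_cent (P2.of_sq a2).zp (zpowers_le.mpr (hH hab)) hH (zpowers_le.mpr (le_normalizer hab))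
    (H7.not_dvd_card_opp X)
  rw [quo_zpowers (hH hab), H8.centralizer_zpowers, H8.centralizer_zpowers] at h2
  have h6 := h0.le_playerOf.trans
    (H7.playerOf_inf_centralizer_singleton_le (orderOf_eq_prime ((pow_two a).trans a2) a1) hab)
  have h3 : K ≤ copre _ (layerOf (quo X (opp 2 X))) := h6.trans
    (H7.playerOf_le_iff.mpr fun E hE => (quo_le_iff_le_copre (hE.le.trans hH)).mp (QC.comp_quo hE).le_layerOf)
  obtain ⟨L, hL, h5⟩ := PCompOf.pumpup (a := coset (opp 2 X) a)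
    (by rw [← coset_mul (hH hab) (hH hab), a2, coset_one]) (coset_mem_quo hab)
    (h2 ▸ h1) ((quo_le_iff_le_copre (h4.trans hH)).mpr h3)
  obtain ⟨M, hM, rfl⟩ := QC.exists_lift_comp hL
  have h7 := h6.trans (H7.playerOf_le_normalizer hM)
  rcases h5 with h5 | h5
  · have : K ≤ M := h0.pqs.pclos.ge.trans (H7.pClos_le_of_le_sup h7 (Or.inr hM.opp_le_normalizer) (H7.not_dvd_card_opp X)
      (sup_comm (opp 2 X) M ▸ (quo_le_quo_iff' (h4.trans hH) (hM.le.trans hH)).mp h5.2))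
    exact (em (M = J)).imp (fun e => this.trans e.le) fun n => this.trans (le_cm_of_ne hM hJ n)
  · exact absurd (by rw [← quo_cj (hH hab), cj_eq_self (h7 ha)]) h5.1

theorem dec (hT : IsSylowIn 2 T X) (hK : K ≤ X) (hX : X ≤ 𝐍(K)) (aT : a ∈ T) (ha : a ∈ K ⊔ cm K) :
    ∃ q ∈ T ⊓ K, q⁻¹ * a ∈ cm K := by
  have n := hX.trans (norm_cm K)
  have s := hT.inf_of_le_normalizer hX
  rw [inf_eq_right.mpr hK] at s
  have e := (sylow_quo s (hK.trans n)).max ((T ⊓ (K ⊔ cm K)) ⁒ cm K)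
    ((quo_mono inf_le_right _).trans (quo_sup_self (hK.trans n)).le) (pgroup_quo (hT.pgroup.to_le inf_le_left) _)
    (quo_mono (inf_le_inf_left _ le_sup_left) _)
  obtain ⟨q, hq, f⟩ := (mem_quo_of_le (inf_le_right.trans (hK.trans n))).mp (e.le (coset_mem_quo (x := a) ⟨aT, ha⟩))
  exact ⟨q, hq, (coset_eq_iff (n (hK hq.2)) (n (hT.le aT))).mp f⟩

end Cfsg.Agent.H1.Ci
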