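import Cfsg.Agent.H1.CI1

/-! Intrinsic 2-components of 2-rank one: if `z(J)` normalizes `K` then `z(K)` normalizes `J`. -/

set_option autoImplicit false
set_option linter.unusedSectionVars false

namespace Cfsg.Agent.H1.Ci

open Subgroup Cfsg.Agent.FT Cfsg.Agent.L0 Cfsg.Agent.H8 Cfsg.Agent.WA Cfsg.Agent.WA.GS
open Cfsg.Agent.H7 (opp op PQS PCompOf playerOf pClos SN CompOf layerOf)
open scoped commutatorElement

universe u

variable {G : Type u} [Group G] [Finite G] {J K L S T X : Subgroup G} {a b g k s u v w x y z : G}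

local instance ci2 : Fact (Nat.Prime 2) := Nat.fact_prime_two

theorem mc {a b : G} : a ∈ 𝐂[b] ↔ a * b = b * a := mem_centralizer_singleton_iff

theorem cjm (hT : g ∈ T) (hx : x ∈ T) : g * x * g⁻¹ ∈ T := mul_mem (mul_mem hT hx) (inv_mem hT)

theorem nm (hg : g ∈ 𝐍(K)) (hx : x ∈ K) : g * x * g⁻¹ ∈ K := (mem_normalizer_iff.mp hg x).mp hx

/-- a 2-component of the centralizer of its unique involution -/
structure CI (K : Subgroup G) (w : G) : Prop extends U0 K w where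
  comp : PCompOf 2 K 𝐂[w]

namespace CI

theorem cj (h : CI K w) (g : G) : CI (cj g K) (g * w * g⁻¹) where
  comp := cj_centralizer_singleton g w ▸ h.comp.map_of_injective (MulAut.conj g).injective
  perf := (h.comp.map_of_injective (MulAut.conj g).injective).perfect
  mem := conj_mem_cj g h.mem
  sq := by rw [conj_mul, h.sq]; simp
  ne e := h.ne (conj_eq_one_iff.mp e)
  uq t ht e := (h.uq _ (mem_cj.mp ht) (by rw [show g⁻¹ * t * g * (g⁻¹ * t * g) = g⁻¹ * (t * t) * g by group, e]; simp)).imp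
    (fun f => by rw [show t = g * (g⁻¹ * t * g) * g⁻¹ by group, f]; simp) fun f => by rw [← f]; group

theorem cjc (h : CI K w) (hg : g ∈ 𝐂[w]) : CI (H8.cj g K) w := by
  have := h.cj g
  rwa [mc.mp hg, mul_inv_cancel_right] at this

theorem cent (h : CI K w) (h2 : P2 x) (hx : x ∈ K) (hc : x ∈ cm K) : x * x = 1 := by
  obtain ⟨S, hS, l⟩ := exists_isSylowIn_ge h2.zp (zpowers_le.mpr hx)
  obtain ⟨v, hv, -, e⟩ := h.inv hS (l (mem_zpowers x))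
  rw [cm_comm hS.pgroup hv (l (mem_zpowers x)) (hS.le hv) hc, mul_inv_cancel_right] at e
  exact eq_inv_iff_mul_eq_one.mp e

theorem cm_of (h : CI K w) (hg : g ∈ 𝐂[w]) (hn : g ∉ 𝐍(K)) : H8.cj g K ≤ cm K :=
  le_cm_of_ne (h.cjc hg).comp h.comp fun e => hn (cj_eq_self_iff.mp e)

theorem cm_el (h : CI K w) (hg : g ∈ 𝐂[w]) (hn : g ∉ 𝐍(K)) (hx : x ∈ K) : g * x * g⁻¹ ∈ cm K :=
  h.cm_of hg hn (conj_mem_cj g hx)

theorem norm (h : CI K w) (h2 : P2 y) (hy : y ∈ K) (y1 : y * y ≠ 1) (hg : g ∈ 𝐂[w]) (hn : g * y * g⁻¹ ∈ K) : g ∈ 𝐍(K) := by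
  by_contra n
  obtain ⟨i, e⟩ := h2
  have := h.cent ⟨i, by rw [conj_pow, e]; simp⟩ hn (h.cm_el hg n hy)
  exact y1 (conj_eq_one_iff.mp (conj_mul.symm.trans this))

theorem w_cm (h : CI K w) : w ∈ cm K :=
  G0.cent_le_cm K (mem_centralizer_iff.mpr fun _ hk => mc.mp (h.comp.le hk))

theorem syl (h : CI K w) (hT : IsSylowIn 2 T 𝐂[w]) : IsSylowIn 2 (T ⊓ K) K := H7.IsSylowIn.inf_of_sn hT h.comp.sn

theorem two_cm (h : CI K w) (hx : x ∈ K) (x2 : x * x = 1) : x ∈ cm K := by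
  rcases h.uq x hx x2 with rfl | rfl
  exacts [one_mem _, h.w_cm]

theorem not_cm (h : CI K w) (hx : x ∈ K) (x2 : x * x = w) : x ∉ cm K := fun c =>
  h.ne (x2.symm.trans (h.cent ⟨2, by rw [show 2 ^ 2 = 2 * 2 from rfl, pow_mul, pow_two, pow_two, x2, h.sq]⟩ hx c))

/-- pumping -/
theorem cm_symm (hK : CI K w) (hJ : CI J z) (hz : z ∈ cm K) (ne : w ≠ z) : w ∈ cm J := by
  have c := hK.comp.pqs.cover_centralizer (P2.of_sq hJ.sq).zp (G0.comm_cm (zpowers_le.mpr hz))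
  rw [H8.centralizer_zpowers] at c
  have m : w ∈ pClos 2 (K ⊓ 𝐂[z]) := H7.mem_pClos (k := 1) ⟨hK.mem, mc.mpr (hK.fix hz.1).symm⟩ hK.ord
  refine (pump (X := 𝐂[z]) ⟨(H7.pClos_sn _).trans (inf_comm 𝐂[w] 𝐂[z] ▸ hK.comp.sn.inf_right 𝐂[z]), c.1⟩ m hK.sq hK.ne
    hJ.comp).elim (fun l => absurd ((hJ.uq w (l m) hK.sq).resolve_left hK.ne) ne) fun l => l m

theorem dg (hJ : CI J z) (hT : IsPGroup 2 T) (wT : w ∈ T) (wz : w ∈ 𝐂[z]) (w2 : w * w = 1) (hn : w ∉ 𝐍(J)) (uT : u ∈ T)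
    (uJ : u ∈ J) : u * (w * u * w⁻¹) ∈ 𝐂[w] ∧ u * (w * u * w⁻¹) ∈ playerOf 2 𝐂[w] ∧ u * (w * u * w⁻¹) ∈ playerOf 2 𝐂[z] := by
  have c := cm_comm hT uT (cjm wT uT) uJ (hJ.cm_el wz hn uJ)
  have m : u * (w * u * w⁻¹) ∈ 𝐂[w] := mc.mpr (by
    rw [show w * (u * (w * u * w⁻¹)) = w * u * w⁻¹ * (w * w * u * (w * w)⁻¹) * w by group, w2, c]; group)
  have d := diag hJ.comp wz w2 hn uJ (p2 hT (mul_mem uT (cjm wT uT))) m
  have w1 : w ≠ 1 := fun e => hn (e ▸ one_mem _)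
  exact ⟨m, H7.playerOf_inf_centralizer_singleton_le hJ.ord (mc.mpr (mc.mp wz).symm) (inf_comm 𝐂[z] 𝐂[w] ▸ d),
    H7.playerOf_inf_centralizer_singleton_le (orderOf_eq_prime ((pow_two w).trans w2) w1) wz d⟩

theorem sq_norm (hJ : CI J z) (hK : CI K w) (kK : k ∈ K) (k2 : k * k = w) (kz : k ∈ 𝐂[z]) : w ∈ 𝐍(J) := by
  by_contra hn
  obtain ⟨T, hT, l⟩ := exists_isSylowIn_ge (P2.zp (x := k)
    ⟨2, by rw [show 2 ^ 2 = 2 * 2 from rfl, pow_mul, pow_two, pow_two, k2, hK.sq]⟩) (zpowers_le.mpr kz)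
  have kT := l (mem_zpowers k)
  have wT : w ∈ T := k2 ▸ mul_mem kT kT
  obtain ⟨u, ⟨uT, uJ⟩, u2, -⟩ := hJ.inv (hJ.syl hT) (one_mem _)
  obtain ⟨-, d1, d2⟩ := hJ.dg hT.pgroup wT (hT.le wT) hK.sq hn uT uJ
  have aT := mul_mem uT (cjm wT uT)
  generalize ha : u * (w * u * w⁻¹) = a at d1 d2 aT
  have cK : a⁻¹ * k * a * k⁻¹ ∈ K := mul_mem (by
    simpa using nm (inv_mem (H7.playerOf_le_normalizer hK.comp d1)) kK) (inv_mem kK)
  have cJ : a⁻¹ * k * a * k⁻¹ ∈ 𝐍(J) := H7.playerOf_le_normalizer hJ.comp (by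
    simpa [mul_assoc] using mul_mem (inv_mem d2) (nm (H7.le_normalizer_playerOf _ kz) d2))
  by_cases c : a⁻¹ * k * a * k⁻¹ = 1
  swap
  · exact hn (zpowers_le.mpr cJ (hK.mem_zp (p2 hT.pgroup
      (mul_mem (mul_mem (mul_mem (inv_mem aT) kT) aT) (inv_mem kT))) cK c))
  have kn : k ∉ 𝐍(J) := fun e => hn (k2 ▸ mul_mem e e)
  have kw : k * w ∉ 𝐍(J) := fun e => hn (by
    have := mul_mem e e
    rwa [← k2, show k * (k * k) * (k * (k * k)) = k * k * (k * k * (k * k)) by group, k2, hK.sq, mul_one] at this)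
  refine hJ.not_cm uJ u2 ?_
  have : u = k * u * k⁻¹ * (k * w * u * (k * w)⁻¹) * (w * u * w⁻¹)⁻¹ := by
    rw [eq_mul_inv_iff_mul_eq, ha, ← mul_one a, ← c, ← ha]; group
  rw [this]
  exact mul_mem (mul_mem (hJ.cm_el kz kn uJ) (hJ.cm_el (mul_mem kz (hT.le wT)) kw uJ)) (inv_mem (hJ.cm_el (hT.le wT) hn uJ))

theorem ii_aux (hJ : CI J z) (hK : CI K w) (wz : w * z = z * w) (hn : w ∉ 𝐍(J)) (uJ : u ∈ J) (u2 : u * u = z)
    (c : u * (w * u * w⁻¹) = w * u * w⁻¹ * u) (ha : u * (w * u * w⁻¹) ∈ cm K) (aw : u * (w * u * w⁻¹) ∈ 𝐂[w]) (kK : k ∈ K)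
    (kz : z * k * z⁻¹ = k * w) (ka : k * (u * (w * u * w⁻¹)) = u * (w * u * w⁻¹) * k) : False := by
  have u' := hJ.cm_el (mc.mpr wz) hn uJ
  have v2 : w * u * w⁻¹ * (w * u * w⁻¹) = z := by rw [conj_mul, u2, wz, mul_inv_cancel_right]
  have kw := mc.mp (hK.comp.le kK)
  have e1 : u * w * u⁻¹ = u * (w * u * w⁻¹) * z * w := by
    rw [mul_assoc u _ z, ← hJ.inv_eq, ← v2]; group
  have e2 : k⁻¹ * z * k = w * z := by rw [mul_assoc, eq_mul_of_mul_inv_eq kz]; group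
  have ua : u * (u * (w * u * w⁻¹)) * u⁻¹ = u * (w * u * w⁻¹) := by rw [mul_inv_eq_iff_eq_mul, mul_assoc u _ u, ← c]
  have a2 : u * (w * u * w⁻¹) * (u * (w * u * w⁻¹)) = 1 := by
    rw [mul_assoc, ← mul_assoc _ u, ← c, mul_assoc, v2, ← mul_assoc, u2, hJ.sq]
  have uz : u * z * u⁻¹ = z := by rw [← u2]; group
  have aw := mc.mp aw
  generalize ea : u * (w * u * w⁻¹) = a at *
  have h1 := hK.cj (u * k⁻¹)⁻¹
  have ka' : k⁻¹ * a * k = a := by rw [mul_assoc, ← ka]; group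
  have f1 : (u * k⁻¹)⁻¹ * w * (u * k⁻¹)⁻¹⁻¹ = a * z := by
    have : u * k⁻¹ * (a * z) * (u * k⁻¹)⁻¹ = w := by
      rw [show u * k⁻¹ * (a * z) * (u * k⁻¹)⁻¹ = u * (k⁻¹ * a * k) * u⁻¹ * (u * (k⁻¹ * z * k) * u⁻¹) by group, ka', e2, ua,
        ← conj_mul, e1, uz, mul_assoc _ w, wz, ← mul_assoc, ← mul_assoc, ← mul_assoc, a2, one_mul, hJ.sq, one_mul]
    rw [← this]; group
  have f2 : z = (u * k⁻¹)⁻¹ * (a * w) * (u * k⁻¹)⁻¹⁻¹ := by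
    have : u * k⁻¹ * z * (u * k⁻¹)⁻¹ = a * w := by
      rw [show u * k⁻¹ * z * (u * k⁻¹)⁻¹ = u * (k⁻¹ * z * k) * u⁻¹ by group, e2, ← conj_mul, e1, uz, mul_assoc _ w, wz,
        ← mul_assoc, mul_assoc a, hJ.sq, mul_one]
    rw [← this]; group
  rw [f1] at h1
  have m : a * z ∈ cm J := by
    by_cases n : a * z = z
    · exact n.symm ▸ hJ.w_cm
    · refine h1.cm_symm hJ ?_ n
      rw [← cj_cm, f2]
      exact conj_mem_cj _ (mul_mem ha hK.w_cm)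
  exact hJ.not_cm uJ u2 ((mul_mem_cancel_right u').mp (ea ▸ (mul_mem_cancel_right hJ.w_cm).mp m))

theorem ii (hJ : CI J z) (hK : CI K w) (hz : z ∈ 𝐍(K)) : w ∈ 𝐍(J) := by
  by_contra hn
  have no4 : ∀ q ∈ K, P2 q → z * q = q * z → q * q = 1 := fun q hq h2 c => by
    by_contra n
    obtain ⟨r, hr, e⟩ := hK.four h2 hq n
    exact hn (hJ.sq_norm hK (zpowers_le.mpr hq hr) e (zpowers_le.mpr (mc.mpr c.symm) hr))
  have zw := hK.fix hz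
  obtain ⟨T, hT, l⟩ := exists_isSylowIn_ge (P2.of_sq hK.sq).zp (zpowers_le.mpr (mc.mpr zw.symm))
  have wT := l (mem_zpowers w)
  obtain ⟨u, ⟨uT, uJ⟩, u2, -⟩ := hJ.inv (hJ.syl hT) (one_mem _)
  obtain ⟨v, ⟨vT, vJ⟩, v2, vu⟩ := hJ.inv (hJ.syl hT) ⟨uT, uJ⟩
  obtain ⟨R, hR, lR⟩ := exists_isSylowIn_ge (hT.pgroup.to_le (inf_le_left (b := 𝐂[w] ⊓ 𝐍(K)))) inf_le_right
  have KY : K ≤ 𝐂[w] ⊓ 𝐍(K) := le_inf hK.comp.le le_normalizer
  have zR : z ∈ R := lR ⟨u2 ▸ mul_mem uT uT, mc.mpr zw, hz⟩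
  have cc : ∀ {x y}, x ∈ T → x ∈ J → y ∈ T → y ∈ J → x * (w * y * w⁻¹) = w * y * w⁻¹ * x := fun xT xJ yT yJ =>
    cm_comm hT.pgroup xT (cjm wT yT) xJ (hJ.cm_el (hT.le wT) hn yJ)
  have aR : ∀ {x}, x ∈ T → x ∈ J → x * (w * x * w⁻¹) ∈ R := fun xT xJ =>
    have d := hJ.dg hT.pgroup wT (hT.le wT) hK.sq hn xT xJ
    lR ⟨mul_mem xT (cjm wT xT), d.1, H7.playerOf_le_normalizer hK.comp d.2.1⟩
  obtain ⟨x, ⟨xR, xK⟩, x2, -⟩ := hK.inv (inf_eq_right.mpr KY ▸ hR.inf_of_le_normalizer inf_le_right) (one_mem _)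
  obtain ⟨k, kR, kK, kz⟩ := hK.moved hR.pgroup zR hz hJ.sq xR xK fun e => hK.ne (x2.symm.trans (no4 x xK (p2 hR.pgroup xR) e))
  have fin : ∀ {x}, x ∈ T → x ∈ J → x * x = z → x * (w * x * w⁻¹) ∉ cm K := fun xT xJ x2 c =>
    hJ.ii_aux hK zw.symm hn xJ x2 (cc xT xJ xT xJ) c (hR.le (aR xT xJ)).1 kK kz (cm_comm hR.pgroup kR (aR xT xJ) kK c)
  have key : ∀ {x}, x ∈ T → x ∈ J → x * x = z → ∃ q ∈ R ⊓ K, q⁻¹ * (x * (w * x * w⁻¹)) ∈ cm K ∧ z * q * z⁻¹ = q * w := by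
    intro x xT xJ x2
    obtain ⟨q, hq, c⟩ := dec hR KY inf_le_right (aR xT xJ) ((H7.playerOf_le_iff.mpr fun E hE =>
      (em (E = K)).elim (fun e => e.le.trans le_sup_left) fun n => (le_cm_of_ne hE hK.comp n).trans le_sup_right :
        playerOf 2 𝐂[w] ≤ K ⊔ cm K) (hJ.dg hT.pgroup wT (hT.le wT) hK.sq hn xT xJ).2.1)
    have az := mc.mp (hT.le (mul_mem xT (cjm wT xT)))
    have n := fin xT xJ x2
    generalize x * (w * x * w⁻¹) = a at c az n ⊢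
    have dK := K.mul_mem (K.inv_mem hq.2) (nm hz hq.2)
    refine ⟨q, hq, c, eq_mul_of_inv_mul_eq ((hK.uq _ dK (hK.cent (p2 hR.pgroup (R.mul_mem (R.inv_mem hq.1) (cjm zR hq.1))) dK
      ?_)).resolve_left fun e => n ?_)⟩
    · have := (cm K).mul_mem c ((cm K).inv_mem (nm (norm_cm K hz) c))
      rwa [show q⁻¹ * a * (z * (q⁻¹ * a) * z⁻¹)⁻¹ = q⁻¹ * ((a * z) * a⁻¹ * q * z⁻¹) by group, az, mul_inv_cancel_right] at this
    · exact (mul_mem_cancel_left (inv_mem (hK.two_cm hq.2 (no4 q hq.2 (p2 hR.pgroup hq.1)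
        (mul_inv_eq_iff_eq_mul.mp (inv_mul_eq_one.mp e).symm))))).mp c
  obtain ⟨q, hq, c, e⟩ := key uT uJ u2
  obtain ⟨q', hq', c', e'⟩ := key vT vJ v2
  have qq := mul_mem hq hq'
  refine fin (mul_mem uT vT) (mul_mem uJ vJ) (by
    rw [show u * v * (u * v) = u * (v * u * v⁻¹) * (v * v) by group, vu, v2, mul_inv_cancel, one_mul]) ?_
  rw [show u * v * (w * (u * v) * w⁻¹) = u * (v * (w * u * w⁻¹)) * (w * v * w⁻¹) by group, cc vT vJ uT uJ,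
    show u * (w * u * w⁻¹ * v) * (w * v * w⁻¹) = q * q' * (q'⁻¹ * (q⁻¹ * (u * (w * u * w⁻¹))) * q'⁻¹⁻¹) *
      (q'⁻¹ * (v * (w * v * w⁻¹))) by group]
  refine mul_mem (mul_mem (hK.two_cm qq.2 (no4 _ qq.2 (p2 hR.pgroup qq.1) ?_))
    (nm (norm_cm K (le_normalizer (inv_mem hq'.2))) c)) c'
  rw [← mul_inv_eq_iff_eq_mul, ← conj_mul, e, e', mul_assoc, ← mul_assoc w, ← mc.mp (hK.comp.le hq'.2), mul_assoc, hK.sq, mul_one]

end CI

end Cfsg.Agent.H1.Ci
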