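import Cfsg.Agent.H1.CI2

/-! Intrinsic 2-components of 2-rank one: elements of order at least four of `C_K(z(J))` normalize `J`. -/

set_option autoImplicit false
set_option linter.unusedSectionVars false

namespace Cfsg.Agent.H1.Ci

open Subgroup Cfsg.Agent.FT Cfsg.Agent.L0 Cfsg.Agent.H8 Cfsg.Agent.WA Cfsg.Agent.WA.GS
open Cfsg.Agent.H7 (opp op PQS PCompOf playerOf pClos SN CompOf layerOf)
open scoped commutatorElement

universe u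

variable {G : Type u} [Group G] [Finite G] {J K L S T X : Subgroup G} {a b g k s u v w x y z : G}

local instance ci3 : Fact (Nat.Prime 2) := Nat.fact_prime_two

theorem swp (vs : v * s * v⁻¹ = s⁻¹) (s2 : s * s = z) (z2 : z * z = 1) : s * v * s⁻¹ = v * z := by
  rw [← inv_eq_of_mul_eq_one_right z2, ← s2, show s * v * s⁻¹ = s * (v * s * v⁻¹) * (v * (s * s)⁻¹) by group, vs]; group

namespace CI

theorem z_norm (hK : CI K w) (h2 : P2 y) (yK : y ∈ K) (y1 : y * y ≠ 1) (yz : y ∈ 𝐂[z]) : z ∈ 𝐍(K) :=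
  hK.norm h2 yK y1 (mc.mpr (mc.mp (zpowers_le.mpr yz (hK.mem_zp h2 yK fun e => y1 (by rw [e, mul_one])))).symm)
    (by rwa [← mc.mp yz, mul_inv_cancel_right])

theorem not_mem (hJ : CI J z) (hK : CI K w) (ne : z ≠ w) : z ∉ K := fun h => ne ((hK.uq z h hJ.sq).resolve_left hJ.ne)

theorem fin_aux (hJ : CI J z) (hK : CI K w) (ne : z ≠ w) (hT : IsPGroup 2 T) (yT : y ∈ T) (yK : y ∈ K) (y2 : y * y = w)
    (yz : y ∈ 𝐂[z]) (bT : b ∈ T) (bz : b ∈ 𝐂[z]) (e : y * b * y⁻¹ = b * z) (gz : g ∈ 𝐂[z]) (gb : g * w * g⁻¹ = b) : False := by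
  have zn := hK.z_norm (p2 hT yT) yK (y2 ▸ hK.ne) yz
  have h1 := gb ▸ hK.cj g
  have bw : b ∈ 𝐂[w] := mc.mpr (by
    rw [eq_comm, ← mul_inv_eq_iff_eq_mul, ← y2, show y * y * b * (y * y)⁻¹ = y * (y * b * y⁻¹) * y⁻¹ by group, e, ← conj_mul, e,
      mc.mp yz, mul_inv_cancel_right, mul_assoc, hJ.sq, mul_one])
  have e' : b * y * b⁻¹ = z * y := by
    rw [h1.inv_eq, mul_assoc, eq_mul_of_mul_inv_eq e, ← mul_assoc, ← mul_assoc, h1.sq, one_mul]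
  have bn : b ∉ 𝐍(K) := fun n => hJ.not_mem hK ne ((mul_mem_cancel_right yK).mp (e' ▸ nm n yK))
  have d := H7.playerOf_le_normalizer h1.comp (hK.dg hT bT bw h1.sq bn yT yK).2.1
  rw [e', ← mul_assoc, mc.mp yz, mul_assoc, y2] at d
  refine bn (hK.ii h1 ((mul_mem_cancel_left ?_).mp d))
  rw [← cj_eq_self_iff, ← cj_mul, ← mc.mp gz, cj_mul, cj_eq_self zn]

theorem fin (hJ : CI J z) (hK : CI K w) (ne : z ≠ w) (hT : IsSylowIn 2 T 𝐂[z]) (yT : y ∈ T) (yK : y ∈ K) (y2 : y * y = w)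
    (yn : y ∉ 𝐍(J)) (sT : s ∈ T) (sJ : s ∈ J) (s2 : s * s = z)
    (hw : w = s * (y * s * y⁻¹) ∨ w = s * (y * s * y⁻¹) * z) : False := by
  obtain ⟨v, ⟨vT, vJ⟩, v2, vs⟩ := hJ.inv (hJ.syl hT) ⟨sT, sJ⟩
  have yz := hT.le yT
  have cc : ∀ {x x'}, x ∈ T → x ∈ J → x' ∈ T → x' ∈ J → x * (y * x' * y⁻¹) = y * x' * y⁻¹ * x := fun xT xJ xT' xJ' =>
    cm_comm hT.pgroup xT (cjm yT xT') xJ (hJ.cm_el yz yn xJ')
  have cz : ∀ {x}, x ∈ 𝐂[z] → x * z * x⁻¹ = z := fun h => by rw [mc.mp h, mul_inv_cancel_right]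
  have hJ' := hJ.cjc yz
  have ne' : J ≠ H8.cj y J := fun e => yn (cj_eq_self_iff.mp e.symm)
  obtain ⟨r, rJ, e1⟩ := hJ.fus sJ vJ s2 v2
  have vc : v ∈ cm (H8.cj y J) := le_cm_of_ne hJ.comp hJ'.comp ne' vJ
  have c := hJ'.comp.pqs.cover_centralizer (p2 hT.pgroup vT).zp (G0.comm_cm (zpowers_le.mpr vc))
  rw [H8.centralizer_zpowers] at c
  have o : ∀ {x}, x ∈ H8.cj y J → x ∈ 𝐂[v] → P2 x → x ∈ pClos 2 (H8.cj y J ⊓ 𝐂[v]) := fun h1 h2 h3 =>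
    H7.le_pClos h3.zp (zpowers_le.mpr (mem_inf.mpr ⟨h1, h2⟩)) (mem_zpowers _)
  have l := H7.pClos_le (p := 2) (H8.cj y J ⊓ 𝐂[v])
  have u0 : U0 (pClos 2 (H8.cj y J ⊓ 𝐂[v])) z := ⟨c.1.perfect, o hJ'.mem (mc.mpr (mc.mp (hT.le vT)).symm) (P2.of_sq hJ.sq),
    hJ.sq, hJ.ne, fun t ht => hJ'.uq t (l ht).1⟩
  have q : ∀ {x}, x * x = z → P2 x := fun e => ⟨2, by rw [show 2 ^ 2 = 2 * 2 from rfl, pow_mul, pow_two, pow_two, e, hJ.sq]⟩
  have s3 : r * (y * s * y⁻¹) * r⁻¹ * (r * (y * s * y⁻¹) * r⁻¹) = z := by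
    rw [conj_mul, conj_mul, s2, cz yz, cz (hJ.comp.le rJ)]
  have v3 : y * v * y⁻¹ * (y * v * y⁻¹) = z := by rw [conj_mul, v2, cz yz]
  obtain ⟨r', hr', e2⟩ := u0.fus (o (nm (hJ.comp.le_normalizer hJ'.comp rJ) (conj_mem_cj y sJ))
    (mc.mpr (by rw [← e1, conj_mul, conj_mul, cc sT sJ sT sJ])) (q s3))
    (o (conj_mem_cj y vJ) (mc.mpr (cc vT vJ vT vJ).symm) (q v3)) s3 v3
  have gz : r' * r ∈ 𝐂[z] := mul_mem (hJ'.comp.le (l hr').1) (hJ.comp.le rJ)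
  have e3 : r' * r * (s * (y * s * y⁻¹)) * (r' * r)⁻¹ = v * (y * v * y⁻¹) := by
    rw [show r' * r * (s * (y * s * y⁻¹)) * (r' * r)⁻¹ = r' * (r * s * r⁻¹) * r'⁻¹ * (r' * (r * (y * s * y⁻¹) * r⁻¹) * r'⁻¹) by
      group, e1, e2, mc.mp (l hr').2, mul_inv_cancel_right]
  have e4 : s * (y * s * y⁻¹) * v * (s * (y * s * y⁻¹))⁻¹ = v * z := by
    rw [mul_assoc s, ← cc vT vJ sT sJ, ← swp vs s2 hJ.sq]; group
  have e5 : w * v * w⁻¹ = v * z := by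
    rcases hw with e | e <;> rw [e]
    · exact e4
    · rw [← e4, mul_assoc _ z, ← mc.mp (hT.le vT)]; group
  have bT := mul_mem vT (cjm yT vT)
  have e6 : y * (v * (y * v * y⁻¹)) * y⁻¹ = v * (y * v * y⁻¹) * z := by
    rw [show y * (v * (y * v * y⁻¹)) * y⁻¹ = y * v * y⁻¹ * (y * y * v * (y * y)⁻¹) by group, y2, e5, ← mul_assoc, cc vT vJ vT vJ]
  rcases hw with e | e
  · exact hJ.fin_aux hK ne hT.pgroup yT yK y2 yz bT (hT.le bT) e6 gz (by rw [e, e3])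
  · have zT : z ∈ T := s2 ▸ mul_mem sT sT
    exact hJ.fin_aux hK ne hT.pgroup yT yK y2 yz (mul_mem bT zT) (hT.le (mul_mem bT zT))
      (by rw [← conj_mul, e6, cz yz]) gz (by rw [e, ← conj_mul, e3, cz gz])

theorem case2 (hJ : CI J z) (hK : CI K w) (ne : z ≠ w) (yK : y ∈ K) (h2 : P2 y) (yz : y ∈ 𝐂[z]) (yn : y ∉ 𝐍(J))
    (yn2 : y * y ∈ 𝐍(J)) (y1 : y * y ≠ 1) (sJ : s ∈ J) (s2 : s * s = z) (sw : s ∈ 𝐂[w]) : False := by
  have zn := hK.z_norm h2 yK y1 yz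
  have yw := hK.comp.le yK
  have q : ∀ {x}, x * x = z → P2 x := fun e => ⟨2, by rw [show 2 ^ 2 = 2 * 2 from rfl, pow_mul, pow_two, pow_two, e, hJ.sq]⟩
  obtain ⟨T₀, hT₀, l₀⟩ := exists_isSylowIn_ge h2.zp (zpowers_le.mpr (show y ∈ 𝐂[z] ⊓ 𝐂[w] from ⟨yz, yw⟩))
  obtain ⟨T, hT, l⟩ := exists_isSylowIn_ge hT₀.pgroup (hT₀.le.trans inf_le_left)
  obtain ⟨j, hj, lj⟩ := B07.exists_cj_le_sylow (H7.IsSylowIn.inf_of_sn hT₀ (hJ.comp.sn.inf_right 𝐂[w])) (q s2).zp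
    (zpowers_le.mpr ⟨sJ, sw⟩)
  obtain ⟨sT₀, sJ, sw⟩ := lj (conj_mem_cj j (mem_zpowers s))
  have cz : ∀ {x}, x ∈ 𝐂[z] → x * z * x⁻¹ = z := fun h => by rw [mc.mp h, mul_inv_cancel_right]
  replace s2 : j * s * j⁻¹ * (j * s * j⁻¹) = z := by rw [conj_mul, s2, cz (hJ.comp.le hj.1)]
  generalize j * s * j⁻¹ = s at sT₀ sJ sw s2
  have yT₀ := l₀ (mem_zpowers y)
  have yT := l yT₀
  have cc : ∀ {x x'}, x ∈ T → x ∈ J → x' ∈ T → x' ∈ J → x * (y * x' * y⁻¹) = y * x' * y⁻¹ * x := fun xT xJ xT' xJ' =>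
    cm_comm hT.pgroup xT (cjm yT xT') xJ (hJ.cm_el yz yn xJ')
  have cA : ∀ {g}, g ∈ T → g ∈ 𝐂[w] → g⁻¹ * (y * g * y⁻¹) ∈ K ∨
      (g⁻¹ * (y * g * y⁻¹) * y ∈ cm K ∧ y * (g⁻¹ * (y * g * y⁻¹)) = g⁻¹ * (y * g * y⁻¹) * y) := fun {g} gT gw => by
    have e : g⁻¹ * (y * g * y⁻¹) * y = g⁻¹ * y * g⁻¹⁻¹ := by group
    refine (em (g⁻¹ ∈ 𝐍(K))).imp (fun n => (mul_mem_cancel_right yK).mp (e ▸ nm n yK)) fun n => ?_
    have m := e ▸ hK.cm_el (inv_mem gw) n yK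
    exact ⟨m, mul_right_cancel ((mul_assoc _ _ _).trans
      (cm_comm hT.pgroup yT (mul_mem (mul_mem (inv_mem gT) (cjm yT gT)) yT) yK m))⟩
  have yy : y * y * (y * y) = 1 → y * y = w := fun e => (hK.uq _ (mul_mem yK yK) e).resolve_left y1
  have si : ∀ {x}, x * x = z → x⁻¹ = x * z := fun e => by
    rw [inv_eq_iff_mul_eq_one, ← mul_assoc, e, hJ.sq]
  have c1 : ∀ {s}, s ∈ T → s ∈ J → s * s = z → s⁻¹ * (y * s * y⁻¹) ∉ K := by
    intro s sT sJ s2 cK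
    have e : s⁻¹ * (y * s * y⁻¹) = w := (hK.uq _ cK (by
      rw [mul_assoc, ← mul_assoc _ s⁻¹, ← cc (inv_mem sT) (inv_mem sJ) sT sJ, mul_assoc, conj_mul, s2, cz yz, ← s2]; group)).resolve_left
      fun e => hJ.not_cm sJ s2 (inv_mul_eq_one.mp e ▸ hJ.cm_el yz yn sJ)
    obtain ⟨v, ⟨vT, vJ⟩, v2, vs⟩ := hJ.inv (hJ.syl hT) ⟨sT, sJ⟩
    have sv := swp vs s2 hJ.sq
    have wv : w * v * w⁻¹ = v * z := by
      rw [← e, mul_assoc s⁻¹, ← cc vT vJ sT sJ, show s⁻¹ * (v * (y * s * y⁻¹)) * (s⁻¹ * (y * s * y⁻¹))⁻¹ =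
        (s * s)⁻¹ * (s * v * s⁻¹) * (s * s) by group, sv, s2, mul_assoc, mul_assoc, hJ.sq, mul_one, hJ.inv_eq,
        mc.mp (hT.le vT)]
    have wv' : w * (y * v * y⁻¹) * w⁻¹ = y * v * y⁻¹ * z := by
      rw [show w * (y * v * y⁻¹) * w⁻¹ = w * y * v * (w * y)⁻¹ by group, ← mc.mp yw,
        show y * w * v * (y * w)⁻¹ = y * (w * v * w⁻¹) * y⁻¹ by group, wv, ← conj_mul, cz yz]
    have bT := mul_mem vT (cjm yT vT)
    have bw : v * (y * v * y⁻¹) ∈ 𝐂[w] := mc.mpr (by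
      rw [eq_comm, ← mul_inv_eq_iff_eq_mul, ← conj_mul, wv, wv', mul_assoc, ← mul_assoc z, ← mc.mp (hT.le (cjm yT vT)), mul_assoc,
        hJ.sq, mul_one])
    have ed : (v * (y * v * y⁻¹))⁻¹ * (y * (v * (y * v * y⁻¹)) * y⁻¹) = v⁻¹ * (y * y * v * (y * y)⁻¹) := by
      rw [show y * (v * (y * v * y⁻¹)) * y⁻¹ = y * v * y⁻¹ * (y * y * v * (y * y)⁻¹) by group, cc vT vJ vT vJ]; group
    have dJ := J.mul_mem (J.inv_mem vJ) (nm yn2 vJ)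
    have dT := T.mul_mem (T.inv_mem vT) (cjm (mul_mem yT yT) vT)
    have d2 : v⁻¹ * (y * y * v * (y * y)⁻¹) = 1 ∨ v⁻¹ * (y * y * v * (y * y)⁻¹) = z := by
      rcases ed ▸ cA bT bw with m | ⟨-, m⟩
      · exact Or.inl (by_contra fun n => hJ.not_mem hK ne (zpowers_le.mpr m (hJ.mem_zp (p2 hT.pgroup dT) dJ n)))
      · exact hJ.uq _ dJ (hJ.cent (p2 hT.pgroup dT) dJ (mul_inv_eq_iff_eq_mul.mpr m ▸ hJ.cm_el yz yn dJ))
    refine hJ.fin hK ne hT yT yK (yy (by_contra fun n => hJ.ne ?_)) yn sT sJ s2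
      (Or.inr (by rw [← e, si s2, mul_assoc, mul_assoc s, mc.mp (hT.le (cjm yT sT))]))
    have : y * y * (y * y) ∈ 𝐂[v] := mc.mpr (by
      rw [← mul_inv_eq_iff_eq_mul, show y * y * (y * y) * v * (y * y * (y * y))⁻¹ = y * y * (y * y * v * (y * y)⁻¹) * (y * y)⁻¹ by group]
      rcases d2 with f | f
      · rw [← inv_mul_eq_one.mp f, ← inv_mul_eq_one.mp f]
      · rw [eq_mul_of_inv_mul_eq f, ← conj_mul, eq_mul_of_inv_mul_eq f, cz (mul_mem yz yz), mul_assoc, hJ.sq, mul_one])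
    have := mc.mp (zpowers_le.mpr this (hK.mem_zp (p2 hT.pgroup (mul_mem (mul_mem yT yT) (mul_mem yT yT)))
      (mul_mem (mul_mem yK yK) (mul_mem yK yK)) n))
    rw [this, mul_inv_cancel_right] at wv
    exact (mul_eq_left.mp wv.symm)
  have sT := l sT₀
  obtain ⟨m1, m2⟩ := (cA sT sw).resolve_left (c1 sT sJ s2)
  have s3 : y * s * y⁻¹ * (y * s * y⁻¹) = z := by rw [conj_mul, s2, cz yz]
  have y2 : y * y = w := by
    have e : y * y * s * (y * y)⁻¹ = s := by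
      rw [show y * y * s * (y * y)⁻¹ = y * s * y⁻¹ * (y * (s⁻¹ * (y * s * y⁻¹)) * y⁻¹) by group, m2, mul_inv_cancel_right,
        ← mul_assoc, ← cc (inv_mem sT) (inv_mem sJ) sT sJ, mul_assoc, s3, ← s2, inv_mul_cancel_left]
    have := (cm K).mul_mem m1 m1
    rw [show s⁻¹ * (y * s * y⁻¹) * y * (s⁻¹ * (y * s * y⁻¹) * y) = s⁻¹ * (y * y * s * (y * y)⁻¹) * (y * y) by group, e,
      inv_mul_cancel, one_mul] at this
    exact yy (hK.cent (p2 hT.pgroup (mul_mem yT yT)) (mul_mem yK yK) this)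
  have wT : w ∈ T := y2 ▸ mul_mem yT yT
  have zy : z * y ∈ cm K := by
    by_cases c : ∀ x ∈ T, x ∈ J → w * x = x * w
    · obtain ⟨v, ⟨vT, vJ⟩, v2, vs⟩ := hJ.inv (hJ.syl hT) ⟨sT, sJ⟩
      have tT := mul_mem sT vT
      have tJ := mul_mem sJ vJ
      obtain ⟨n1, n2⟩ := (cA vT (mc.mpr (c v vT vJ).symm)).resolve_left (c1 vT vJ v2)
      obtain ⟨k1, k2⟩ := (cA tT (mc.mpr (c _ tT tJ).symm)).resolve_left (c1 tT tJ (by
        rw [show s * v * (s * v) = s * (v * s * v⁻¹) * (v * v) by group, vs, v2, mul_inv_cancel, one_mul]))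
      have e : s⁻¹ * (y * s * y⁻¹) * (v⁻¹ * (y * v * y⁻¹)) = z * ((s * v)⁻¹ * (y * (s * v) * y⁻¹)) := by
        rw [mul_assoc, ← mul_assoc _ v⁻¹, ← cc (inv_mem vT) (inv_mem vJ) sT sJ,
          show s⁻¹ * (v⁻¹ * (y * s * y⁻¹) * (y * v * y⁻¹)) =
            v⁻¹ * ((v * s * v⁻¹)⁻¹ * s) * v * ((s * v)⁻¹ * (y * (s * v) * y⁻¹)) by group, vs, inv_inv, s2, mul_assoc v⁻¹,
          ← mc.mp (hT.le vT), inv_mul_cancel_left]
      have := (cm K).mul_mem ((cm K).mul_mem m1 n1) ((cm K).inv_mem k1)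
      generalize s⁻¹ * (y * s * y⁻¹) = a, v⁻¹ * (y * v * y⁻¹) = b, (s * v)⁻¹ * (y * (s * v) * y⁻¹) = d at *
      rwa [show a * y * (b * y) * (d * y)⁻¹ = a * (y * b) * d⁻¹ by group, n2, ← mul_assoc a, e, mul_assoc z, ← k2, ← mul_assoc,
        mul_inv_cancel_right] at this
    · push Not at c
      obtain ⟨x, xT, xJ, n⟩ := c
      obtain ⟨v, vT, vJ, wv⟩ := hJ.moved hT.pgroup wT (y2 ▸ yn2) hK.sq xT xJ n
      have bT := mul_mem vT (cjm yT vT)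
      have e6 : y * (v * (y * v * y⁻¹)) * y⁻¹ = v * (y * v * y⁻¹) * z := by
        rw [show y * (v * (y * v * y⁻¹)) * y⁻¹ = y * v * y⁻¹ * (y * y * v * (y * y)⁻¹) by group, y2, wv, ← mul_assoc,
          cc vT vJ vT vJ]
      have := cA bT (mc.mpr (by
        rw [eq_comm, ← mul_inv_eq_iff_eq_mul, ← y2, show ∀ b, y * y * b * (y * y)⁻¹ = y * (y * b * y⁻¹) * y⁻¹ from fun b => by group,
          e6, ← conj_mul, e6, cz yz, mul_assoc, hJ.sq, mul_one]))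
      rw [e6, inv_mul_cancel_left] at this
      exact (this.resolve_left (hJ.not_mem hK ne)).1
  obtain ⟨R, hR, lR⟩ := exists_isSylowIn_ge hT₀.pgroup (hT₀.le.trans inf_le_right)
  obtain ⟨x, ⟨xR, xK⟩, -, xy⟩ := hK.inv (hK.syl hR) ⟨lR yT₀, yK⟩
  have sn : s ∉ 𝐍(K) := fun n => c1 sT sJ s2 ((mul_mem_cancel_right yK).mp
    ((show s⁻¹ * y * s⁻¹⁻¹ = s⁻¹ * (y * s * y⁻¹) * y by group) ▸ nm (inv_mem n) yK))
  have sR := lR sT₀
  have zR : z ∈ R := s2 ▸ mul_mem sR sR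
  have xz : x * z * x⁻¹ = z * w := by
    have := cm_comm hR.pgroup xR (mul_mem zR (lR yT₀)) xK zy
    rw [← mul_inv_eq_iff_eq_mul, ← conj_mul, xy, mul_inv_eq_iff_eq_mul] at this
    rw [this, mul_assoc, y2]
  have cw : ∀ {x}, x ∈ 𝐂[w] → x * w * x⁻¹ = w := fun h => by rw [mc.mp h, mul_inv_cancel_right]
  have xx := cm_comm hR.pgroup xR (cjm sR xR) xK (hK.cm_el sw sn xK)
  have sz := hT.le sT
  have bz : x * (s * x * s⁻¹) ∈ 𝐂[z] := mc.mpr (by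
    rw [← mul_inv_eq_iff_eq_mul, show x * (s * x * s⁻¹) * z * (x * (s * x * s⁻¹))⁻¹ =
      x * (s * (x * (s⁻¹ * z * s⁻¹⁻¹) * x⁻¹) * s⁻¹) * x⁻¹ by group, cz (inv_mem sz), xz, ← conj_mul (b := s), cz sz, cw sw, ← conj_mul, xz,
      cw (hK.comp.le xK), mul_assoc, hK.sq, mul_one])
  have ws : (x * (s * x * s⁻¹))⁻¹ * s * (x * (s * x * s⁻¹))⁻¹⁻¹ = w * s := by
    have zx : z * x * z⁻¹ = w * x := by
      rw [hJ.inv_eq, mul_assoc, eq_mul_of_mul_inv_eq xz, ← mul_assoc, ← mul_assoc, hJ.sq, one_mul]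
    have x1 := cjm sw (hK.comp.le xK)
    rw [show (x * (s * x * s⁻¹))⁻¹ * s * (x * (s * x * s⁻¹))⁻¹⁻¹ =
      (x * (s * x * s⁻¹))⁻¹ * (s * x * s⁻¹ * (s * s * x * (s * s)⁻¹)) * s by group, s2, zx, ← mul_assoc (s * x * s⁻¹), mc.mp x1,
      mul_assoc w, ← xx, ← mc.mp (mul_mem (hK.comp.le xK) x1), inv_mul_cancel_left]
  have h1 := hJ.cjc (inv_mem bz)
  have h2 := hJ.cjc yz
  have m := ws ▸ conj_mem_cj (x * (s * x * s⁻¹))⁻¹ sJ
  have n1 : H8.cj (x * (s * x * s⁻¹))⁻¹ J ≠ J := fun e =>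
    hK.not_mem hJ (Ne.symm ne) ((J.mul_mem_cancel_right sJ).mp (e ▸ m))
  by_cases c : H8.cj (x * (s * x * s⁻¹))⁻¹ J = H8.cj y J
  · have e : y * s * y⁻¹ * (w * s) = w * (s * (y * s * y⁻¹)) := by
      rw [← mul_assoc, mc.mp (cjm yw sw), mul_assoc, cc sT sJ sT sJ]
    have m' := e ▸ mul_mem (conj_mem_cj y sJ) (c ▸ m)
    have p : s * (y * s * y⁻¹) * (s * (y * s * y⁻¹)) = 1 := by
      rw [mul_assoc, ← mul_assoc _ s, ← cc sT sJ sT sJ, mul_assoc, s3, ← mul_assoc, s2, hJ.sq]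
    have pw := mc.mp (mul_mem sw (cjm yw sw))
    have pz := mc.mp (hT.le (mul_mem sT (cjm yT sT)))
    refine hJ.fin hK ne hT yT yK y2 yn sT sJ s2 ?_
    generalize s * (y * s * y⁻¹) = a at *
    refine (h2.uq _ m' (by rw [mul_assoc, ← mul_assoc a, pw, mul_assoc, p, mul_one, hK.sq])).imp (fun e => ?_) fun e => ?_
    · rw [eq_inv_of_mul_eq_one_left e, inv_eq_of_mul_eq_one_right p]
    · rw [eq_mul_inv_of_mul_eq e, inv_eq_of_mul_eq_one_right p, pz]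
  · have k1 : w ∈ cm (H8.cj y J) := (mul_mem_cancel_right (le_cm_of_ne hJ.comp h2.comp
      (fun e => yn (cj_eq_self_iff.mp e.symm)) sJ)).mp (le_cm_of_ne h1.comp h2.comp c m)
    rw [← cj_cm, mem_cj, mul_assoc, ← mc.mp yw, inv_mul_cancel_left] at k1
    exact hJ.not_cm sJ s2 ((mul_mem_cancel_left k1).mp (le_cm_of_ne h1.comp hJ.comp n1 m))

theorem i (hJ : CI J z) (hK : CI K w) (yK : y ∈ K) (h2 : P2 y) (y1 : y * y ≠ 1) (yz : y ∈ 𝐂[z]) : y ∈ 𝐍(J) := by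
  by_cases ne : z = w
  · subst ne
    exact hK.comp.le_normalizer hJ.comp yK
  by_contra yn
  have wn := hJ.ii hK (hK.z_norm h2 yK y1 yz)
  obtain ⟨y, hy, yn, yn2⟩ := h2.step yn
  replace h2 := p2 h2.zp hy
  replace yK := zpowers_le.mpr yK hy
  replace yz := zpowers_le.mpr yz hy
  replace y1 : y * y ≠ 1 := fun e => by
    rcases hK.uq y yK e with rfl | rfl
    exacts [yn (one_mem _), yn wn]
  by_cases c : ∃ s ∈ J, s * s = z ∧ s ∈ 𝐂[w]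
  · obtain ⟨s, sJ, s2, sw⟩ := c
    exact hJ.case2 hK ne yK h2 yz yn yn2 y1 sJ s2 sw
  obtain ⟨T, hT, l⟩ := exists_isSylowIn_ge h2.zp (zpowers_le.mpr yz)
  have yT := l (mem_zpowers y)
  have wT := l (hK.mem_zp h2 yK fun e => y1 (by rw [e, mul_one]))
  have cz : ∀ {x}, x ∈ T → x * z * x⁻¹ = z := fun h => by rw [mc.mp (hT.le h), mul_inv_cancel_right]
  have two : ∀ x ∈ T, x ∈ J → w * x * w⁻¹ = x → x = 1 ∨ x = z := fun x xT xJ e => hJ.uq x xJ (by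
    by_contra n
    obtain ⟨r, hr, e'⟩ := hJ.four (p2 hT.pgroup xT) xJ n
    exact c ⟨r, zpowers_le.mpr xJ hr, e', zpowers_le.mpr (mc.mpr (mul_inv_eq_iff_eq_mul.mp e).symm) hr⟩)
  obtain ⟨x, ⟨xT, xJ⟩, x2, -⟩ := hJ.inv (hJ.syl hT) (one_mem _)
  obtain ⟨u, uT, uJ, wu⟩ := hJ.moved hT.pgroup wT wn hK.sq xT xJ fun e => c ⟨x, xJ, x2, mc.mpr e.symm⟩
  have uz := mc.mp (hT.le uT)
  have u2 : u * u = z := (two _ (mul_mem uT uT) (mul_mem uJ uJ) (by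
    rw [← conj_mul, wu, mul_assoc, ← mul_assoc z, ← uz, mul_assoc, hJ.sq, mul_one])).resolve_left fun e => hJ.ne (by
      rcases hJ.uq u uJ e with rfl | rfl
      · simpa using wu.symm
      · rw [cz wT] at wu; exact mul_eq_left.mp wu.symm)
  have y2 : y * y = w := (hK.uq _ (mul_mem yK yK) (by
    by_contra n
    obtain ⟨r, hr, e⟩ := hK.four (p2 hT.pgroup (mul_mem yT yT)) (mul_mem yK yK) n
    have rT := zpowers_le.mpr (mul_mem yT yT) hr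
    have := two _ (mul_mem (inv_mem uT) (cjm rT uT)) (mul_mem (inv_mem uJ) (nm (zpowers_le.mpr yn2 hr) uJ)) (by
      rw [← conj_mul, ← conj_inv, wu, ← e, show r * r * (r * u * r⁻¹) * (r * r)⁻¹ = r * (r * r * u * (r * r)⁻¹) * r⁻¹ by group, e, wu,
        ← conj_mul, cz rT, mc.mp (hT.le (cjm rT uT)), uz]
      group)
    rw [← e, show r * r * u * (r * r)⁻¹ = r * (r * u * r⁻¹) * r⁻¹ by group] at wu
    rcases this with f | f
    · rw [← inv_mul_eq_one.mp f, ← inv_mul_eq_one.mp f] at wu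
      exact hJ.ne (mul_eq_left.mp wu.symm)
    · rw [eq_mul_of_inv_mul_eq f, ← conj_mul, eq_mul_of_inv_mul_eq f, cz rT, mul_assoc, hJ.sq, mul_one] at wu
      exact hJ.ne (mul_eq_left.mp wu.symm))).resolve_left y1
  have cc := cm_comm hT.pgroup uT (cjm yT uT) uJ (hJ.cm_el yz yn uJ)
  have uw : u * w * u⁻¹ = z * w := by
    rw [show u * w * u⁻¹ = u * (w * u * w⁻¹)⁻¹ * w by group, wu, show u * (u * z)⁻¹ = (u * z * u⁻¹)⁻¹ by group, cz uT,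
      hJ.inv_eq]
  have h1 := uw ▸ hK.cj u
  have yw := hK.comp.le yK
  have zn := hK.z_norm h2 yK y1 yz
  have e6 : y * (u * (y * u⁻¹ * y⁻¹)) * y⁻¹ = u * (y * u⁻¹ * y⁻¹) * z := by
    have ui : u⁻¹ = u * z := by rw [inv_eq_iff_mul_eq_one, ← mul_assoc, u2, hJ.sq]
    rw [show y * (u * (y * u⁻¹ * y⁻¹)) * y⁻¹ = y * u * y⁻¹ * (y * y * u * (y * y)⁻¹)⁻¹ by group, y2, wu, ← ui, inv_inv, ui,
      ← conj_mul, cz yT, mul_assoc u, mul_assoc _ z, hJ.sq, mul_one, cc]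
  have aw : u * (y * u⁻¹ * y⁻¹) ∈ 𝐂[w] := mc.mpr (by
    rw [eq_comm, ← mul_inv_eq_iff_eq_mul, ← y2, show ∀ b, y * y * b * (y * y)⁻¹ = y * (y * b * y⁻¹) * y⁻¹ from fun b => by group,
      e6, ← conj_mul, e6, cz yT, mul_assoc, hJ.sq, mul_one])
  have e7 : u * y * u⁻¹ = u * (y * u⁻¹ * y⁻¹) * y := by group
  have zw := hK.fix zn
  refine hK.case2 h1 (fun e => hJ.ne (mul_eq_right.mp e.symm)) (conj_mem_cj u yK) (p2 hT.pgroup (cjm uT yT))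
    (e7 ▸ mul_mem aw yw) (fun n => hJ.not_mem hK ne ?_) (by rw [conj_mul, y2, uw]; exact mul_mem zn (le_normalizer hK.mem))
    (by rw [conj_mul, y2, uw]; exact h1.ne) yK y2 (mc.mpr (by rw [← mul_assoc, mc.mp yz, mul_assoc, mc.mp yw, mul_assoc]))
  have := nm (inv_mem ((mul_mem_cancel_right (le_normalizer yK)).mp (e7 ▸ n))) yK
  generalize u * (y * u⁻¹ * y⁻¹) = a at this e6
  rwa [inv_inv, mul_assoc, eq_mul_of_mul_inv_eq e6, mul_assoc a, inv_mul_cancel_left, mul_mem_cancel_right yK] at this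

end CI

end Cfsg.Agent.H1.Ci
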