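import Mathlib

set_option autoImplicit false

namespace Cfsg.Agent.H1

/-- The field with 8 elements. -/
def F8 : Type := Fin 8

namespace F8

instance instDecEqF8 : DecidableEq F8 := inferInstanceAs (DecidableEq (Fin 8))
instance instFintypeF8 : Fintype F8 := inferInstanceAs (Fintype (Fin 8))

/-- The number of an element. -/
def val (a : F8) : ℕ := Fin.val (n := 8) a

/-- The element with a given number. -/
def mk (n : ℕ) : F8 := (⟨n % 8, Nat.mod_lt _ (by norm_num)⟩ : Fin 8)

/-- multiplication table -/
def tab : ℕ := 2821848294356612419217921029917578219971947684264937521152

instance instZeroF8 : Zero F8 := ⟨mk 0⟩
instance instOneF8 : One F8 := ⟨mk 1⟩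
instance instAddF8 : Add F8 := ⟨fun a b => mk (a.val ^^^ b.val)⟩
instance instNegF8 : Neg F8 := ⟨fun a => a⟩
instance instMulF8 : Mul F8 := ⟨fun a b => mk (tab >>> (24 * a.val + 3 * b.val))⟩
instance instInvF8 : Inv F8 := ⟨fun a => mk (9272648 >>> (3 * a.val))⟩

instance instFieldF8 : Field F8 :=
  Field.ofMinimalAxioms F8 (by decide +kernel) (by decide +kernel) (by decide +kernel)
    (by decide +kernel) (by decide +kernel) (by decide +kernel) (by decide +kernel)
    (by decide +kernel) (by decide +kernel) (by decide +kernel)

theorem card_eq : Fintype.card F8 = 8 := rfl

end F8

/-- The field with 32 elements. -/
def F32 : Type := Fin 32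

namespace F32

instance instDecEqF32 : DecidableEq F32 := inferInstanceAs (DecidableEq (Fin 32))
instance instFintypeF32 : Fintype F32 := inferInstanceAs (Fintype (Fin 32))

/-- The number of an element. -/
def val (a : F32) : ℕ := Fin.val (n := 32) a

/-- The element with a given number. -/
def mk (n : ℕ) : F32 := (⟨n % 32, Nat.mod_lt _ (by norm_num)⟩ : Fin 32)

/-- multiplication table -/
def tab : ℕ := 10804790320877618230182117722110324247614311659395506013029330458997937962479251515344884204855750806294404612440622969529606692591460676258168946100208577849486992125330899329987181609298549197604516901755941091564125036713748707747426776247516584619205259216802546159557607166465616855139081203028281054714227357570768599207195163043960719676316000398369598614255276185713700286144109153885428982506324610699611158552261227059438789379260467764380627842086609520042949883487516427845390931885887392836135045154207535938958535084689603263728103821316779841035741419074688559123867239655528631492722510449027600428180227561218631053889701282130946695207147406256729151072484424032823179450717896906499766958167526089017157966186180478128794717986834627921692536937279257076987869006189525163369018793476685324952547495293083433180957372594232294212885961457685689610720896445767611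0404290123549830361915177833475321143338419370844702955843687682335496728704246540419906221753620676385508341937256156840096544712112163214344887431563846620792143299057294129562689729500658535791013600437345014523103774325441249963724119162034606046898190840942821086017654297642452944418259132037807734164211605724739782819781353435761009390836216362900777584713462606884327330779408941635095127726452318274311602862610838031905185084111375203469849716078223880040803555184033898903431904408499901976387979014468435507345745772488651003084902781458751948967454175797339287002946443741078296424767125593778879332774650111994871979244289813779477452088152162304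

instance instZeroF32 : Zero F32 := ⟨mk 0⟩
instance instOneF32 : One F32 := ⟨mk 1⟩
instance instAddF32 : Add F32 := ⟨fun a b => mk (a.val ^^^ b.val)⟩
instance instNegF32 : Neg F32 := ⟨fun a => a⟩
instance instMulF32 : Mul F32 := ⟨fun a b => mk (tab >>> (160 * a.val + 5 * b.val))⟩
instance instInvF32 : Inv F32 := ⟨fun a => mk (1262539949331657191584015143012150064589853050912 >>> (5 * a.val))⟩

instance instFieldF32 : Field F32 :=
  Field.ofMinimalAxioms F32 (by decide +kernel) (by decide +kernel) (by decide +kernel)
    (by decide +kernel) (by decide +kernel) (by decide +kernel) (by decide +kernel)
    (by decide +kernel) (by decide +kernel) (by decide +kernel)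

theorem card_eq : Fintype.card F32 = 32 := rfl

end F32

end Cfsg.Agent.H1
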