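import Cfsg.Agent.H1.Singer
import Cfsg.Agent.H1.Squares
import Cfsg.Agent.H5.PBasic

set_option autoImplicit false
set_option linter.unusedSectionVars false

namespace Cfsg.Agent.H1.Fpf3

open scoped commutatorElement
open Singer Squares

theorem ext_comp {Q A A' K : Type*} [Group Q] [AddCommGroup A] [AddCommGroup A'] [AddCommGroup K]
    {s : A → K} {s' : A' → K} {π : Q → A} {z : K → Q} (h : Ext s π z) (φ : A → A')
    (h1 : ∀ a b, φ (a + b) = φ a + φ b) (h2 : ∀ a, φ a = 0 ↔ a = 0) (h3 : ∀ b, ∃ a, φ a = b)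
    (h4 : ∀ a, s a = s' (φ a)) : Ext s' (fun u => φ (π u)) z where
  πmul u v := by rw [h.πmul, h1]
  πsurj b := by
    obtain ⟨a, rfl⟩ := h3 b
    obtain ⟨u, rfl⟩ := h.πsurj a
    exact ⟨u, rfl⟩
  zadd := h.zadd
  zinj := h.zinj
  zc := h.zc
  ker u := by rw [h2, h.ker]
  sq u := by rw [h.sq, h4]

def piD : DihedralGroup 4 → ZMod 2 × ZMod 2
  | .r i => ((i.val : ZMod 2), (i.val : ZMod 2))
  | .sr i => ((i.val : ZMod 2) + 1, (i.val : ZMod 2))

def piQ : QuaternionGroup 2 → ZMod 2 × ZMod 2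
  | .a i => ((i.val : ZMod 2), 0)
  | .xa i => ((i.val : ZMod 2), 1)

theorem ext_D8 : Ext (fun p : ZMod 2 × ZMod 2 => p.1 * p.2) piD
    (fun t => if t = 0 then 1 else .r 2) :=
  ⟨by decide, by unfold Function.Surjective; decide, by decide, by unfold Function.Injective; decide,
    by decide, by decide, by decide⟩

theorem ext_Q8 : Ext (fun p : ZMod 2 × ZMod 2 => p.1 ^ 2 + p.1 * p.2 + p.2 ^ 2) piQ
    (fun t => if t = 0 then 1 else .a 2) :=
  ⟨by decide, by unfold Function.Surjective; decide, by decide, by unfold Function.Injective; decide,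
    by decide, by decide, by decide⟩

theorem eight {Q : Type*} [Group Q] {a b : ZMod 2} {π : Q → ZMod 2 × ZMod 2} {z : ZMod 2 → Q}
    (h : Ext (fun p : ZMod 2 × ZMod 2 => a * p.1 ^ 2 + p.1 * p.2 + b * p.2 ^ 2) π z) :
    Nonempty (Q ≃* DihedralGroup 4) ∨ Nonempty (Q ≃* QuaternionGroup 2) := by
  by_cases hab : a = 1 ∧ b = 1
  · right
    obtain ⟨rfl, rfl⟩ := hab
    exact (ext_comp h id (by decide) (by decide) (by decide) (by decide)).nonempty_equiv ext_Q8
  · left
    refine (ext_comp h (fun p => (p.1 + b * p.2, a * p.1 + p.2)) ?_ ?_ ?_ ?_).nonempty_equiv ext_D8 <;>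
      clear h <;> revert a b <;> decide

/-- a 2-group with a fixed point free automorphism of order three -/
structure F3 {G : Type*} [Group G] (ρ : G →* G) : Prop where
  p : IsPGroup 2 G
  r3 : ∀ g, ρ (ρ (ρ g)) = g
  n1 : ∀ g, g * ρ g * ρ (ρ g) = 1
  cm : ∀ g, g * ρ g = ρ g * g

variable {G : Type*} [Group G] [Finite G] {ρ : G →* G}

theorem f3_of_fpf (h : IsPGroup 2 G) (r3 : ∀ g, ρ (ρ (ρ g)) = g) (hf : ∀ g, ρ g = g → g = 1) : F3 ρ := by
  have s1 : Function.Surjective fun t => t⁻¹ * ρ t := Finite.injective_iff_surjective.mp (by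
    intro a b e
    have e' : a⁻¹ * ρ a = b⁻¹ * ρ b := e
    have := hf (b * a⁻¹) (by
      rw [map_mul, map_inv, ← mul_inv_cancel_left b (ρ b), ← e']; group)
    exact (mul_inv_eq_one.mp this).symm)
  have n1 : ∀ g, g * ρ g * ρ (ρ g) = 1 := fun g => by
    obtain ⟨t, rfl⟩ := s1 g
    simp only [map_mul, map_inv, r3]; group
  have n2 : ∀ g, ρ g * g * ρ (ρ g) = 1 := fun g => by
    have := n1 g⁻¹
    rw [map_inv, map_inv] at this
    calc ρ g * g * ρ (ρ g) = (ρ (ρ g))⁻¹ * (g⁻¹ * (ρ g)⁻¹ * (ρ (ρ g))⁻¹)⁻¹ * ρ (ρ g) := by group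
      _ = 1 := by rw [this]; group
  exact ⟨h, r3, n1, fun g => mul_right_cancel ((n1 g).trans (n2 g).symm)⟩

theorem F3.fpf (h : F3 ρ) (g : G) (e : ρ g = g) : g = 1 := by
  have e1 := h.n1 g
  rw [e, e] at e1
  obtain ⟨k, hk⟩ := h.p g
  have : orderOf g ∣ Nat.gcd 3 (2 ^ k) := Nat.dvd_gcd (orderOf_dvd_of_pow_eq_one (by
    rw [← e1, pow_three'])) (orderOf_dvd_of_pow_eq_one hk)
  rw [(Nat.Coprime.pow_right k (by norm_num) : Nat.Coprime 3 (2 ^ k)), Nat.dvd_one] at this
  exact orderOf_eq_one_iff.mp this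

theorem F3.inj (h : F3 ρ) : Function.Injective ρ := fun a b e => by rw [← h.r3 a, e, h.r3]

theorem F3.map_center (h : F3 ρ) {g : G} (hg : g ∈ Subgroup.center G) : ρ g ∈ Subgroup.center G := by
  rw [Subgroup.mem_center_iff] at hg ⊢
  intro u
  rw [← h.r3 u, ← map_mul, ← map_mul, hg]

theorem F3.quot (h : F3 ρ) : ∃ ρ' : G ⧸ Subgroup.center G →* G ⧸ Subgroup.center G,
    F3 ρ' ∧ ∀ u : G, ρ' u = (ρ u : G) := by
  let ρ' : G ⧸ Subgroup.center G →* G ⧸ Subgroup.center G :=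
    QuotientGroup.map _ _ ρ (fun u hu => h.map_center hu)
  have hρ : ∀ u : G, ρ' u = (ρ u : G) := fun u => rfl
  refine ⟨ρ', ⟨h.p.to_quotient _, ?_, ?_, ?_⟩, hρ⟩ <;> intro u <;>
    obtain ⟨u, rfl⟩ := QuotientGroup.mk_surjective u <;>
    simp only [hρ, ← QuotientGroup.mk_mul]
  · rw [h.r3]
  · rw [h.n1]; rfl
  · rw [h.cm]

theorem F3.center (h : F3 ρ) : ∃ ρ' : Subgroup.center G →* Subgroup.center G,
    F3 ρ' ∧ ∀ u, (ρ' u : G) = ρ u :=
  ⟨(ρ.comp (Subgroup.center G).subtype).codRestrict _ (fun u => h.map_center u.2),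
    ⟨h.p.to_subgroup _, fun u => Subtype.ext (h.r3 u), fun u => Subtype.ext (h.n1 u),
      fun u => Subtype.ext (h.cm u)⟩, fun _ => rfl⟩

theorem F3.card_four [DecidableEq G] (h : F3 ρ) {g : G} (hg : g ≠ 1) :
    ({1, g, ρ g, ρ (ρ g)} : Finset G).card = 4 := by
  have e1 : ρ g ≠ 1 := fun e => hg (h.inj (by rw [e, map_one]))
  have e2 : ρ (ρ g) ≠ 1 := fun e => e1 (h.inj (by rw [e, map_one]))
  have e3 : ρ g ≠ g := fun e => hg (h.fpf g e)
  have e4 : ρ (ρ g) ≠ ρ g := fun e => e3 (h.inj e)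
  have e5 : ρ (ρ g) ≠ g := fun e => e3 (by have := congrArg ρ e; rw [h.r3] at this; exact this.symm)
  rw [Finset.card_eq_four]
  exact ⟨_, _, _, _, hg.symm, e1.symm, e2.symm, e3.symm, e5.symm, e4.symm, rfl⟩

theorem F3.four_le [Nontrivial G] (h : F3 ρ) : 4 ≤ Nat.card G := by
  classical
  obtain ⟨g, hg⟩ := exists_ne (1 : G)
  have := Fintype.ofFinite G
  rw [← h.card_four hg, Nat.card_eq_fintype_card]
  exact Finset.card_le_univ _

theorem F3.enum (h : F3 ρ) (hc : Nat.card G ≤ 4) {g : G} (hg : g ≠ 1) (u : G) :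
    u = 1 ∨ u = g ∨ u = ρ g ∨ u = ρ (ρ g) := by
  classical
  have := Fintype.ofFinite G
  have e := Finset.eq_univ_of_card _ (le_antisymm (Finset.card_le_univ _) (by
    rw [h.card_four hg, ← Nat.card_eq_fintype_card]; exact hc))
  have := Finset.mem_univ u
  rw [← e] at this
  simpa using this

theorem F3.card_mod (h : F3 ρ) : Nat.card G % 3 = 1 := by
  classical
  have := Fintype.ofFinite G
  haveI : Fact (Nat.Prime 3) := ⟨Nat.prime_three⟩
  have e := Equiv.Perm.card_fixedPoints_modEq (f := (fun g => ρ g : Function.End G)) (p := 3) (n := 1)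
    (funext h.r3)
  have : Fintype.card (Function.fixedPoints ρ) = 1 :=
    Fintype.card_eq_one_iff.mpr ⟨⟨1, map_one ρ⟩, fun ⟨g, hg⟩ => Subtype.ext (h.fpf g hg)⟩
  rw [Nat.card_eq_fintype_card]
  exact (show _ ≡ 1 [MOD 3] from this ▸ e)

theorem F3.comm_of_card (h : F3 ρ) (hc : Nat.card (G ⧸ Subgroup.center G) ≤ 4) (g : G) :
    g ∈ Subgroup.center G := by
  by_contra hg
  obtain ⟨ρ', h', hρ⟩ := h.quot
  apply hg
  rw [Subgroup.mem_center_iff]
  intro u
  have key : ∀ v : G, v * g = g * v → (u : G ⧸ Subgroup.center G) = v → u * g = g * u := by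
    intro v hv e
    rw [eq_comm, QuotientGroup.eq, Subgroup.mem_center_iff] at e
    rw [← mul_inv_cancel_left v u, mul_assoc, ← e, ← mul_assoc, hv, mul_assoc]
  rcases h'.enum hc (g := g) (by rwa [Ne, QuotientGroup.eq_one_iff]) u with e | e | e | e
  · exact key 1 (by simp) e
  · exact key g rfl e
  · exact key _ (h.cm g).symm (by rw [e, hρ])
  · refine key (ρ (ρ g)) ?_ (by rw [e, hρ, hρ])
    have := h.cm (ρ (ρ g))
    rwa [h.r3] at this

/-- the generator of `F4ˣ` -/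
def om : F4 := F4.mk 2

theorem f4_cases (t : F4) : t = 0 ∨ t = 1 ∨ t = om ∨ t = om + 1 := by revert t; decide

theorem F3.exists_z (h : F3 ρ) {w : G} (hw : w ∈ Subgroup.center G) (hw1 : w ≠ 1) (hww : w * w = 1) :
    ∃ z : F4 → G, z 0 = 1 ∧ z 1 = w ∧ z om = ρ (ρ w) ∧ z (om + 1) = ρ w ∧
      (∀ s t, z (s + t) = z s * z t) ∧ Function.Injective z ∧ (∀ t, z t ∈ Subgroup.center G) ∧
      ∀ t, ρ (z t) = z ((om + 1) * t) := by
  set b := ρ (ρ w) with hb
  have hbc : b ∈ Subgroup.center G := h.map_center (h.map_center hw)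
  have hbb : b * b = 1 := by rw [hb, ← map_mul, ← map_mul, hww, map_one, map_one]
  have hab : Commute w b := Subgroup.mem_center_iff.mp hbc w
  have hρw : w * b = ρ w := by
    have := h.n1 w
    rw [← hb] at this
    calc w * b = w * (w * ρ w * b) * b := by rw [this, mul_one]
      _ = (w * w) * ρ w * (b * b) := by group
      _ = _ := by rw [hww, hbb, one_mul, mul_one]
  let z : F4 → G := fun t => w ^ (t.val % 2) * b ^ (t.val / 2)
  have z0 : z 0 = 1 := by change w ^ 0 * b ^ 0 = 1; simp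
  have z1 : z 1 = w := by change w ^ 1 * b ^ 0 = w; simp
  have z2 : z om = b := by change w ^ 0 * b ^ 1 = b; simp
  have z3 : z (om + 1) = ρ w := by change w ^ 1 * b ^ 1 = _; simp [hρw]
  have zadd : ∀ s t, z (s + t) = z s * z t := by
    intro s t
    have e1 : (s + t).val % 2 = (s.val % 2 + t.val % 2) % 2 := by revert s t; decide
    have e2 : (s + t).val / 2 = (s.val / 2 + t.val / 2) % 2 := by revert s t; decide
    simp only [z]
    rw [e1, e2, ← pow_eq_pow_mod _ (by rw [sq, hww]), ← pow_eq_pow_mod _ (by rw [sq, hbb]), pow_add,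
      pow_add, (hab.pow_pow _ _).mul_mul_mul_comm]
  have e1 : ρ w ≠ 1 := fun e => hw1 (h.inj (by rw [e, map_one]))
  have e2 : b ≠ 1 := fun e => e1 (h.inj (by rw [← hb, e, map_one]))
  refine ⟨z, z0, z1, z2, z3, zadd, ?_, fun t => mul_mem (pow_mem hw _) (pow_mem hbc _), ?_⟩
  · intro s t e
    have e3 : z (s + t) = 1 := by
      rw [zadd, e, ← zadd, show t + t = 0 from (by decide : ∀ t : F4, t + t = 0) t, z0]
    have : s + t = 0 := by
      rcases f4_cases (s + t) with e4 | e4 | e4 | e4 <;> rw [e4] at e3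
      · exact e4
      · exact absurd (z1 ▸ e3) hw1
      · exact absurd (z2 ▸ e3) e2
      · exact absurd (z3 ▸ e3) e1
    exact (by decide : ∀ s t : F4, s + t = 0 → s = t) s t this
  · intro t
    rcases f4_cases t with rfl | rfl | rfl | rfl
    · rw [mul_zero, z0, map_one]
    · rw [mul_one, z1, z3]
    · rw [show (om + 1) * om = 1 by decide, z2, z1, hb, h.r3]
    · rw [show (om + 1) * (om + 1) = om by decide, z3, z2]

end Cfsg.Agent.H1.Fpf3
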