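import Cfsg.Prelude.Def_Spor_J2

/-! Computable arithmetic of the icosians. -/

set_option autoImplicit false

namespace Cfsg.Agent.H1.Ico

open Cfsg.Spor Quaternion

@[ext] structure Zt where
  a : ℤ
  b : ℤ
  deriving DecidableEq

instance : Add Zt := ⟨fun x y => ⟨x.a + y.a, x.b + y.b⟩⟩
instance : Neg Zt := ⟨fun x => ⟨-x.a, -x.b⟩⟩
instance : Mul Zt := ⟨fun x y => ⟨x.a * y.a + x.b * y.b, x.a * y.b + x.b * (y.a + y.b)⟩⟩

theorem Zt.add_def (x y : Zt) : x + y = ⟨x.a + y.a, x.b + y.b⟩ := rfl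
theorem Zt.neg_def (x : Zt) : -x = ⟨-x.a, -x.b⟩ := rfl
theorem Zt.mul_def (x y : Zt) : x * y = ⟨x.a * y.a + x.b * y.b, x.a * y.b + x.b * (y.a + y.b)⟩ := rfl

noncomputable def vz (x : Zt) : ℝ := x.a + x.b * tau

theorem s5 : Real.sqrt 5 = 2 * tau - 1 := by rw [tau]; ring
theorem sig_eq : sig = 1 - tau := by rw [sig, tau]; ring
theorem ht : tau ^ 2 - tau - 1 = 0 := by
  have := Real.sq_sqrt (show (0 : ℝ) ≤ 5 by norm_num)
  rw [s5] at this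
  linear_combination this / 4
theorem tau_gt : 1 < tau := by
  have := Real.lt_sqrt_of_sq_lt (show (1 : ℝ) ^ 2 < 5 by norm_num)
  rw [s5] at this
  linarith

theorem vz_mk (a b : ℤ) : vz ⟨a, b⟩ = a + b * tau := rfl
theorem vz_add (x y : Zt) : vz (x + y) = vz x + vz y := by simp only [vz, Zt.add_def]; push_cast; ring
theorem vz_neg (x : Zt) : vz (-x) = -vz x := by simp only [vz, Zt.neg_def]; push_cast; ring
theorem vz_mul (x y : Zt) : vz (x * y) = vz x * vz y := by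
  simp only [vz, Zt.mul_def]; push_cast; linear_combination (-(x.b : ℝ) * y.b) * ht

theorem vz_inj {x y : Zt} (h : vz x = vz y) : x = y := by
  have i : Irrational tau := by
    have := ((Nat.prime_five.irrational_sqrt.add_intCast 1).div_intCast (m := 2) two_ne_zero)
    rw [tau, add_comm]
    exact_mod_cast this
  have hb : x.b = y.b := by
    by_contra e
    refine (i.intCast_mul (sub_ne_zero.mpr e)).ne_int (y.a - x.a) ?_
    simp only [vz] at h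
    push_cast
    linarith
  refine Zt.ext ?_ hb
  simp only [vz, hb] at h
  exact_mod_cast add_right_cancel h

@[ext] structure Ic where
  c0 : Zt
  c1 : Zt
  c2 : Zt
  c3 : Zt
  deriving DecidableEq

instance : Add Ic := ⟨fun x y => ⟨x.c0 + y.c0, x.c1 + y.c1, x.c2 + y.c2, x.c3 + y.c3⟩⟩
instance : Neg Ic := ⟨fun x => ⟨-x.c0, -x.c1, -x.c2, -x.c3⟩⟩
def Ic.mul (x y : Ic) : Ic :=
  ⟨x.c0 * y.c0 + -(x.c1 * y.c1) + ⟨1, -1⟩ * (x.c1 * y.c2) + ⟨-1, 1⟩ * (x.c1 * y.c3) + ⟨-2, 1⟩ * (x.c2 * y.c1) + -(x.c2 * y.c2) + ⟨-2, 1⟩ * (x.c2 * y.c3) + ⟨1, -1⟩ * (x.c3 * y.c2) + -(x.c3 * y.c3),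
    x.c0 * y.c1 + x.c1 * y.c0 + ⟨3, -1⟩ * (x.c1 * y.c2) + ⟨0, 1⟩ * (x.c1 * y.c3) + ⟨-2, 1⟩ * (x.c2 * y.c1) + ⟨-2, 2⟩ * (x.c2 * y.c3) + ⟨1, -1⟩ * (x.c3 * y.c1) + ⟨2, -2⟩ * (x.c3 * y.c2),
    x.c0 * y.c2 + -(x.c1 * y.c2) + ⟨0, -1⟩ * (x.c1 * y.c3) + x.c2 * y.c0 + x.c2 * y.c1 + x.c2 * y.c2 + ⟨1, -1⟩ * (x.c2 * y.c3) + ⟨0, 1⟩ * (x.c3 * y.c1) + ⟨0, 1⟩ * (x.c3 * y.c2),
    x.c0 * y.c3 + ⟨-2, 2⟩ * (x.c1 * y.c2) + x.c1 * y.c3 + ⟨2, -2⟩ * (x.c2 * y.c1) + ⟨3, -1⟩ * (x.c2 * y.c3) + x.c3 * y.c0 + -(x.c3 * y.c1) + ⟨-2, 1⟩ * (x.c3 * y.c2) + x.c3 * y.c3⟩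
instance : Mul Ic := ⟨Ic.mul⟩
theorem Ic.add_def (x y : Ic) : x + y = ⟨x.c0 + y.c0, x.c1 + y.c1, x.c2 + y.c2, x.c3 + y.c3⟩ := rfl
theorem Ic.mul_def (x y : Ic) : x * y = x.mul y := rfl
def cnj (x : Ic) : Ic := ⟨x.c0 + x.c2 + x.c3, -x.c1, -x.c2, -x.c3⟩
def ofZ (a b : ℤ) : Ic := ⟨⟨a, b⟩, ⟨0, 0⟩, ⟨0, 0⟩, ⟨0, 0⟩⟩
def hh : Ic := ⟨⟨0, -1⟩, ⟨0, 0⟩, ⟨1, 0⟩, ⟨0, 0⟩⟩
def hz (x : Zt) : Zt := ⟨x.a / 2, x.b / 2⟩
def half (x : Ic) : Ic := ⟨hz x.c0, hz x.c1, hz x.c2, hz x.c3⟩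
def ev (x : Ic) : Bool := half x + half x == x

noncomputable def val (x : Ic) : ℍ[ℝ] :=
  ⟨vz x.c0 + (vz x.c2 + vz x.c3) / 2, vz x.c1 + (vz x.c2 + (1 - tau) * vz x.c3) / 2, vz x.c2 / 2,
    (vz x.c2 + tau * vz x.c3) / 2⟩

theorem v0 (x : Ic) : (val x).re = vz x.c0 + (vz x.c2 + vz x.c3) / 2 := rfl
theorem v1 (x : Ic) : (val x).imI = vz x.c1 + (vz x.c2 + (1 - tau) * vz x.c3) / 2 := rfl
theorem v2 (x : Ic) : (val x).imJ = vz x.c2 / 2 := rfl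
theorem v3 (x : Ic) : (val x).imK = (vz x.c2 + tau * vz x.c3) / 2 := rfl

theorem val_add (x y : Ic) : val (x + y) = val x + val y := by
  ext <;> simp only [v0, v1, v2, v3, Ic.add_def, vz_add, re_add,
    imI_add, imJ_add, imK_add] <;> ring

theorem val_neg (x : Ic) : val (-x) = -val x := by
  ext <;> simp only [v0, v1, v2, v3, show -x = ⟨-x.c0, -x.c1, -x.c2, -x.c3⟩ from rfl, vz_neg, re_neg, imI_neg, imJ_neg, imK_neg] <;>
    ring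

theorem val_mul (x y : Ic) : val (x * y) = val x * val y := by
  ext <;> simp only [v0, v1, v2, v3, Ic.mul_def, Ic.mul, vz_add, vz_neg, vz_mul, vz_mk, re_mul, imI_mul, imJ_mul,
    imK_mul] <;> push_cast
  · linear_combination (vz x.c3 * vz y.c3 / 2) * ht
  · linear_combination (-vz x.c1 * vz y.c2 + vz x.c2 * vz y.c1 + vz x.c2 * vz y.c3 / 2 - vz x.c3 * vz y.c2 / 2) * ht
  · ring
  · linear_combination (vz x.c1 * vz y.c2 - vz x.c2 * vz y.c1 - vz x.c2 * vz y.c3 / 2 + vz x.c3 * vz y.c2 / 2) * ht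

theorem val_cnj (x : Ic) : val (cnj x) = star (val x) := by
  ext <;> simp only [v0, v1, v2, v3, cnj, vz_add, vz_neg, re_star, imI_star, imJ_star, imK_star] <;> ring

theorem val_ofZ (a b : ℤ) : val (ofZ a b) = ((a + b * tau : ℝ) : ℍ[ℝ]) := by
  ext <;> simp [v0, v1, v2, v3, ofZ, vz_mk]

theorem val_0 : val (ofZ 0 0) = 0 := by simp [val_ofZ]
theorem val_1 : val (ofZ 1 0) = 1 := by simp [val_ofZ]
theorem val_2 : val (ofZ 2 0) = 2 := by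
  rw [show ofZ 2 0 = ofZ 1 0 + ofZ 1 0 from rfl, val_add, val_1, one_add_one_eq_two]
theorem val_4 : val (ofZ 4 0) = 4 := by
  rw [show ofZ 4 0 = ofZ 2 0 + ofZ 2 0 from rfl, val_add, val_2, two_add_two_eq_four]

theorem val_hh : val hh = icoH := by
  ext <;> simp [v0, v1, v2, v3, hh, icoH, vz_mk, s5]
  ring

theorem val_inj {x y : Ic} (h : val x = val y) : x = y := by
  have h0 := congrArg QuaternionAlgebra.re h
  have h1 := congrArg QuaternionAlgebra.imI h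
  have h2 := congrArg QuaternionAlgebra.imJ h
  have h3 := congrArg QuaternionAlgebra.imK h
  simp only [v0, v1, v2, v3] at h0 h1 h2 h3
  have e2 : vz x.c2 = vz y.c2 := by linarith
  have e3 : vz x.c3 = vz y.c3 := mul_left_cancel₀ (zero_lt_one.trans tau_gt).ne' (by linarith)
  rw [e2, e3] at h0 h1
  exact Ic.ext (vz_inj (add_right_cancel h0)) (vz_inj (add_right_cancel h1)) (vz_inj e2) (vz_inj e3)

theorem half_add (x : Ic) : half (x + x) = x := by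
  ext <;> simp only [half, hz, Ic.add_def, Zt.add_def] <;>
    omega

theorem ev_iff {x : Ic} : ev x = true ↔ ∃ y, val x = 2 * val y :=
  ⟨fun h => ⟨half x, by rw [two_mul, ← val_add, beq_iff_eq.mp h]⟩, fun ⟨y, h⟩ => by
    rw [two_mul, ← val_add] at h
    rw [val_inj h, ev, half_add, beq_self_eq_true]⟩

theorem val_half {x : Ic} (h : ev x = true) : val (half x) = (1 / 2 : ℝ) • val x := by
  nth_rw 2 [← beq_iff_eq.mp h]
  rw [val_add, ← two_smul ℝ, smul_smul]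
  norm_num

theorem mem_ico {x : ℍ[ℝ]} : x ∈ icosians ↔ ∃ c, val c = x := by
  have e1 : val ⟨⟨0, 0⟩, ⟨1, 0⟩, ⟨0, 0⟩, ⟨0, 0⟩⟩ = qI := by ext <;> simp [v0, v1, v2, v3, qI, vz_mk]
  have e3 : val ⟨⟨0, 0⟩, ⟨0, 0⟩, ⟨0, 0⟩, ⟨1, 0⟩⟩ = ⟨1 / 2, sig / 2, 0, tau / 2⟩ := by ext <;> simp [v0, v1, v2, v3, sig_eq, vz_mk]
  refine ⟨fun h => ?_, ?_⟩
  · induction h using Subring.closure_induction with
    | mem x hx => exact hx.elim (fun e => ⟨_, e ▸ e1⟩) fun e => ⟨_, e ▸ e3⟩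
    | zero => exact ⟨_, val_0⟩
    | one => exact ⟨_, val_1⟩
    | add _ _ _ _ h1 h2 => obtain ⟨a, rfl⟩ := h1; obtain ⟨b, rfl⟩ := h2; exact ⟨_, val_add a b⟩
    | neg _ _ h1 => obtain ⟨a, rfl⟩ := h1; exact ⟨_, val_neg a⟩
    | mul _ _ _ _ h1 h2 => obtain ⟨a, rfl⟩ := h1; obtain ⟨b, rfl⟩ := h2; exact ⟨_, val_mul a b⟩
  rintro ⟨c, rfl⟩
  have ad : ∀ {x y}, val x ∈ icosians → val y ∈ icosians → val (x + y) ∈ icosians := fun h1 h2 =>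
    val_add _ _ ▸ add_mem h1 h2
  have mu : ∀ {x y}, val x ∈ icosians → val y ∈ icosians → val (x * y) ∈ icosians := fun h1 h2 =>
    val_mul _ _ ▸ mul_mem h1 h2
  have ne : ∀ {x}, val x ∈ icosians → val (-x) ∈ icosians := fun h1 => val_neg _ ▸ neg_mem h1
  have m1 : qI ∈ icosians := Subring.subset_closure (Or.inl rfl)
  have m3 : (⟨1 / 2, sig / 2, 0, tau / 2⟩ : ℍ[ℝ]) ∈ icosians := Subring.subset_closure (Or.inr rfl)
  rw [← e1] at m1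
  rw [← e3] at m3
  have m0 : val (ofZ 1 0) ∈ icosians := val_1 ▸ one_mem _
  have ms : val (ofZ 1 (-1)) ∈ icosians := ad m1 (ne (ad (mu m1 m3) (mu m3 m1)))
  have mt : val (ofZ 0 1) ∈ icosians := ad m0 (ne ms)
  have m2 : val ⟨⟨0, 0⟩, ⟨0, 0⟩, ⟨1, 0⟩, ⟨0, 0⟩⟩ ∈ icosians := mu (ne ms) (ad (ad (mu m3 m1) (ne (mu ms m1))) m3)
  have mz : ∀ a b, val (ofZ a b) ∈ icosians := fun a b => by
    have := add_mem (intCast_mem icosians a) (mul_mem (intCast_mem icosians b) mt)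
    rw [val_ofZ] at this ⊢
    convert this using 1
    ext <;> simp
  have := ad (ad (ad (mz c.c0.a c.c0.b) (mu (mz c.c1.a c.c1.b) m1)) (mu (mz c.c2.a c.c2.b) m2)) (mu (mz c.c3.a c.c3.b) m3)
  convert this using 2
  ext <;> simp [ofZ, Ic.add_def, Ic.mul_def, Ic.mul, Zt.add_def, Zt.mul_def, Zt.neg_def]

end Cfsg.Agent.H1.Ico
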