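import Cfsg.Agent.H1.IcA

/-! Norms and units of the icosians; the lattice and its reflections. -/

set_option autoImplicit false

namespace Cfsg.Agent.H1.Ico

open Cfsg.Spor Quaternion

def nq (c : Ic) : Zt := (c * cnj c).c0

theorem val_nq (c : Ic) : val c * star (val c) = ((vz (nq c) : ℝ) : ℍ[ℝ]) := by
  have : c * cnj c = ofZ (nq c).a (nq c).b := by
    ext <;> simp [nq, ofZ, cnj, Ic.mul_def, Ic.mul, Zt.add_def, Zt.mul_def, Zt.neg_def] <;> ring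
  rw [← val_cnj, ← val_mul, this, val_ofZ, vz]

theorem nq_nonneg (c : Ic) : 0 ≤ vz (nq c) := by
  have := val_nq c
  rw [self_mul_star, coe_inj] at this
  exact this ▸ normSq_nonneg

def tq (c : Ic) : List ℤ := [2 * c.c0.a + c.c2.a + c.c3.a, 2 * c.c0.b + c.c2.b + c.c3.b,
  2 * c.c1.a + c.c2.a + c.c3.a - c.c3.b, 2 * c.c1.b + c.c2.b - c.c3.a, c.c2.a, c.c2.b, c.c2.a + c.c3.b,
  c.c2.b + c.c3.a + c.c3.b]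

def m (a b c d e f g h : ℤ) : Ic := ⟨⟨a, b⟩, ⟨c, d⟩, ⟨e, f⟩, ⟨g, h⟩⟩

def ofq : List ℤ → Ic
  | [p0, p1, p2, p3, p4, p5, p6, p7] => m ((p0 - p7 + p5 + p6 - 2 * p4) / 2) ((p1 - p5 - p6 + p4) / 2)
      ((p2 - p7 + p5 + 2 * p6 - 3 * p4) / 2) ((p3 + p7 - 2 * p5 - p6 + p4) / 2) p4 p5 (p7 - p5 - p6 + p4) (p6 - p4)
  | _ => ofZ 0 0

theorem ofq_tq (c : Ic) : ofq (tq c) = c := by
  ext <;> simp only [ofq, tq, m] <;> omega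

theorem sum_tq (c : Ic) : ((tq c).map fun a => a * a).sum = 4 * (nq c).a := by
  simp [tq, nq, cnj, Ic.mul_def, Ic.mul, Zt.add_def, Zt.mul_def, Zt.neg_def]
  ring

theorem sq_nonneg' (l : List ℤ) : 0 ≤ (l.map fun a => a * a).sum :=
  List.sum_nonneg fun _ h => by obtain ⟨a, -, rfl⟩ := List.mem_map.mp h; exact mul_self_nonneg a

theorem nq_a (c : Ic) : 0 ≤ (nq c).a := by have := sum_tq c ▸ sq_nonneg' (tq c); omega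

def ball : ℕ → ℤ → List (List ℤ)
  | 0, _ => [[]]
  | n + 1, k => [-4, -3, -2, -1, 0, 1, 2, 3, 4].flatMap fun a => if a * a ≤ k then (ball n (k - a * a)).map (a :: ·) else []

theorem mem_ball (l : List ℤ) : ∀ k, (l.map fun a => a * a).sum ≤ k → k ≤ 16 → l ∈ ball l.length k := by
  induction l with
  | nil => simp [ball]
  | cons a l ih =>
    intro k h1 h2
    have := sq_nonneg' l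
    have h3 := mul_self_nonneg a
    rw [List.map_cons, List.sum_cons] at h1
    refine List.mem_flatMap.mpr ⟨a, ?_, by
      rw [if_pos (by omega)]; exact List.mem_map_of_mem (ih _ (by omega) (by omega))⟩
    have : -4 ≤ a := by nlinarith
    have : a ≤ 4 := by nlinarith
    interval_cases a <;> simp

theorem fin_nq : {c : Ic | (nq c).a ≤ 4}.Finite :=
  (((ball 8 16).finite_toSet).image ofq).subset fun c hc =>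
    ⟨_, mem_ball (tq c) 16 (by rw [sum_tq]; have : (nq c).a ≤ 4 := hc; omega) le_rfl, ofq_tq c⟩

theorem eq_zero {c : Ic} (h : (nq c).a = 0) : c = ofZ 0 0 := by
  have := mem_ball (tq c) 0 (by rw [sum_tq, h]; rfl) (by norm_num)
  rw [show ball (tq c).length 0 = [tq (ofZ 0 0)] from (by decide +kernel : ball 8 0 = [tq (ofZ 0 0)]),
    List.mem_singleton] at this
  rw [← ofq_tq c, this, ofq_tq]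

def UL : List Ic := [m (-1) 0 0 0 0 0 0 0, m 0 0 0 0 (-1) 0 0 0, m 1 (-1) 2 (-1) (-1) 0 (-2) 2, m (-2) 1 (-3) 1 1 0 2 (-2),
  m (-1) 0 (-1) 0 1 0 0 0, m 0 0 0 0 0 0 (-1) 0, m (-1) 0 (-1) 1 0 0 1 0, m 1 (-1) 2 (-2) (-1) 1 (-2) 1,
  m (-2) 1 (-2) 1 1 (-1) 2 (-1), m (-2) 1 (-2) 2 0 (-1) 3 (-1), m 0 0 1 0 0 (-1) (-1) 1, m (-1) 0 (-1) 0 0 1 1 (-1),
  m 1 (-1) 2 (-2) 0 1 (-3) 1, m 1 (-1) 2 (-1) (-1) 1 (-2) 1, m (-2) 1 (-2) 2 1 (-1) 2 (-1), m 0 0 1 (-1) 0 0 (-1) 0,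
  m (-1) 0 0 0 0 0 1 0, m 0 0 1 0 (-1) 0 0 0, m 1 (-1) 3 (-1) (-1) 0 (-2) 2, m (-2) 1 (-2) 1 1 0 2 (-2),
  m (-1) 0 0 0 1 0 0 0, m (-1) 1 (-1) 1 0 (-1) 1 0, m 0 0 0 (-1) 0 1 (-1) 0, m (-1) 1 (-1) 0 0 0 1 (-1),
  m 0 0 1 (-1) 0 0 (-1) 1, m 1 0 2 (-1) (-1) 0 (-2) 1, m 0 0 1 0 (-1) 0 0 1, m (-1) 1 (-1) 0 1 0 0 (-1),
  m (-2) 1 (-2) 1 1 0 2 (-1), m (-1) 1 (-1) 1 0 0 1 (-1), m 0 0 1 0 0 0 (-1) 1, m (-1) 1 0 1 0 (-1) 1 0,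
  m 0 0 1 (-1) 0 1 (-1) 0, m (-1) 0 (-2) 1 0 0 2 (-1), m 1 (-1) 1 (-1) 0 0 (-2) 1, m 1 (-1) 1 0 (-1) 0 (-1) 1,
  m (-1) 0 (-2) 1 1 0 1 (-1), m 1 (-1) 1 (-1) (-1) 1 (-1) 0, m 2 (-2) 3 (-2) (-1) 1 (-3) 2, m (-2) 1 (-3) 2 1 (-1) 3 (-2),
  m (-1) 0 (-1) 1 1 (-1) 1 0, m 1 (-1) 2 (-1) (-1) 0 (-1) 1, m (-1) 0 (-1) 0 1 0 1 (-1), m (-1) 0 (-1) 1 0 0 2 (-1),
  m 1 (-1) 2 (-1) 0 0 (-2) 1, m 0 0 (-1) 0 0 0 0 0, m 2 (-1) 2 (-2) (-1) 1 (-3) 1, m 1 (-1) 1 (-1) (-1) 1 (-1) 1,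
  m (-1) 1 (-2) 1 1 (-1) 1 (-1), m (-2) 1 (-3) 2 1 (-1) 3 (-1), m (-1) 1 (-2) 2 0 (-1) 2 (-1), m 0 0 0 1 0 (-1) 0 1,
  m 0 0 (-1) 0 0 1 0 (-1), m 1 (-1) 1 (-1) 0 1 (-2) 1, m 0 0 0 0 (-1) 0 1 0, m 2 (-1) 3 (-2) (-1) 0 (-3) 2,
  m (-2) 1 (-3) 1 1 0 3 (-2), m 0 0 0 (-1) 1 0 (-1) 0, m 2 (-1) 3 (-1) (-2) 0 (-2) 2, m (-1) 1 (-2) 1 0 0 2 (-2),
  m 1 (-1) 2 (-1) 0 0 (-2) 2, m (-2) 1 (-3) 1 2 0 2 (-2), m 0 0 0 1 (-1) 0 1 0, m 2 (-1) 3 (-1) (-1) 0 (-3) 2,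
  m (-2) 1 (-3) 2 1 0 3 (-2), m 0 0 0 0 1 0 (-1) 0, m (-1) 1 (-1) 1 0 (-1) 2 (-1), m 0 0 1 0 0 (-1) 0 1,
  m 0 0 0 (-1) 0 1 0 (-1), m 1 (-1) 2 (-2) 0 1 (-2) 1, m 2 (-1) 3 (-2) (-1) 1 (-3) 1, m 1 (-1) 2 (-1) (-1) 1 (-1) 1,
  m (-1) 1 (-1) 1 1 (-1) 1 (-1), m (-2) 1 (-2) 2 1 (-1) 3 (-1), m 0 0 1 0 0 0 0 0, m (-1) 1 (-2) 1 0 0 2 (-1),
  m 1 0 1 (-1) 0 0 (-2) 1, m 1 0 1 0 (-1) 0 (-1) 1, m (-1) 1 (-2) 1 1 0 1 (-1), m 1 0 1 (-1) (-1) 1 (-1) 0,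
  m 2 (-1) 3 (-2) (-1) 1 (-3) 2, m (-2) 2 (-3) 2 1 (-1) 3 (-2), m (-1) 1 (-1) 1 1 (-1) 1 0, m 1 0 2 (-1) (-1) 0 (-1) 1,
  m (-1) 1 (-1) 0 1 0 1 (-1), m (-1) 1 (-1) 1 0 0 2 (-1), m 1 0 2 (-1) 0 0 (-2) 1, m 0 0 (-1) 1 0 (-1) 1 0,
  m 1 (-1) 0 (-1) 0 1 (-1) 0, m 0 0 (-1) 0 0 0 1 (-1), m 1 (-1) 1 (-1) 0 0 (-1) 1, m 2 (-1) 2 (-1) (-1) 0 (-2) 1,
  m 1 (-1) 1 0 (-1) 0 0 1, m 0 0 (-1) 0 1 0 0 (-1), m (-1) 0 (-2) 1 1 0 2 (-1), m 0 0 (-1) 1 0 0 1 (-1),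
  m 1 (-1) 1 0 0 0 (-1) 1, m 0 0 0 1 0 (-1) 1 0, m 1 (-1) 1 (-1) 0 1 (-1) 0, m 1 0 0 0 (-1) 0 0 0,
  m 2 (-1) 2 (-1) (-1) 0 (-2) 2, m (-1) 1 (-3) 1 1 0 2 (-2), m 0 0 (-1) 0 1 0 0 0, m 1 0 0 0 0 0 (-1) 0,
  m 0 0 (-1) 1 0 0 1 0, m 2 (-1) 2 (-2) (-1) 1 (-2) 1, m (-1) 1 (-2) 1 1 (-1) 2 (-1), m (-1) 1 (-2) 2 0 (-1) 3 (-1),
  m 1 0 1 0 0 (-1) (-1) 1, m 0 0 (-1) 0 0 1 1 (-1), m 2 (-1) 2 (-2) 0 1 (-3) 1, m 2 (-1) 2 (-1) (-1) 1 (-2) 1,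
  m (-1) 1 (-2) 2 1 (-1) 2 (-1), m 1 0 1 (-1) 0 0 (-1) 0, m 0 0 0 0 0 0 1 0, m 1 0 1 0 (-1) 0 0 0,
  m 2 (-1) 3 (-1) (-1) 0 (-2) 2, m (-1) 1 (-2) 1 1 0 2 (-2), m 0 0 0 0 1 0 0 0, m 1 0 0 0 0 0 0 0]

theorem UL_aux : ∀ l ∈ ball 8 4, tq (ofq l) = l → nq (ofq l) = ⟨1, 0⟩ → ofq l ∈ UL := by decide +kernel

theorem mem_UL {c : Ic} (h : nq c = ⟨1, 0⟩) : c ∈ UL := by
  have := UL_aux _ (mem_ball (tq c) 4 (by rw [sum_tq, h]; rfl) (by norm_num))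
  rw [ofq_tq] at this
  exact this rfl h

end Cfsg.Agent.H1.Ico
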