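import Cfsg.Agent.H1.IcB

/-! The icosian Leech lattice and its reflection group. -/

set_option autoImplicit false

namespace Cfsg.Agent.H1.Ico

open Cfsg.Spor Quaternion

abbrev V := Ic × Ic × Ic
abbrev W := Fin 3 → ℍ[ℝ]

noncomputable def vv (x : V) : W := ![val x.1, val x.2.1, val x.2.2]

theorem vv_inj {x y : V} (h : vv x = vv y) : x = y :=
  Prod.ext (val_inj (congrFun h 0)) (Prod.ext (val_inj (congrFun h 1)) (val_inj (congrFun h 2)))

theorem two_ne : (2 : ℍ[ℝ]) ≠ 0 := by rw [← val_2, ← val_0]; exact fun e => absurd (val_inj e) (by decide)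

theorem h2 : icoH * star icoH = 2 := by rw [← val_hh, ← val_cnj, ← val_mul, ← val_2]; rfl
theorem h2' : star icoH * icoH = 2 := by rw [← val_hh, ← val_cnj, ← val_mul, ← val_2]; rfl

theorem li_iff {q : ℍ[ℝ]} {k c : Ic} (hk : val k = star q) (h1 : q * star q = 2) (h2 : star q * q = 2) :
    val c ∈ leftIdeal q ↔ ev (c * k) = true := by
  rw [ev_iff, val_mul, hk]
  refine ⟨fun ⟨a, ha, e⟩ => ?_, fun ⟨y, e⟩ => ⟨val y, mem_ico.mpr ⟨y, rfl⟩, mul_left_cancel₀ two_ne ?_⟩⟩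
  · obtain ⟨a, rfl⟩ := mem_ico.mp ha
    exact ⟨a, by rw [e, mul_assoc, h1, mul_two, two_mul]⟩
  · rw [← mul_assoc, ← e, mul_assoc, h2, mul_two, two_mul]

def inL (x : V) : Bool := ev ((x.2.1 + -x.2.2) * cnj hh) && ev ((x.1 + -x.2.1) * cnj hh) && ev ((x.1 + x.2.1 + x.2.2) * hh)

theorem mem_L {x : V} : vv x ∈ icoLeech ↔ inL x = true := by
  have a := fun c => li_iff (c := c) ((val_cnj hh).trans (congrArg star val_hh)) h2 h2'
  have b := fun c => li_iff (q := star icoH) (c := c) (val_hh.trans (star_star _).symm) (by rw [star_star, h2'])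
    (by rw [star_star, h2])
  simp only [inL, Bool.and_eq_true, ← a, ← b, val_add, val_neg, ← sub_eq_add_neg]
  exact ⟨fun h => ⟨⟨h.2.2.1, h.2.1⟩, h.2.2.2⟩, fun h => ⟨fun t => by fin_cases t <;> exact mem_ico.mpr ⟨_, rfl⟩, h.1.2, h.1.1, h.2⟩⟩

theorem exists_vv {v : W} (h : v ∈ icoLeech) : ∃ x, vv x = v := by
  obtain ⟨a, ha⟩ := mem_ico.mp (h.1 0)
  obtain ⟨b, hb⟩ := mem_ico.mp (h.1 1)
  obtain ⟨c, hc⟩ := mem_ico.mp (h.1 2)
  exact ⟨(a, b, c), funext fun t => by fin_cases t <;> assumption⟩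

theorem L_lin {a : ℍ[ℝ]} (ha : a ∈ icosians) {x y : W} (hx : x ∈ icoLeech) (hy : y ∈ icoLeech) : a • x + y ∈ icoLeech := by
  have k : ∀ {q u w : ℍ[ℝ]}, u ∈ leftIdeal q → w ∈ leftIdeal q → a * u + w ∈ leftIdeal q := fun ⟨b, hb, e⟩ ⟨c, hc, e'⟩ =>
    ⟨a * b + c, add_mem (mul_mem ha hb) hc, by rw [e, e', add_mul, mul_assoc]⟩
  refine ⟨fun t => add_mem (mul_mem ha (hx.1 t)) (hy.1 t), ?_, ?_, ?_⟩
  · convert k hx.2.1 hy.2.1 using 1; simp only [Pi.add_apply, Pi.smul_apply, smul_eq_mul]; noncomm_ring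
  · convert k hx.2.2.1 hy.2.2.1 using 1; simp only [Pi.add_apply, Pi.smul_apply, smul_eq_mul]; noncomm_ring
  · convert k hx.2.2.2 hy.2.2.2 using 1; simp only [Pi.add_apply, Pi.smul_apply, smul_eq_mul]; noncomm_ring

theorem L_zero : (0 : W) ∈ icoLeech :=
  ⟨fun _ => zero_mem _, ⟨0, zero_mem _, by simp⟩, ⟨0, zero_mem _, by simp⟩, ⟨0, zero_mem _, by simp⟩⟩

def w1 : V := (cnj hh, cnj hh, cnj hh)
def w2 : V := (hh, hh, ofZ 0 0)
def w3 : V := (ofZ 0 0, hh, hh)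

theorem L_dec {x : W} (h : x ∈ icoLeech) :
    ∃ a ∈ icosians, ∃ b ∈ icosians, ∃ c ∈ icosians, x = a • vv w1 + (b • vv w2 + (c • vv w3 + 0)) := by
  obtain ⟨h0, ⟨a, ha, e1⟩, ⟨b, hb, e2⟩, d, hd, e3⟩ := h
  have m : icoH ∈ icosians := mem_ico.mpr ⟨_, val_hh⟩
  have e4 : x 0 = (d + (a * icoH - x 0) * icoH) * star icoH + b * icoH := by
    rw [add_mul, mul_assoc _ icoH, h2, ← e3, ← e1, ← e2]; noncomm_ring
  refine ⟨_, add_mem hd (mul_mem (sub_mem (mul_mem ha m) (h0 0)) m), b, hb, -a, neg_mem ha, funext fun t => ?_⟩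
  fin_cases t <;> simp [vv, w1, w2, w3, val_cnj, val_hh, val_0, ← add_assoc, ← e4]
  · rw [← e1]; noncomm_ring
  · rw [eq_sub_of_add_eq e4.symm, ← e1, ← e2]; noncomm_ring

theorem qip_lin (a : ℍ[ℝ]) (x y r : W) : qip (a • x + y) r = a * qip x r + qip y r := by
  simp only [qip, Fin.sum_univ_three, Pi.add_apply, Pi.smul_apply, smul_eq_mul]; noncomm_ring

theorem qip_zero (r : W) : qip 0 r = 0 := by simp [qip]

theorem qip_star (x r : W) : star (qip x r) = qip r x := by simp [qip]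

theorem qrefl_eq (r x : W) : qrefl r x = (-((1 / 2 : ℝ) • qip x r)) • r + x :=
  funext fun t => by simp [qrefl, sub_eq_neg_add]

noncomputable def RL (r : W) : W →ₗ[ℍ[ℝ]] W where
  toFun := qrefl r
  map_add' x y := by
    have := qip_lin 1 x y r
    rw [one_smul, one_mul] at this
    simp only [qrefl_eq, this, smul_add, neg_add, add_smul]; abel
  map_smul' a x := by
    have := qip_lin a x 0 r
    rw [add_zero, qip_zero, add_zero] at this
    simp only [qrefl_eq, this, smul_add, RingHom.id_apply, smul_smul, mul_neg, mul_smul_comm]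

theorem qip_refl {r : W} (h : qip r r = 4) (x : W) : qip (qrefl r x) r = -qip x r := by
  rw [qrefl_eq, qip_lin, h, show (4 : ℍ[ℝ]) = (4 : ℝ) • 1 by norm_num [Algebra.smul_def, map_ofNat], mul_smul_comm, mul_one]
  module

theorem refl_refl {r : W} (h : qip r r = 4) (x : W) : qrefl r (qrefl r x) = x := by
  rw [qrefl_eq, qip_refl h, qrefl_eq, smul_neg, neg_neg, neg_smul, add_neg_cancel_left]

theorem refl_iso {r : W} (h : qip r r = 4) (x y : W) : qip (qrefl r x) (qrefl r y) = qip x y := by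
  rw [qrefl_eq r x, qip_lin, ← qip_star (qrefl r y) r, qip_refl h, ← qip_star (qrefl r y) x, qrefl_eq, qip_lin]
  simp only [star_add, star_mul, star_neg, Quaternion.star_smul, qip_star, star_trivial, mul_neg, neg_mul, neg_neg, mul_smul_comm,
    smul_mul_assoc, add_neg_cancel_left]

def dot (x r : V) : Ic := x.1 * cnj r.1 + x.2.1 * cnj r.2.1 + x.2.2 * cnj r.2.2
def sm (a : Ic) (x : V) : V := (a * x.1, a * x.2.1, a * x.2.2)
def rf (r x : V) : V := sm (-half (dot x r)) r + x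

theorem val_dot (x r : V) : val (dot x r) = qip (vv x) (vv r) := by
  simp [dot, qip, vv, Fin.sum_univ_three, val_add, val_mul, val_cnj]
theorem vv_sm (a : Ic) (x : V) : vv (sm a x) = val a • vv x := funext fun t => by fin_cases t <;> simp [vv, sm, val_mul]
theorem vv_add (x y : V) : vv (x + y) = vv x + vv y := funext fun t => by fin_cases t <;> simp [vv, val_add]
theorem vv_neg (x : V) : vv (-x) = -vv x := funext fun t => by fin_cases t <;> simp [vv, val_neg]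
theorem vv_rf {r x : V} (h : ev (dot x r) = true) : vv (rf r x) = qrefl (vv r) (vv x) := by
  rw [rf, vv_add, vv_sm, val_neg, val_half h, val_dot, qrefl_eq]

def ok (r : V) : Bool := inL r && dot r r == ofZ 4 0 && [w1, w2, w3].all fun w => ev (dot w r) && inL (rf r w)

theorem ok_spec {r : V} (h : ok r = true) : vv r ∈ icoLeech ∧ qip (vv r) (vv r) = 4 ∧
    ∀ x ∈ icoLeech, (∃ c, qip x (vv r) = 2 * val c) ∧ qrefl (vv r) x ∈ icoLeech := by
  simp only [ok, Bool.and_eq_true, beq_iff_eq, List.all_cons, List.all_nil] at h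
  refine ⟨mem_L.mpr h.1.1, by rw [← val_dot, h.1.2, val_4], fun x hx => ?_⟩
  obtain ⟨a, ha, b, hb, c, hc, rfl⟩ := L_dec hx
  have k : ∀ {a w y}, a ∈ icosians → (ev (dot w r) = true ∧ inL (rf r w) = true) →
      (∃ c, qip y (vv r) = 2 * val c) ∧ qrefl (vv r) y ∈ icoLeech →
      (∃ c, qip (a • vv w + y) (vv r) = 2 * val c) ∧ qrefl (vv r) (a • vv w + y) ∈ icoLeech := by
    rintro a w y ha hw ⟨⟨c, e⟩, hy⟩
    obtain ⟨d, e'⟩ := ev_iff.mp hw.1
    refine ⟨?_, by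
      rw [show qrefl (vv r) (a • vv w + y) = RL (vv r) (a • vv w + y) from rfl, map_add, map_smul]
      exact L_lin ha (show qrefl _ _ ∈ _ from vv_rf hw.1 ▸ mem_L.mpr hw.2) hy⟩
    obtain ⟨a, rfl⟩ := mem_ico.mp ha
    exact ⟨a * d + c, by rw [qip_lin, ← val_dot, e', e, val_add, val_mul]; noncomm_ring⟩
  exact k ha h.2.1 (k hb h.2.2.1 (k hc h.2.2.2.1 ⟨⟨_, by rw [qip_zero, val_0, mul_zero]⟩,
    (show qrefl (vv r) 0 = 0 from map_zero (RL _)).symm ▸ L_zero⟩))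

noncomputable def rho (r : V) : twoJ2 :=
  if h : ok r = true then ⟨Function.Involutive.toPerm (fun x => ⟨qrefl (vv r) x, ((ok_spec h).2.2 x x.2).2⟩)
    fun x => Subtype.ext (refl_refl (ok_spec h).2.1 x),
    Subgroup.subset_closure ⟨⟨_, (ok_spec h).1⟩, (ok_spec h).2.1, fun _ => rfl⟩⟩ else 1

/-- `g` is the restriction of the linear isometry `M` -/
def Lin (g : twoJ2) (M : W →ₗ[ℍ[ℝ]] W) : Prop := (∀ x : icoLeech, (g.1 x : W) = M x) ∧ ∀ x y, qip (M x) (M y) = qip x y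

theorem Lin.mul {g g' : twoJ2} {M M' : W →ₗ[ℍ[ℝ]] W} (h : Lin g M) (h' : Lin g' M') : Lin (g * g') (M ∘ₗ M') :=
  ⟨fun x => (h.1 _).trans (congrArg M (h'.1 x)), fun x y => (h.2 _ _).trans (h'.2 x y)⟩

theorem Lin.mem {g : twoJ2} {M : W →ₗ[ℍ[ℝ]] W} (h : Lin g M) {x : W} (hx : x ∈ icoLeech) : M x ∈ icoLeech :=
  h.1 ⟨x, hx⟩ ▸ (g.1 ⟨x, hx⟩).2

theorem lin_one : Lin 1 LinearMap.id := ⟨fun _ => rfl, fun _ _ => rfl⟩

theorem lin_rho {r : V} (h : ok r = true) : Lin (rho r) (RL (vv r)) :=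
  ⟨fun x => by rw [rho, dif_pos h]; rfl, refl_iso (ok_spec h).2.1⟩

theorem exists_lin (g : twoJ2) : ∃ M, Lin g M := by
  obtain ⟨g, hg⟩ := g
  induction hg using Subgroup.closure_induction'' with
  | mem f hf => obtain ⟨r, h, e⟩ := hf; exact ⟨RL r, e, refl_iso h⟩
  | inv_mem f hf =>
    obtain ⟨r, h, e⟩ := hf
    exact ⟨RL r, fun x => by
      obtain ⟨y, rfl⟩ := f.surjective x
      show (f.symm (f y) : W) = qrefl r (f y)
      rw [e, refl_refl h, f.symm_apply_apply], refl_iso h⟩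
  | one => exact ⟨_, lin_one⟩
  | mul _ _ _ _ h1 h2 => obtain ⟨M, h1⟩ := h1; obtain ⟨N, h2⟩ := h2; exact ⟨_, h1.mul h2⟩

def E1 : V := (ofZ 2 0, ofZ 0 0, ofZ 0 0)
def E2 : V := (ofZ 0 0, ofZ 2 0, ofZ 0 0)
def E3 : V := (ofZ 0 0, ofZ 0 0, ofZ 2 0)

theorem lin_ext {M N : W →ₗ[ℍ[ℝ]] W} (h1 : M (vv E1) = N (vv E1)) (h2 : M (vv E2) = N (vv E2))
    (h3 : M (vv E3) = N (vv E3)) : M = N := LinearMap.ext fun x => by
  have : x = (x 0 / 2) • vv E1 + (x 1 / 2) • vv E2 + (x 2 / 2) • vv E3 := funext fun t => by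
    fin_cases t <;> simp [vv, E1, E2, E3, val_0, val_2, two_ne]
  rw [this]
  simp only [map_add, map_smul, h1, h2, h3]

theorem Lin.eq {g g' : twoJ2} {M : W →ₗ[ℍ[ℝ]] W} (h : Lin g M) (h' : Lin g' M) : g = g' :=
  Subtype.ext (Equiv.ext fun x => Subtype.ext ((h.1 x).trans (h'.1 x).symm))

theorem mE : vv E1 ∈ icoLeech ∧ vv E2 ∈ icoLeech ∧ vv E3 ∈ icoLeech := by
  simp only [mem_L]; decide +kernel

theorem Lin.uniq {g : twoJ2} {M N : W →ₗ[ℍ[ℝ]] W} (h : Lin g M) (h' : Lin g N) : M = N :=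
  lin_ext ((h.1 ⟨_, mE.1⟩).symm.trans (h'.1 _)) ((h.1 ⟨_, mE.2.1⟩).symm.trans (h'.1 _))
    ((h.1 ⟨_, mE.2.2⟩).symm.trans (h'.1 _))

end Cfsg.Agent.H1.Ico
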