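import Cfsg.Agent.H1.IcD
import Cfsg.Agent.H3.Wong2

/-! The reflection group is finite, its centre is `±1`, and the centralizer of a reflection has order at most 3840. -/

set_option autoImplicit false

namespace Cfsg.Agent.H1.Ico

open Cfsg.Spor Quaternion Subgroup

variable {g : twoJ2} {M : W →ₗ[ℍ[ℝ]] W}

theorem qip_vv (x : V) : qip (vv x) (vv x) = ((vz (nq x.1 + nq x.2.1 + nq x.2.2) : ℝ) : ℍ[ℝ]) := by
  simp [qip, vv, Fin.sum_univ_three, val_nq, vz_add]

theorem nq_sum {x : V} (h : qip (vv x) (vv x) = 4) : nq x.1 + nq x.2.1 + nq x.2.2 = ⟨4, 0⟩ := vz_inj (by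
  rw [qip_vv, show (4 : ℍ[ℝ]) = ((4 : ℝ) : ℍ[ℝ]) from by exact_mod_cast rfl, coe_inj] at h
  simpa [vz_mk] using h)

theorem fin_min : {v : W | v ∈ icoLeech ∧ qip v v = 4}.Finite :=
  ((fin_nq.prod (fin_nq.prod fin_nq)).image vv).subset fun v hv => by
    obtain ⟨x, rfl⟩ := exists_vv hv.1
    have := congrArg Zt.a (nq_sum hv.2)
    have := nq_a x.1
    have := nq_a x.2.1
    have := nq_a x.2.2
    simp only [Zt.add_def] at *
    refine ⟨x, ⟨?_, ?_, ?_⟩, rfl⟩ <;> simp only [Set.mem_setOf_eq] <;> omega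

theorem nE : qip (vv E1) (vv E1) = 4 ∧ qip (vv E2) (vv E2) = 4 ∧ qip (vv E3) (vv E3) = 4 :=
  ⟨(ok_spec ok12.2.2.1).2.1, (ok_spec ok12.2.2.2.1).2.1, (ok_spec ok12.2.2.2.2).2.1⟩

instance : Finite twoJ2 := by
  choose M hM using exists_lin
  have := fin_min.to_subtype
  let S := {v : W | v ∈ icoLeech ∧ qip v v = 4}
  refine Finite.of_injective (β := S × S × S) (fun g => (⟨_, (hM g).mem mE.1, ((hM g).2 _ _).trans nE.1⟩,
    ⟨_, (hM g).mem mE.2.1, ((hM g).2 _ _).trans nE.2.1⟩, ⟨_, (hM g).mem mE.2.2, ((hM g).2 _ _).trans nE.2.2⟩))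
    fun g g' e => (hM g).eq ?_
  simp only [Prod.mk.injEq, Subtype.mk.injEq] at e
  exact lin_ext e.1 e.2.1 e.2.2 ▸ hM g'

theorem unit_iff {u : Ic} : nq u = ⟨1, 0⟩ ↔ val u * star (val u) = 1 := by
  rw [val_nq, ← Quaternion.coe_one, coe_inj]
  exact ⟨fun e => by simp [e, vz_mk], fun e => vz_inj (by simp [e, vz_mk])⟩

theorem two_of {c : Ic} (h1 : val c ∈ leftIdeal icoH) (h2 : val c ∈ leftIdeal (star icoH))
    (h4 : val c * star (val c) = 4) : ∃ u, nq u = ⟨1, 0⟩ ∧ val c = 2 * val u := by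
  obtain ⟨a, ha⟩ := ev_iff.mp ((li_iff ((val_cnj hh).trans (congrArg star val_hh)) Ico.h2 h2').mp h1)
  obtain ⟨b, hb⟩ := ev_iff.mp ((li_iff (q := star icoH) (val_hh.trans (star_star _).symm) (by rw [star_star, h2'])
    (by rw [star_star, Ico.h2])).mp h2)
  have e : val (cnj hh + hh) * val (cnj hh + hh) = 2 + 2 + 1 := by
    rw [← val_mul, ← val_2, ← val_1, ← val_add, ← val_add]; rfl
  have e1 : val c * val (cnj hh + hh) = 2 * (val a + val b) := by rw [val_add, mul_add, ← val_mul, ← val_mul, ha, hb, mul_add]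
  have e2 : val c = 2 * val ((a + b) * (cnj hh + hh) + -(c + c)) := by
    rw [val_add, val_mul, val_neg, val_add a, val_add c, mul_add, ← mul_assoc, ← e1, mul_assoc, e]; noncomm_ring
  refine ⟨_, unit_iff.mpr (mul_left_cancel₀ two_ne (mul_left_cancel₀ two_ne ?_)), e2⟩
  rw [e2, star_mul, star_ofNat] at h4
  rw [mul_one, two_mul 2, two_add_two_eq_four, ← h4]
  noncomm_ring

theorem li_neg {q x : ℍ[ℝ]} (h : -x ∈ leftIdeal q) : x ∈ leftIdeal q :=
  let ⟨a, ha, e⟩ := h; ⟨-a, neg_mem ha, by rw [neg_mul, ← e, neg_neg]⟩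

theorem ax1 {y : W} (h : y ∈ icoLeech) (n : qip y y = 4) (h1 : y 1 = 0) (h2 : y 2 = 0) :
    ∃ u, nq u = ⟨1, 0⟩ ∧ y 0 = 2 * val u := by
  obtain ⟨c, e⟩ := mem_ico.mp (h.1 0)
  exact e ▸ two_of (by simpa [h1, e] using h.2.1) (by simpa [h1, h2, e] using h.2.2.2)
    (by simpa [qip, Fin.sum_univ_three, h1, h2, e] using n)

theorem ax2 {y : W} (h : y ∈ icoLeech) (n : qip y y = 4) (h1 : y 0 = 0) (h2 : y 2 = 0) :
    ∃ u, nq u = ⟨1, 0⟩ ∧ y 1 = 2 * val u := by
  obtain ⟨c, e⟩ := mem_ico.mp (h.1 1)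
  exact e ▸ two_of (by simpa [h2, e] using h.2.2.1) (by simpa [h1, h2, e] using h.2.2.2)
    (by simpa [qip, Fin.sum_univ_three, h1, h2, e] using n)

theorem ax3 {y : W} (h : y ∈ icoLeech) (n : qip y y = 4) (h1 : y 0 = 0) (h2 : y 1 = 0) :
    ∃ u, nq u = ⟨1, 0⟩ ∧ y 2 = 2 * val u := by
  obtain ⟨c, e⟩ := mem_ico.mp (h.1 2)
  exact e ▸ two_of (li_neg (by simpa [h2, e] using h.2.2.1)) (by simpa [h1, h2, e] using h.2.2.2)
    (by simpa [qip, Fin.sum_univ_three, h1, h2, e] using n)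

theorem half2 (x : ℍ[ℝ]) : (2⁻¹ : ℝ) • (x * 2 * 2) = x + x := by
  rw [mul_two, mul_two, ← two_smul ℝ (x + x), smul_smul]; norm_num

theorem RL1 (x : W) : RL (vv E1) x = ![-x 0, x 1, x 2] := funext fun t => by
  fin_cases t <;> simp [RL, qrefl, qip, Fin.sum_univ_three, vv, E1, val_0, val_2, half2]
theorem RL2 (x : W) : RL (vv E2) x = ![x 0, -x 1, x 2] := funext fun t => by
  fin_cases t <;> simp [RL, qrefl, qip, Fin.sum_univ_three, vv, E2, val_0, val_2, half2]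
theorem RL3 (x : W) : RL (vv E3) x = ![x 0, x 1, -x 2] := funext fun t => by
  fin_cases t <;> simp [RL, qrefl, qip, Fin.sum_univ_three, vv, E3, val_0, val_2, half2]

theorem Lin.comm (h : Lin g M) {r : V} (hr : ok r = true) (c : g * rho r = rho r * g) (x : W) :
    M (RL (vv r) x) = RL (vv r) (M x) := LinearMap.congr_fun ((h.mul (lin_rho hr)).uniq (c ▸ (lin_rho hr).mul h)) x

theorem z0 {x : ℍ[ℝ]} (h : -x = x) : x = 0 :=
  mul_left_cancel₀ two_ne (by rw [two_mul, mul_zero]; exact neg_eq_iff_add_eq_zero.mp h)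

theorem fixE : RL (vv E1) (vv E1) = -vv E1 ∧ RL (vv E1) (vv E2) = vv E2 ∧ RL (vv E1) (vv E3) = vv E3 ∧
    RL (vv E2) (vv E2) = -vv E2 ∧ RL (vv E2) (vv E3) = vv E3 := by
  simp only [RL1, RL2]
  refine ⟨?_, ?_, ?_, ?_, ?_⟩ <;> funext t <;> fin_cases t <;> simp [vv, E1, E2, E3, val_0]

theorem Lin.c1 (h : Lin g M) (c : g * rho E1 = rho E1 * g) :
    M (vv E1) 1 = 0 ∧ M (vv E1) 2 = 0 ∧ M (vv E2) 0 = 0 ∧ M (vv E3) 0 = 0 := by
  have a := h.comm ok12.2.2.1 c (vv E1)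
  have b := h.comm ok12.2.2.1 c (vv E2)
  have d := h.comm ok12.2.2.1 c (vv E3)
  rw [fixE.1, map_neg, RL1] at a
  rw [fixE.2.1, RL1] at b
  rw [fixE.2.2.1, RL1] at d
  exact ⟨z0 (congrFun a 1), z0 (congrFun a 2), z0 (congrFun b 0).symm, z0 (congrFun d 0).symm⟩

theorem Lin.diag (h : Lin g M) (c1 : g * rho E1 = rho E1 * g) (c2 : g * rho E2 = rho E2 * g) :
    ∃ u : V, nq u.1 = ⟨1, 0⟩ ∧ nq u.2.1 = ⟨1, 0⟩ ∧ nq u.2.2 = ⟨1, 0⟩ ∧ ∀ x t, M x t = x t * vv u t := by
  obtain ⟨a1, a2, a3, a4⟩ := h.c1 c1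
  have b := h.comm ok12.2.2.2.1 c2 (vv E2)
  have d := h.comm ok12.2.2.2.1 c2 (vv E3)
  rw [fixE.2.2.2.1, map_neg, RL2] at b
  rw [fixE.2.2.2.2, RL2] at d
  have a5 := z0 (congrFun b 2)
  have a6 := z0 (congrFun d 1).symm
  obtain ⟨u1, n1, e1⟩ := ax1 (h.mem mE.1) ((h.2 _ _).trans nE.1) a1 a2
  obtain ⟨u2, n2, e2⟩ := ax2 (h.mem mE.2.1) ((h.2 _ _).trans nE.2.1) a3 a5
  obtain ⟨u3, n3, e3⟩ := ax3 (h.mem mE.2.2) ((h.2 _ _).trans nE.2.2) a4 a6
  refine ⟨(u1, u2, u3), n1, n2, n3, fun x t => ?_⟩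
  have : M = LinearMap.pi fun t => (LinearMap.toSpanSingleton ℍ[ℝ] ℍ[ℝ] (vv (u1, u2, u3) t)).comp (LinearMap.proj t) := by
    refine lin_ext ?_ ?_ ?_ <;> funext t <;> fin_cases t <;>
      simp [a1, a2, a3, a4, a5, a6, e1, e2, e3] <;> simp [vv, E1, E2, E3, val_0, val_2]
  rw [this]
  rfl

theorem mem_trip (h : Lin g M) {u : V} (n1 : nq u.1 = ⟨1, 0⟩) (n2 : nq u.2.1 = ⟨1, 0⟩) (n3 : nq u.2.2 = ⟨1, 0⟩)
    (e : ∀ x t, M x t = x t * vv u t) : u ∈ trip := by
  have k : ∀ w : V, inL w = true → inL (w.1 * u.1, w.2.1 * u.2.1, w.2.2 * u.2.2) = true := fun w hw => mem_L.mp (by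
    convert h.mem (mem_L.mpr hw) using 1
    funext t
    fin_cases t <;> simp [e, vv, val_mul])
  have k1 := k w1 (by decide +kernel)
  have k2 := k w2 (by decide +kernel)
  have k3 := k w3 (by decide +kernel)
  simp only [inL, Bool.and_eq_true, w1, w2, w3] at k1 k2 k3
  have cg : ∀ {x y}, ev x = true → val x = val y → ev y = true := fun h e => val_inj e ▸ h
  have z : ∀ {x y}, red x = red y → ev y = true → ev x = true := fun h1 h2 => by
    simp only [ev, beq_iff_eq, half, hz, Ic.add_def, Zt.add_def, Ic.ext_iff, Zt.ext_iff, red, rz] at h1 h2 ⊢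
    omega
  have a2 : ev (hh * u.2.1 * cnj hh) = true := cg k2.1.1 (by simp [val_add, val_mul, val_neg, val_0])
  have a1 : ev (hh * u.1 * cnj hh) = true :=
    z ((red_eq (cg k2.1.2 (by simp [val_add, val_mul, val_neg, add_mul]))).trans (red_neg _)) a2
  have a3 : ev (hh * u.2.2 * cnj hh) = true :=
    z ((red_eq (cg k3.1.1 (by simp [val_add, val_mul, val_neg, add_mul]))).trans (red_neg _)).symm a2
  refine List.mem_flatMap.mpr ⟨_, U24_spec _ (mem_UL n2) a2, List.mem_flatMap.mpr ⟨sg u.1, List.mem_filter.mpr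
    ⟨U24_spec _ (mem_UL n1) a1, ?_⟩, List.mem_map.mpr ⟨sg u.2.2, List.mem_filter.mpr ⟨U24_spec _ (mem_UL n3) a3, ?_⟩, rfl⟩⟩⟩
  · simp only [sg, Bool.and_eq_true, beq_iff_eq]
    exact ⟨red_eq (cg k2.2 (by simp [val_add, val_mul, val_0, add_mul])),
      (red_eq (cg k1.1.2 (by simp [val_add, val_mul, val_neg, add_mul]))).trans (red_neg _)⟩
  · simp only [sg, Bool.and_eq_true, beq_iff_eq]
    exact ⟨⟨(red_eq (cg k3.2 (by simp [val_add, val_mul, val_0, add_mul]))).symm,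
      ((red_eq (cg k1.1.1 (by simp [val_add, val_mul, val_neg, add_mul]))).trans (red_neg _)).symm⟩,
      red3 (cg k1.2 (by simp [val_add, val_mul, add_mul]))⟩

theorem card_diag : Nat.card (centralizer {rho E1} ⊓ centralizer {rho E2} : Subgroup twoJ2) ≤ 384 := by
  have k : ∀ g : (centralizer {rho E1} ⊓ centralizer {rho E2} : Subgroup twoJ2), ∃ u ∈ trip, ∃ M, Lin g.1 M ∧
      ∀ x t, M x t = x t * vv u t := fun g => by
    obtain ⟨M, h⟩ := exists_lin g.1
    obtain ⟨u, n1, n2, n3, e⟩ := h.diag (mem_centralizer_singleton_iff.mp g.2.1) (mem_centralizer_singleton_iff.mp g.2.2)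
    exact ⟨u, mem_trip h n1 n2 n3 e, M, h, e⟩
  choose u hu M h e using k
  refine (Nat.card_le_card_of_injective (fun g => (⟨u g, List.mem_toFinset.mpr (hu g)⟩ : trip.toFinset)) fun g g' e' => ?_).trans ?_
  · refine Subtype.ext ((h g).eq ?_)
    rw [show M g = M g' from LinearMap.ext fun x => funext fun t => by rw [e, e, show u g = u g' from congrArg Subtype.val e']]
    exact h g'
  · rw [Nat.card_eq_fintype_card, Fintype.card_coe, ← trip_len]
    exact trip.toFinset_card_le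

theorem Lin.conj (h : Lin g M) {r s : V} (hr : ok r = true) (hs : ok s = true) {u : ℍ[ℝ]} (hu : star u * u = 1)
    (e : M (vv r) = u • vv s) : g * rho r * g⁻¹ = rho s := by
  refine mul_inv_eq_of_eq_mul ((h.mul (lin_rho hr)).eq ?_)
  rw [show M ∘ₗ RL (vv r) = RL (vv s) ∘ₗ M from LinearMap.ext fun x => ?_]
  · exact (lin_rho hs).mul h
  show M (qrefl _ x) = qrefl _ (M x)
  have := qip_lin u (vv s) 0 (M x)
  rw [add_zero, qip_zero, add_zero, ← e, h.2] at this
  rw [qrefl_eq, qrefl_eq, map_add, map_smul, e, smul_smul, ← qip_star _ x, this, star_mul, qip_star, neg_mul,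
    smul_mul_assoc, mul_assoc, hu, mul_one]

theorem star_unit {u : Ic} (h : nq u = ⟨1, 0⟩) : star (val u) * val u = 1 := by
  rw [star_mul_self, ← self_mul_star, unit_iff.mp h]

theorem ten {y : W} (h : y ∈ icoLeech) (n : qip y y = 4) (h0 : y 0 = 0) :
    ∃ s ∈ L10, ∃ u : ℍ[ℝ], star u * u = 1 ∧ y = u • vv s := by
  obtain ⟨a, ha, e1⟩ : y 1 ∈ leftIdeal icoH := li_neg (by simpa [h0] using h.2.1)
  obtain ⟨b, hb, e2⟩ := h.2.2.1
  obtain ⟨a, rfl⟩ := mem_ico.mp ha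
  obtain ⟨b, e3⟩ := mem_ico.mp (sub_mem ha hb)
  have e4 : y 2 = val b * icoH := by rw [e3, sub_mul, ← e1, ← e2, sub_sub_cancel]
  have k : ∀ a : Ic, val a * icoH * star (val a * icoH) = ((2 * vz (nq a) : ℝ) : ℍ[ℝ]) := fun a => by
    rw [star_mul, mul_assoc, ← mul_assoc icoH, h2, two_mul, mul_add, val_nq, two_mul, coe_add]
  have e5 : nq a + nq b = ⟨2, 0⟩ := vz_inj (by
    rw [qip, Fin.sum_univ_three, h0, e1, e4, k, k, zero_mul, zero_add, ← coe_add,
      show (4 : ℍ[ℝ]) = ((4 : ℝ) : ℍ[ℝ]) from by exact_mod_cast rfl, coe_inj] at n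
    simp only [vz_add, vz_mk]
    push_cast
    linarith)
  have na := nq_a a
  have nb := nq_a b
  simp only [Zt.add_def, Zt.mk.injEq] at e5
  by_cases a0 : (nq a).a = 0
  · rw [eq_zero a0, val_0, zero_mul] at e1
    obtain ⟨u, hu, e⟩ := ax3 h n h0 e1
    exact ⟨E3, by simp [L10], val u, star_unit hu, funext fun t => by
      fin_cases t <;> simp [vv, E3, h0, e1, e, val_0, val_2, two_mul, mul_two]⟩
  by_cases b0 : (nq b).a = 0
  · rw [eq_zero b0, val_0, zero_mul] at e4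
    obtain ⟨u, hu, e⟩ := ax2 h n h0 e4
    exact ⟨E2, by simp [L10], val u, star_unit hu, funext fun t => by
      fin_cases t <;> simp [vv, E2, h0, e4, e, val_0, val_2, two_mul, mul_two]⟩
  have p : ∀ c : Ic, (nq c).a = 1 → 0 ≤ (nq c).b := fun c hc => by
    by_contra e
    have := nq_nonneg c
    have : ((nq c).b : ℝ) ≤ -1 := by exact_mod_cast (by omega : (nq c).b ≤ -1)
    simp only [vz, hc, Int.cast_one] at *
    nlinarith [tau_gt]
  have := p a (by omega)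
  have := p b (by omega)
  have ua := star_unit (u := a) (Zt.ext (by simp; omega) (by simp; omega))
  have ub := unit_iff.mp (show nq b = ⟨1, 0⟩ from Zt.ext (by simp; omega) (by simp; omega))
  have ua' : val a * star (val a) = 1 := by rw [self_mul_star, ← star_mul_self, ua]
  have e6 : vv (ofZ 0 0, hh, cnj a * b * hh) = star (val a) • y + 0 := funext fun t => by
    fin_cases t <;> simp [vv, h0, e1, e4, val_0, val_mul, val_cnj, val_hh, ← mul_assoc, ua]
  refine ⟨(ofZ 0 0, hh, cnj a * b * hh), List.mem_cons_of_mem _ (List.mem_cons_of_mem _ (List.mem_map_of_mem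
    (L8_spec _ (mem_UL (unit_iff.mpr ?_)) (mem_L.mp (e6 ▸ L_lin (mem_ico.mpr ⟨_, val_cnj a⟩) h L_zero))))), _, ua, by
      rw [e6, add_zero, smul_smul, ua', one_smul]⟩
  rw [val_mul, val_cnj, star_mul, star_star, mul_assoc, ← mul_assoc (val b), ub, one_mul, ua]

theorem card_cent : Nat.card (centralizer {rho E1} : Subgroup twoJ2) ≤ 3840 := by
  classical
  rw [H3.card_eq_orbit_mul _ (rho E2)]
  refine Nat.mul_le_mul (n₂ := 10) ((Set.ncard_le_ncard (t := ((L10.map rho).toFinset : Set twoJ2)) ?_).trans ?_) card_diag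
  · rintro _ ⟨g, hg, rfl⟩
    obtain ⟨M, h⟩ := exists_lin g
    obtain ⟨s, hs, u, hu, e⟩ := ten (h.mem mE.2.1) ((h.2 _ _).trans nE.2.1) (h.c1 (mem_centralizer_singleton_iff.mp hg)).2.2.1
    rw [h.conj ok12.2.2.2.1 (L10_ok s hs) hu e]
    exact List.mem_toFinset.mpr (List.mem_map_of_mem hs)
  · rw [Set.ncard_coe_finset]
    exact (List.toFinset_card_le _).trans (by rw [List.length_map]; rfl)

theorem center_pm (h : Lin g M) (hg : g ∈ center twoJ2) : M = LinearMap.id ∨ M = -LinearMap.id := by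
  have c := fun r => (mem_center_iff.mp hg (rho r)).symm
  obtain ⟨u, n1, -, -, e⟩ := h.diag (c _) (c _)
  have k : ∀ r, ok r = true → r.1 = ofZ 1 0 → ∀ t, vv r t * vv u t = val u.1 * vv r t := fun r hr r1 t => by
    have a := h.comm hr (c r) (vv r)
    have b : RL (vv r) (vv r) = -vv r := by
      show qrefl _ _ = _
      rw [qrefl_eq, (ok_spec hr).2.1, show (4 : ℍ[ℝ]) = (4 : ℝ) • 1 by norm_num [Algebra.smul_def, map_ofNat], smul_smul,
        neg_smul, smul_one_smul]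
      module
    rw [b, map_neg, show RL (vv r) (M (vv r)) = qrefl _ _ from rfl, qrefl_eq, neg_smul, neg_add_eq_sub, eq_sub_iff_add_eq,
      neg_add_eq_iff_eq_add] at a
    have a0 := congrFun a 0
    have a1 := congrFun a t
    simp only [Pi.smul_apply, Pi.add_apply, e, smul_eq_mul] at a0 a1
    rw [show vv r 0 = 1 from (congrArg val r1).trans val_1, mul_one, one_mul] at a0
    rw [a0, add_mul, ← two_mul, ← two_mul] at a1
    exact (mul_left_cancel₀ two_ne a1).symm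
  have k1 := k r1 ok12.1 rfl
  have k2 := k r2 ok12.2.1 rfl
  have e2 : vv u 1 = val u.1 := by simpa [vv, r1, show m (-1) 0 0 0 0 0 0 0 = -ofZ 1 0 from rfl, val_neg, val_1] using k1 1
  have w : star (vv r2 2) * vv r2 2 = 2 := by
    rw [show vv r2 2 = val r2.2.2 from rfl, ← val_cnj, ← val_mul, show cnj r2.2.2 * r2.2.2 = ofZ 2 0 by decide +kernel, val_2]
  have w0 : vv r2 2 ≠ 0 := fun e => two_ne (by rw [← w, e, mul_zero])
  have hu := real_unit _ (mem_UL n1) (val_inj (by rw [val_mul, val_mul]; exact e2 ▸ k2 1)) (val_inj (by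
    have a := k1 2
    have b := k2 2
    simp only [val_mul, val_cnj]
    rw [← show vv r1 2 = val r1.2.2 from rfl, ← show vv r2 2 = val r2.2.2 from rfl]
    generalize vv r1 2 = p, vv r2 2 = q, vv u 2 = v, val u.1 = x at a b w w0
    refine mul_right_cancel₀ w0 ?_
    rw [mul_assoc, ← b, mul_assoc, ← mul_assoc (star q), w, mul_assoc, mul_assoc, w, ← mul_assoc x, ← a]
    noncomm_ring))
  have e3 : vv u 2 = val u.1 := mul_left_cancel₀ w0 ((k2 2).trans (by
    rcases hu with e | e <;> simp [e, val_neg, val_1]))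
  have e4 : ∀ x t, M x t = x t * val u.1 := fun x t => by
    rw [e]; fin_cases t; exacts [rfl, congrArg _ e2, congrArg _ e3]
  exact hu.imp (fun e => LinearMap.ext fun x => funext fun t => by simp [e4, e, val_1])
    fun e => LinearMap.ext fun x => funext fun t => by simp [e4, e, val_1, val_neg]

end Cfsg.Agent.H1.Ico
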