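import Cfsg.Agent.H1.IcE

/-! Words in reflections, evaluated on the icosian lattice. -/

set_option autoImplicit false

namespace Cfsg.Agent.H1.Ico

open Cfsg.Spor Quaternion Subgroup

def vec : Fin 13 → V := ![E1, E2, E3, (m 0 0 0 0 0 0 0 0, m 0 1 0 0 (-1) 0 0 0, m 0 (-1) 0 0 1 0 0 0),
  (m 0 0 0 0 0 0 0 0, m (-1) 0 (-1) 0 0 0 0 0, m (-1) 0 1 0 0 0 0 0),
  (m 0 0 0 0 0 0 0 0, m 1 0 1 0 (-2) 0 0 0, m (-1) 0 1 0 0 0 0 0),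
  (m 0 0 0 0 0 0 0 0, m 1 0 1 0 (-2) 0 0 0, m 1 0 1 0 0 0 0 0),
  (m 0 1 0 0 (-1) 0 0 0, m 0 1 0 0 (-1) 0 0 0, m 0 0 0 0 0 0 0 0),
  (m (-1) 0 (-1) 0 0 0 0 0, m 1 0 (-1) 0 0 0 0 0, m 0 0 0 0 0 0 0 0),
  (m (-1) 1 0 0 1 0 0 0, m 0 0 1 0 0 0 0 0, m 0 0 1 0 0 0 0 0),
  (m 1 0 0 0 0 (-1) 0 0, m 0 0 0 0 (-1) 0 0 0, m 0 0 0 0 (-1) 0 0 0),
  (m (-1) 1 (-1) 0 1 (-1) 0 0, m 0 0 (-1) 0 1 0 0 0, m 1 0 0 0 (-1) 0 0 0),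
  (m 0 0 (-1) 2 0 (-1) 2 0, m 1 0 1 0 (-1) 0 0 0, m 0 0 0 0 1 0 0 0)]

theorem okv : ∀ i, ok (vec i) = true := by decide +kernel

abbrev Wd := List (Fin 13)
def run (w : Wd) (x : V) : V := w.foldr (fun i => rf (vec i)) x
def r3 (w : Wd) : V × V × V := (run w E1, run w E2, run w E3)
def w1s : Wd := [3, 5, 7, 8]
def w2s : Wd := [7, 3, 6, 8]
def wa : Wd := [7, 8, 9, 10]
def wc : Wd := [11, 8, 7, 12]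

theorem d_sw : ∀ p ∈ [((3 : Fin 13), (4 : Fin 13)), (3, 5), (3, 6), (4, 5), (4, 6), (5, 6)],
    r3 [p.2, p.1] = -r3 [0, p.1, p.2] := by decide +kernel
theorem d_e4 : r3 [3, 4, 5, 6] = r3 [1] ∧ r3 [0, 1, 2] = -r3 [] := by decide +kernel
theorem d_s : r3 (w1s ++ w1s) = -r3 [] ∧ r3 (w2s ++ w2s) = -r3 [] ∧ r3 (w2s ++ w1s) = -r3 (w1s ++ w2s) := by decide +kernel
theorem d_a : r3 (wa ++ wa ++ wa) = -r3 [] ∧ r3 (wc ++ wc ++ wc ++ wc ++ wc) = -r3 [] := by decide +kernel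
theorem d_n : ∀ w ∈ [[0], wa, wc], r3 w ≠ r3 [] ∧ r3 w ≠ -r3 [] := by decide +kernel
theorem d_cj : ∀ p ∈ [(([3] : Wd), (0 : Fin 13), (0 : Fin 13), m 1 0 0 0 0 0 0 0), ([4], 0, 0, m 1 0 0 0 0 0 0 0),
    ([5], 0, 0, m 1 0 0 0 0 0 0 0), ([6], 0, 0, m 1 0 0 0 0 0 0 0), (w1s, 0, 0, m 0 0 1 0 0 0 0 0),
    (w2s, 0, 0, m (-1) 1 (-2) 1 0 0 2 (-2)), (wa, 0, 0, m 1 0 1 0 0 (-1) (-1) 1), (wc, 0, 0, m 1 0 1 (-1) (-1) 1 (-1) 0),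
    (w1s, 3, 4, m 0 0 1 0 0 (-1) (-1) 1), (w1s, 5, 6, m 1 (-1) 2 (-1) 0 0 (-2) 2), (w2s, 3, 5, m 2 (-1) 3 (-2) (-1) 1 (-3) 1),
    (w2s, 4, 6, m 2 (-1) 3 (-1) (-2) 0 (-2) 2), (wc, 3, 1, m 0 0 (-1) 1 0 0 1 0)],
    run p.1 (vec p.2.1) = sm p.2.2.2 (vec p.2.2.1) ∧ nq p.2.2.2 = ⟨1, 0⟩ := by decide +kernel

end Cfsg.Agent.H1.Ico
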