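import Mathlib

/-! The group `2^(1+4)_- : 2²` of order 128. -/

set_option autoImplicit false

namespace Cfsg.Agent.H1.JR

open scoped commutatorElement

structure E where
  z : Bool
  a : Bool
  b : Bool
  c : Bool
  d : Bool
  deriving DecidableEq

instance (P : E → Prop) [DecidablePred P] : Decidable (∀ x, P x) :=
  decidable_of_iff (∀ z a b c d, P ⟨z, a, b, c, d⟩) ⟨fun h x => h x.1 x.2 x.3 x.4 x.5, fun h _ _ _ _ _ => h _⟩

def fm (b c d a' b' c' : Bool) : Bool := (b && a') ^^ (c && (a' ^^ b')) ^^ (d && (a' ^^ b' ^^ c'))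
def E.mul (x y : E) : E := ⟨x.z ^^ y.z ^^ fm x.b x.c x.d y.a y.b y.c, x.a ^^ y.a, x.b ^^ y.b, x.c ^^ y.c, x.d ^^ y.d⟩
def a1 (x : E) : E := ⟨x.z ^^ (x.a && x.b) ^^ (x.c && x.d), x.b, x.a, x.d, x.c⟩
def a2 (x : E) : E := ⟨x.z ^^ ((x.a ^^ x.b) && (x.c ^^ x.d)), x.c, x.d, x.a, x.b⟩
def act (p q : Bool) (x : E) : E := bif p then a1 (bif q then a2 x else x) else bif q then a2 x else x

theorem fm_add : ∀ b c d a' b' c' d' a'' b'' c'', (fm b c d a' b' c' ^^ fm (b ^^ b') (c ^^ c') (d ^^ d') a'' b'' c'') =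
    (fm b' c' d' a'' b'' c'' ^^ fm b c d (a' ^^ a'') (b' ^^ b'') (c' ^^ c'')) := by decide +kernel
theorem E.assoc (x y w : E) : (x.mul y).mul w = x.mul (y.mul w) := by
  have : ∀ a b c f1 f2 f3 f4 : Bool, (f1 ^^ f2) = (f3 ^^ f4) → (a ^^ b ^^ f1 ^^ c ^^ f2) = (a ^^ (b ^^ c ^^ f3) ^^ f4) := by
    decide
  simp only [E.mul, this _ _ _ _ _ _ _ (fm_add ..), Bool.xor_assoc x.a, Bool.xor_assoc x.b, Bool.xor_assoc x.c,
    Bool.xor_assoc x.d]
theorem act_mul : ∀ p q x y, act p q (x.mul y) = (act p q x).mul (act p q y) := by decide +kernel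
theorem act_act : ∀ p q p' q' x, act (p ^^ p') (q ^^ q') x = act p q (act p' q' x) := by decide +kernel

structure R where
  e : E
  p : Bool
  q : Bool
  deriving DecidableEq

instance (P : R → Prop) [DecidablePred P] : Decidable (∀ x, P x) :=
  decidable_of_iff (∀ e p q, P ⟨e, p, q⟩) ⟨fun h x => h x.1 x.2 x.3, fun h _ _ _ => h _⟩

instance (P : R → Prop) [DecidablePred P] : Decidable (∃ x, P x) :=
  decidable_of_iff (¬ ∀ x, ¬ P x) (by simp)

instance : Mul R := ⟨fun u w => ⟨u.e.mul (act u.p u.q w.e), u.p ^^ w.p, u.q ^^ w.q⟩⟩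
instance : One R := ⟨⟨⟨false, false, false, false, false⟩, false, false⟩⟩
instance : Inv R := ⟨fun u => ⟨act u.p u.q (u.e.mul (u.e.mul u.e)), u.p, u.q⟩⟩

theorem R.mul_def (u w : R) : u * w = ⟨u.e.mul (act u.p u.q w.e), u.p ^^ w.p, u.q ^^ w.q⟩ := rfl

instance : Group R := Group.ofLeftAxioms
  (fun u v w => by simp only [R.mul_def, act_mul, act_act, E.assoc, Bool.xor_assoc]) (by decide +kernel) (by decide +kernel)

def bl : List Bool := [false, true]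
def all : List R := bl.flatMap fun z => bl.flatMap fun a => bl.flatMap fun b => bl.flatMap fun c => bl.flatMap fun d =>
  bl.flatMap fun p => bl.map fun q => ⟨⟨z, a, b, c, d⟩, p, q⟩

instance : Fintype R := ⟨⟨(all : Multiset R), Multiset.coe_nodup.mpr (by decide +kernel)⟩,
  fun x => Multiset.mem_coe.mpr ((by decide +kernel : ∀ x, x ∈ all) x)⟩

theorem card_R : Nat.card R = 128 := by rw [Nat.card_eq_fintype_card]; rfl

def z0 : R := ⟨⟨true, false, false, false, false⟩, false, false⟩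
def e : Fin 5 → R := ![⟨⟨false, true, false, false, false⟩, false, false⟩, ⟨⟨false, false, true, false, false⟩, false, false⟩,
  ⟨⟨false, false, false, true, false⟩, false, false⟩, ⟨⟨false, false, false, false, true⟩, false, false⟩,
  ⟨⟨false, true, true, true, true⟩, false, false⟩]
def s1 : R := ⟨⟨false, false, false, false, false⟩, true, false⟩
def s2 : R := ⟨⟨false, false, false, false, false⟩, false, true⟩

def E0 : Subgroup R where
  carrier := {u | u.p = false ∧ u.q = false}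
  mul_mem' := by intro a b; revert a b; simp only [Set.mem_ofPred_eq]; decide +kernel
  one_mem' := ⟨rfl, rfl⟩
  inv_mem' := id
def A1 : Subgroup R where
  carrier := {u | u.e.a = u.e.b ∧ u.e.b = u.e.c ∧ u.e.c = u.e.d}
  mul_mem' := by intro a b; revert a b; simp only [Set.mem_ofPred_eq]; decide +kernel
  one_mem' := ⟨rfl, rfl, rfl⟩
  inv_mem' := by intro a; revert a; simp only [Set.mem_ofPred_eq]; decide +kernel
def U0 : Subgroup R where
  carrier := {u | (u.e.a ^^ u.e.b) = (u.e.c ^^ u.e.d)}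
  mul_mem' := by intro a b; revert a b; simp only [Set.mem_ofPred_eq]; decide +kernel
  one_mem' := rfl
  inv_mem' := by intro a; revert a; simp only [Set.mem_ofPred_eq]; decide +kernel
def S0 : Subgroup R where
  carrier := {u | u.e.a = false ∧ u.e.b = false ∧ u.e.c = false ∧ u.e.d = false}
  mul_mem' := by intro a b; revert a b; simp only [Set.mem_ofPred_eq]; decide +kernel
  one_mem' := ⟨rfl, rfl, rfl, rfl⟩
  inv_mem' := by intro a; revert a; simp only [Set.mem_ofPred_eq]; decide +kernel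
def M0 : Subgroup R where
  carrier := {u | u.e = ⟨false, false, false, false, false⟩}
  mul_mem' := by intro a b; revert a b; simp only [Set.mem_ofPred_eq]; decide +kernel
  one_mem' := rfl
  inv_mem' := by intro a; revert a; simp only [Set.mem_ofPred_eq]; decide +kernel

instance : DecidablePred (· ∈ E0) := fun u => inferInstanceAs (Decidable (u.p = false ∧ u.q = false))
instance : DecidablePred (· ∈ A1) := fun u => inferInstanceAs (Decidable (u.e.a = u.e.b ∧ u.e.b = u.e.c ∧ u.e.c = u.e.d))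
instance : DecidablePred (· ∈ U0) := fun u => inferInstanceAs (Decidable ((u.e.a ^^ u.e.b) = (u.e.c ^^ u.e.d)))
instance : DecidablePred (· ∈ S0) := fun u =>
  inferInstanceAs (Decidable (u.e.a = false ∧ u.e.b = false ∧ u.e.c = false ∧ u.e.d = false))
instance : DecidablePred (· ∈ M0) := fun u => inferInstanceAs (Decidable (u.e = ⟨false, false, false, false, false⟩))

theorem card_of (H : Subgroup R) [DecidablePred (· ∈ H)] : Nat.card H = (Finset.univ.filter (· ∈ H)).card :=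
  Nat.subtype_card _ (by simp)

theorem card_le (H : Subgroup R) (P : R → Prop) [DecidablePred P] (h : ∀ x ∈ H, P x) :
    Nat.card H ≤ (Finset.univ.filter P).card := by
  classical
  exact card_of H ▸ Finset.card_le_card fun x hx => by simpa using h x (by simpa using hx)

theorem cards : Nat.card E0 = 32 ∧ Nat.card A1 = 16 ∧ Nat.card U0 = 64 ∧ Nat.card S0 = 8 ∧ Nat.card M0 = 4 := by
  simp only [card_of]; decide +kernel

/-- membership in the centre, and in the second centre -/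
abbrev iZ (x : R) : Prop := x = 1 ∨ x = z0
abbrev iY (x : R) : Prop := x = e 4 ∨ x = z0 * e 4

theorem z0_spec : z0 * z0 = 1 ∧ z0 ≠ 1 ∧ z0 ∈ E0 ∧ z0 ∈ A1 ∧ z0 ∈ U0 ∧ z0 ∈ S0 ∧ z0 ∉ M0 ∧ ∀ g, g * z0 = z0 * g := by
  decide +kernel
theorem cent : ∀ x : R, (∀ g, g * x = x * g) → iZ x := by decide +kernel
theorem E0_norm : ∀ g, ∀ x ∈ E0, g * x * g⁻¹ ∈ E0 := by decide +kernel
theorem E0_sq : ∀ x ∈ E0, iZ (x * x) := by decide +kernel
theorem A1_sq : ∀ x ∈ A1, x * x = 1 := by decide +kernel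
theorem S0_sq : M0 ≤ S0 ∧ ∀ x ∈ S0, x * x = 1 ∧ ∃ p q : Bool, x = (bif p then s1 else 1) * (bif q then s2 else 1) ∨
    x = z0 * ((bif p then s1 else 1) * (bif q then s2 else 1)) := by
  refine ⟨fun x => ?_, by decide +kernel⟩; revert x; decide +kernel
theorem out32 : ∀ t ∉ E0, iZ (t * t) → (Finset.univ.filter fun x => iZ (x * x) ∧ iZ (x * t * (x * t))).card < 32 ∧
    (t ∈ A1 ∨ e 0 * t * (e 0)⁻¹ ∈ A1) := by decide +kernel
theorem cA : ∀ t ∈ A1, t ∉ E0 → ∀ x, x * t = t * x → x ∈ A1 := by decide +kernel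
theorem in16 : (Finset.univ.filter fun x => x ∈ E0 ∧ x * x = 1).card < 16 := by decide +kernel
theorem nA : ∀ u, (∀ a ∈ A1, u * a * u⁻¹ ∈ A1) → (∀ a ∈ A1, iZ ⁅u, a⁆ ∨ iY ⁅u, a⁆) ∧ ⁅u, e 4⁆ = 1 ∧
    (u ∈ A1 ∨ ∃ a ∈ A1, ⁅u, a⁆ = e 4) := by decide +kernel
theorem exA : ∀ a ∈ A1, a ∈ E0 ∨ ∃ u, (∀ b ∈ A1, u * b * u⁻¹ ∈ A1) ∧ ⁅u, a⁆ = z0 := by decide +kernel
theorem AE : ∀ a ∈ A1, a ∈ E0 → iZ a ∨ iY a := by decide +kernel
theorem e4 : e 4 ∈ A1 ∧ e 4 ∈ E0 ∧ ¬ iZ (e 4) ∧ e 0 * (z0 * e 4) * (e 0)⁻¹ = e 4 ∧ e 0 ∉ U0 ∧ e 0 * e 0 = 1 ∧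
    e 1 * e 2 * e 0 = e 0 * (e 1 * e 2) ∧ e 1 * e 2 * (e 1 * e 2) = z0 ∧ e 0 ≠ z0 ∧
    ∀ x ∈ U0, x * e 4 = e 4 * x := by decide +kernel
theorem exQ : ∀ x ∈ E0, ∃ y, y * x = x * y ∧ y * y = z0 := by decide +kernel
theorem cE : ∀ s, (∀ a ∈ E0, iZ ⁅s, a⁆) → s ∈ E0 := by decide +kernel
theorem img : ∀ s ∉ E0, ∀ t ∉ E0, s * t ∉ E0 → ¬ iZ ⁅t, ⁅s, e 0⁆⁆ := by decide +kernel
set_option synthInstance.maxSize 1000 in
theorem no8 : ∀ x ∈ E0, ∀ y ∈ E0, x * x = 1 → y * y = 1 → x * y * (x * y) = 1 → iZ x ∨ iZ y ∨ iZ (x * y) := by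
  decide +kernel
theorem sing : ∀ x ∈ E0, (∀ g : R, iZ ⁅g, x⁆) → x * x = 1 := by decide +kernel
theorem inv5 : ∀ x ∈ E0, x * x = 1 → iZ x ∨ ∃ j, x = e j ∨ x = z0 * e j := by decide +kernel
theorem e_spec : ∀ i, e i ∈ E0 ∧ e i * e i = 1 ∧ ¬ iZ (e i) ∧ (∀ j, e i = e j ∨ e i = z0 * e j → i = j) ∧
    ∀ g ∈ E0, g * e i * g⁻¹ = e i ∨ g * e i * g⁻¹ = z0 * e i := by decide +kernel
theorem signs : ∀ f : Fin 5 → Bool, ∃ x ∈ E0, ∀ i ≠ 4, x * e i * x⁻¹ = bif f i then z0 * e i else e i := by decide +kernel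
theorem cE' : ∀ x, (∀ i, x * e i = e i * x) → iZ x := by decide +kernel
def word (u : R) : List (Fin 5) := (bif u.e.z then [0, 1, 0, 1] else []) ++ (bif u.e.a then [0] else []) ++
  (bif u.e.b then [1] else []) ++ (bif u.e.c then [2] else []) ++ (bif u.e.d then [3] else [])
theorem word_spec : ∀ u ∈ E0, u = ((word u).map e).prod := by decide +kernel
theorem even5 : ∀ π : Equiv.Perm (Fin 5), Equiv.Perm.sign π = 1 → e (π 0) * e (π 1) * e (π 2) * e (π 3) = e (π 4) := by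
  decide +kernel
def σ1 : Equiv.Perm (Fin 5) := c[0, 1] * c[2, 3]
def σ2 : Equiv.Perm (Fin 5) := c[0, 2] * c[1, 3]
theorem s_e : ∀ i, s1 * e i * s1⁻¹ = e (σ1 i) ∧ s2 * e i * s2⁻¹ = e (σ2 i) := by decide +kernel
theorem fE : ∀ t x : R, t * t = 1 → x * t = t * x → x * x ≠ 1 → t ∈ E0 := by decide +kernel
theorem f16 : ∀ t ∈ E0, t * t = 1 → iZ t ∨ iY t ∨ (Finset.univ.filter fun x => x * x = 1 ∧ x * t = t * x).card < 16 := by
  decide +kernel
theorem f64 : ∀ t : R, t * t = 1 → iZ t ∨ iY t ∨ (Finset.univ.filter fun x => x * t = t * x).card < 64 := by decide +kernel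
theorem fsq : ∀ x : R, x * x * (x * x) = 1 → iZ (x * x) ∨ iY (x * x) := by decide +kernel
theorem fU : ∀ u ∈ U0, u * u = 1 → (∀ a ∈ A1, a * u = u * a) ∨ ∀ a ∈ A1, e 0 * a * (e 0)⁻¹ * u = u * (e 0 * a * (e 0)⁻¹) := by
  decide +kernel
theorem five : ∀ g : Equiv.Perm (Fin 5), g 4 ≠ 4 →
    (∃ a ∈ [σ1, σ2, σ1 * σ2], ∃ b ∈ [σ1, σ2, σ1 * σ2], (a * (g * b * g⁻¹)) ^ 3 = 1 ∧ a * (g * b * g⁻¹) ≠ 1) ∧
    ∃ a ∈ [σ1, σ2, σ1 * σ2], ∃ b ∈ [σ1, σ2, σ1 * σ2], (a * (g * b * g⁻¹)) ^ 5 = 1 ∧ a * (g * b * g⁻¹) ≠ 1 := by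
  decide +kernel

end Cfsg.Agent.H1.JR
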