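import Mathlib

set_option autoImplicit false

namespace Cfsg.Agent.H1.OddGraph

open Function

variable {α : Type*}

/-- linear-algebra form of "`x z` has odd order" for involutions -/
def Adj (x z : α → α) : Prop := ∀ F : α → ℤ, (∀ w, F (x w) + F (z w) = 0) → ∀ w, F w = 0

theorem Adj.symm {x z : α → α} (h : Adj x z) : Adj z x :=
  fun F hF => h F fun w => by rw [add_comm]; exact hF w

theorem Adj.refl {x : α → α} (hx : Involutive x) : Adj x x := fun F hF w => by
  have := hF (x w); rw [hx w] at this; omega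

/-- `p` lies in a four-point component on which `x`, `y` generate a regular four-group -/
def C2 (x y : α → α) (p : α) : Prop := x p ≠ p ∧ y p ≠ p ∧ x p ≠ y p ∧ x (y p) = y (x p)

variable [DecidableEq α]

def Exc (S : Finset α) (x y : α → α) : Prop := ∃ p, C2 x y p ∧ S = {p, x p, y p, x (y p)}

/-- involution supported in `S` -/
def Inv (S : Finset α) (x : α → α) : Prop := Involutive x ∧ ∀ w, w ∉ S → x w = w

def Solv (S : Finset α) (x y : α → α) : Prop := ∃ z, Inv S z ∧ Adj x z ∧ Adj y z

theorem Solv.symm {S : Finset α} {x y : α → α} (h : Solv S x y) : Solv S y x := by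
  obtain ⟨z, h1, h2, h3⟩ := h; exact ⟨z, h1, h3, h2⟩

theorem Exc.symm {S : Finset α} {x y : α → α} (h : Exc S x y) : Exc S y x := by
  obtain ⟨p, ⟨h1, h2, h3, h4⟩, h5⟩ := h
  refine ⟨p, ⟨h2, h1, h3.symm, h4.symm⟩, ?_⟩
  rw [h5, h4]; ext w; simp only [Finset.mem_insert, Finset.mem_singleton]; tauto

theorem Inv.mem {S : Finset α} {x : α → α} (h : Inv S x) {w : α} (hw : w ∈ S) : x w ∈ S := by
  by_contra hn
  have := h.2 _ hn
  rw [h.1 w] at this
  exact hn (this ▸ hw)

theorem Inv.mem_of_ne {S : Finset α} {x : α → α} (h : Inv S x) {w : α} (hw : x w ≠ w) : w ∈ S := by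
  by_contra hn; exact hw (h.2 w hn)

/-- restriction of `x` to the complement of `R` -/
def res (R : Finset α) (x : α → α) : α → α := fun w => if w ∈ R then w else x w

theorem res_inv {S R : Finset α} {x : α → α} (h : Inv S x) (hR : ∀ w ∈ R, x w ∈ R) :
    Inv (S \ R) (res R x) := by
  have h1 := h.1
  have h2 := h.2
  constructor
  · intro w
    have := h1 w
    have := hR (x w)
    unfold res
    grind
  · intro w hw
    unfold res
    grind

/-- generic transfer: `F` restricted off `R` -/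
theorem Adj.transfer {x' z' : α → α} (h : Adj x' z') (R : Finset α) (F : α → ℤ)
    (hxR : ∀ w ∈ R, x' w ∈ R) (hzR : ∀ w ∈ R, z' w ∈ R)
    (hx : ∀ w, w ∉ R → x' w ∉ R) (hz : ∀ w, w ∉ R → z' w ∉ R)
    (hF : ∀ w, w ∉ R → F (x' w) + F (z' w) = 0) : ∀ w, w ∉ R → F w = 0 := by
  have := h (fun w => if w ∈ R then 0 else F w) (by
    intro w
    by_cases hw : w ∈ R
    · simp [hxR w hw, hzR w hw]
    · simp [hx w hw, hz w hw, hF w hw])
  intro w hw
  simpa [hw] using this w

theorem Inv.out {S R : Finset α} {z : α → α} (h : Inv (S \ R) z) :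
    (∀ w ∈ R, z w = w) ∧ (∀ w, w ∉ R → z w ∉ R) := by
  have h1 : ∀ w ∈ R, z w = w := fun w hw => h.2 w (by simp [hw])
  refine ⟨h1, fun w hw hzw => hw ?_⟩
  have := h1 _ hzw
  rw [h.1 w] at this
  exact this ▸ hzw

theorem Adj.transfer' {S R : Finset α} {x' z' : α → α} (h : Adj x' z') (hx : Inv (S \ R) x')
    (hz : Inv (S \ R) z') (F : α → ℤ)
    (hF : ∀ w, w ∉ R → F (x' w) + F (z' w) = 0) : ∀ w, w ∉ R → F w = 0 :=
  h.transfer R F (fun w hw => by rw [hx.out.1 w hw]; exact hw)
    (fun w hw => by rw [hz.out.1 w hw]; exact hw) hx.out.2 hz.out.2 hF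

/-- inserting a four-point component -/
theorem adj_insert {S : Finset α} {x z' z : α → α} {p1 p2 p3 p4 t : α} (hx : Inv S x)
    (h12 : x p1 = p2) (h34 : x p3 = p4)
    (hz' : Inv (S \ {p1, p2, p3, p4}) z') (ht : t ∉ ({p1, p2, p3, p4} : Finset α))
    (h : Adj (res {p1, p2, p3, p4} x) z')
    (e1 : z t = p1) (e2 : z p1 = t) (e3 : z p2 = p4) (e4 : z p4 = p2)
    (e5 : z p3 = if z' t = t then p3 else z' t) (e6 : z' t ≠ t → z (z' t) = p3)
    (e7 : ∀ w, w ∉ ({p1, p2, p3, p4} : Finset α) → w ≠ t → w ≠ z' t → z w = z' w) : Adj x z := by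
  have h21 : x p2 = p1 := by rw [← h12, hx.1]
  have h43 : x p4 = p3 := by rw [← h34, hx.1]
  have hR : ∀ w ∈ ({p1, p2, p3, p4} : Finset α), x w ∈ ({p1, p2, p3, p4} : Finset α) := by
    simp [h12, h21, h34, h43]
  have hx' := res_inv hx hR
  intro F hF
  have a1 := hF p1; have a2 := hF p2; have a3 := hF p3; have a4 := hF p4; have a5 := hF t
  have a6 := hF (z' t)
  have i1 := hz'.1 t
  rw [h12, e2] at a1; rw [h21, e3] at a2; rw [h34, e5] at a3; rw [h43, e4] at a4; rw [e1] at a5
  have key := h.transfer' hx' hz' F (by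
    intro w hw
    have a7 := hF w
    simp only [res, if_neg hw]
    by_cases hq : z' t = t
    · rw [if_pos hq] at a3
      by_cases hwt : w = t
      · rw [hwt, hq]; omega
      · rw [e7 w hw hwt (by rw [hq]; exact hwt)] at a7; exact a7
    · rw [if_neg hq] at a3
      rw [e6 hq] at a6
      by_cases hwt : w = t
      · rw [hwt]; omega
      · by_cases hwq : w = z' t
        · rw [hwq, i1]; omega
        · rw [e7 w hw hwt hwq] at a7; exact a7)
  have b1 := key t ht
  have b2 := key _ (hx'.out.2 t ht)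
  simp only [res, if_neg ht] at b2
  intro w
  by_cases hw : w ∈ ({p1, p2, p3, p4} : Finset α)
  · simp only [Finset.mem_insert, Finset.mem_singleton] at hw
    rcases hw with rfl | rfl | rfl | rfl <;> omega
  · exact key w hw

theorem solv_insert {S : Finset α} {x y : α → α} {p : α} (hx : Inv S x) (hy : Inv S y)
    (hp : C2 x y p) {t : α} (ht : t ∈ S \ {p, x p, x (y p), y p})
    (h : Solv (S \ {p, x p, x (y p), y p}) (res {p, x p, x (y p), y p} x)
      (res {p, x p, x (y p), y p} y)) : Solv S x y := by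
  obtain ⟨z', hz', h1, h2⟩ := h
  obtain ⟨c1, c2, c3, c4⟩ := hp
  have hpS : p ∈ S := hx.mem_of_ne c1
  have m2 := hx.mem hpS
  have m4 := hy.mem hpS
  have m3 := hx.mem m4
  have i1 := hx.1 p
  have i2 := hy.1 p
  have i3 := hx.1 (y p)
  have i4 := hy.1 (x p)
  generalize h2d : x p = p2 at *
  generalize h4d : y p = p4 at *
  generalize h3d : x p4 = p3 at *
  have d1 : p3 ≠ p := by grind
  have d2 : p3 ≠ p2 := by grind
  have d3 : p3 ≠ p4 := by grind
  have ht' := Finset.mem_sdiff.mp ht
  have hq := Finset.mem_sdiff.mp (hz'.mem ht)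
  have o1 := hz'.out.2
  have o2 := hz'.1
  have o3 := hz'.2
  let z : α → α := fun w => if w = t then p else if w = p then t else if w = p2 then p4 else
    if w = p4 then p2 else if w = p3 then (if z' t = t then p3 else z' t) else
    if w = z' t then p3 else z' w
  simp only [Finset.mem_insert, Finset.mem_singleton, not_or] at ht' hq o1
  refine ⟨z, ⟨?_, ?_⟩, ?_, ?_⟩
  · intro w
    have := o1 w
    have := o2 w
    have := o2 t
    simp only [z]
    grind
  · intro w hw
    have := o3 w
    simp only [z]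
    grind
  · apply adj_insert (p1 := p) (p2 := p2) (p3 := p3) (p4 := p4) (t := t) hx h2d i3 hz'
      (by simp; tauto) h1 <;> simp only [z] <;> grind
  · have e : ({p, p2, p3, p4} : Finset α) = {p, p4, p3, p2} := by
      ext w; simp only [Finset.mem_insert, Finset.mem_singleton]; tauto
    rw [e] at hz' h2
    apply adj_insert (p1 := p) (p2 := p4) (p3 := p3) (p4 := p2) (t := t) hy h4d (by grind) hz'
      (by simp; tauto) h2 <;> simp only [z] <;> grind

theorem Inv.mono {S T : Finset α} {x : α → α} (h : Inv S x) (hST : S ⊆ T) : Inv T x :=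
  ⟨h.1, fun w hw => h.2 w fun h' => hw (hST h')⟩

/-- glue `x` on `R` with `z'` off `R` -/
def glue (R : Finset α) (x z' : α → α) : α → α := fun w => if w ∈ R then x w else z' w

theorem glue_inv {S R : Finset α} {x z' : α → α} (hx : Inv S x) (hR : ∀ w ∈ R, x w ∈ R)
    (hRS : R ⊆ S) (hz' : Inv (S \ R) z') : Inv S (glue R x z') := by
  constructor
  · intro w
    unfold glue
    by_cases hw : w ∈ R
    · rw [if_pos hw, if_pos (hR w hw), hx.1]
    · rw [if_neg hw, if_neg (hz'.out.2 w hw), hz'.1]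
  · intro w hw
    unfold glue
    rw [if_neg (fun h => hw (hRS h))]
    exact hz'.2 w (by simp [hw])

theorem adj_share {S R : Finset α} {x z' z : α → α} (hx : Inv S x) (hR : ∀ w ∈ R, x w ∈ R)
    (hz' : Inv (S \ R) z') (h : Adj (res R x) z') (e1 : ∀ w ∈ R, z w = x w)
    (e2 : ∀ w, w ∉ R → z w = z' w) : Adj x z := by
  intro F hF
  have key := h.transfer' (res_inv hx hR) hz' F (by
    intro w hw
    have := hF w
    rw [e2 w hw] at this
    simp only [res, if_neg hw]
    exact this)
  intro w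
  by_cases hw : w ∈ R
  · have := hF (x w)
    rw [e1 _ (hR w hw), hx.1] at this
    omega
  · exact key w hw

theorem adj_glue {S R : Finset α} {x z' : α → α} (hx : Inv S x) (hR : ∀ w ∈ R, x w ∈ R)
    (hz' : Inv (S \ R) z') (h : Adj (res R x) z') : Adj x (glue R x z') :=
  adj_share hx hR hz' h (fun w hw => if_pos hw) (fun w hw => if_neg hw)

theorem solv_a {S : Finset α} {x y : α → α} {p : α} (hx : Inv S x) (hy : Inv S y) (hp : p ∈ S)
    (hxy : x p = y p)
    (h : Solv (S \ {p, x p}) (res {p, x p} x) (res {p, x p} y)) : Solv S x y := by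
  obtain ⟨z', hz', h1, h2⟩ := h
  have hR : ∀ w ∈ ({p, x p} : Finset α), x w ∈ ({p, x p} : Finset α) := by simp [hx.1 p]
  have e : ∀ w ∈ ({p, x p} : Finset α), x w = y w := by
    have := hy.1 p
    simp [hxy, this]; rw [← hxy, hx.1]
  refine ⟨glue {p, x p} x z', glue_inv hx hR ?_ hz', adj_glue hx hR hz' h1, ?_⟩
  · intro w; simp only [Finset.mem_insert, Finset.mem_singleton]
    rintro (rfl | rfl)
    · exact hp
    · exact hx.mem hp
  · exact adj_share hy (fun w hw => e w hw ▸ hR w hw) hz' h2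
      (fun w hw => (if_pos hw).trans (e w hw)) (fun w hw => if_neg hw)

theorem solv_b {S : Finset α} {x y : α → α} {a b c : α} (hx : Inv S x) (hy : Inv S y)
    (hc : y c = c) (hb : x c = b) (ha : y b = a) (hbc : b ≠ c) (hab : a ≠ b)
    (h : Solv (S \ {b, c}) (res {b, c} x) (res {a, b, c} y)) : Solv S x y := by
  obtain ⟨z', hz', h1, h2⟩ := h
  have hb' : x b = c := by rw [← hb, hx.1]
  have ha' : y a = b := by rw [← ha, hy.1]
  have hac : a ≠ c := by rintro rfl; exact hbc (ha'.symm.trans hc)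
  have hR : ∀ w ∈ ({b, c} : Finset α), x w ∈ ({b, c} : Finset α) := by simp [hb, hb']
  have hR' : ∀ w ∈ ({a, b, c} : Finset α), y w ∈ ({a, b, c} : Finset α) := by simp [ha, ha', hc]
  have hcS : c ∈ S := hx.mem_of_ne (hb ▸ hbc)
  refine ⟨glue {b, c} x z', glue_inv hx hR ?_ hz', adj_glue hx hR hz' h1, ?_⟩
  · intro w; simp only [Finset.mem_insert, Finset.mem_singleton]
    rintro (rfl | rfl)
    · exact hb ▸ hx.mem hcS
    · exact hcS
  · intro F hF
    have a1 := hF a; have a2 := hF b; have a3 := hF c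
    have haR : a ∉ ({b, c} : Finset α) := by simp [hab, hac]
    simp only [glue, if_neg haR, Finset.mem_insert, Finset.mem_singleton, true_or, or_true, if_true,
      ha, ha', hb, hb', hc] at a1 a2 a3
    simp only [hab, hac, or_self, if_false] at a1
    have key := h2.transfer' ((res_inv hy hR').mono (Finset.sdiff_subset_sdiff subset_rfl
      (Finset.subset_insert _ _))) hz' F (by
      intro w hw
      by_cases hwa : w = a
      · rw [hwa]; simp only [res, Finset.mem_insert, true_or, if_true]; omega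
      · have := hF w
        have hw' : w ∉ ({a, b, c} : Finset α) := by
          rw [Finset.mem_insert]; tauto
        simp only [glue, if_neg hw] at this
        simp only [res, if_neg hw']
        exact this)
    have b1 := key a haR
    intro w
    by_cases hw : w ∈ ({b, c} : Finset α)
    · simp only [Finset.mem_insert, Finset.mem_singleton] at hw
      rcases hw with rfl | rfl <;> omega
    · exact key w hw

theorem adj_path {S : Finset α} {x z' z : α → α} {b c d e : α} (hx : Inv S x)
    (h1 : x b = c) (h2 : x d = d) (h3 : x e = e) (hz' : Inv (S \ {b, c, d, e}) z')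
    (h : Adj (res {b, c, d, e} x) z') (e1 : z b = b) (e2 : z c = d) (e3 : z d = c) (e4 : z e = e)
    (e5 : ∀ w, w ∉ ({b, c, d, e} : Finset α) → z w = z' w) : Adj x z := by
  have h1' : x c = b := by rw [← h1, hx.1]
  have hR : ∀ w ∈ ({b, c, d, e} : Finset α), x w ∈ ({b, c, d, e} : Finset α) := by
    simp [h1, h1', h2, h3]
  intro F hF
  have a1 := hF b; have a2 := hF c; have a3 := hF d; have a4 := hF e
  rw [h1, e1] at a1; rw [h1', e2] at a2; rw [h2, e3] at a3; rw [h3, e4] at a4
  have key := h.transfer' (res_inv hx hR) hz' F (by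
    intro w hw
    have := hF w
    rw [e5 w hw] at this
    simp only [res, if_neg hw]
    exact this)
  intro w
  by_cases hw : w ∈ ({b, c, d, e} : Finset α)
  · simp only [Finset.mem_insert, Finset.mem_singleton] at hw
    rcases hw with rfl | rfl | rfl | rfl <;> omega
  · exact key w hw

theorem solv_c {S : Finset α} {x y : α → α} {b c d e : α} (hx : Inv S x) (hy : Inv S y)
    (h1 : x b = c) (h2 : x d = d) (h3 : x e = e) (h4 : y e = d) (h5 : y b = b) (h6 : y c = c)
    (hbc : b ≠ c) (hde : d ≠ e)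
    (h : Solv (S \ {b, c, d, e}) (res {b, c, d, e} x) (res {b, c, d, e} y)) : Solv S x y := by
  obtain ⟨z', hz', k1, k2⟩ := h
  have h1' : x c = b := by rw [← h1, hx.1]
  have h4' : y d = e := by rw [← h4, hy.1]
  have hcS : c ∈ S := hx.mem_of_ne (h1' ▸ hbc)
  have hdS : d ∈ S := hy.mem_of_ne (h4' ▸ hde.symm)
  have o1 := hz'.out.1
  have o2 := hz'.out.2
  have o3 := hz'.1
  have o4 := hz'.2
  simp only [Finset.mem_insert, Finset.mem_singleton, not_or, forall_eq_or_imp, forall_eq] at o1 o2
  let z : α → α := fun w => if w = c then d else if w = d then c else z' w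
  refine ⟨z, ⟨?_, ?_⟩, ?_, ?_⟩
  · intro w
    have := o3 w
    simp only [z]
    grind
  · intro w hw
    have := o4 w
    simp only [z]
    grind
  · apply adj_path hx h1 h2 h3 hz' k1 <;> simp only [z] <;> grind
  · have e : ({b, c, d, e} : Finset α) = {e, d, c, b} := by
      ext w; simp only [Finset.mem_insert, Finset.mem_singleton]; tauto
    rw [e] at hz' k2
    apply adj_path hy h4 h6 h5 hz' k2 <;> simp only [z] <;> grind

/-- contraction of a long cycle -/
def ctr (a f : α) (R : Finset α) (y : α → α) : α → α :=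
  fun w => if w = a then f else if w = f then a else if w ∈ R then w else y w

theorem ctr_inv {S : Finset α} {y : α → α} {a b c d e f : α} (hy : Inv S y)
    (h1 : y a = b) (h3 : y c = d) (h5 : y e = f) (ha : a ∈ S \ {b, c, d, e})
    (hf : f ∈ S \ {b, c, d, e}) : Inv (S \ {b, c, d, e}) (ctr a f {b, c, d, e} y) := by
  have h1' : y b = a := by rw [← h1, hy.1]
  have h3' : y d = c := by rw [← h3, hy.1]
  have h5' : y f = e := by rw [← h5, hy.1]
  constructor
  · intro w
    have := hy.1 w
    simp only [ctr, Finset.mem_insert, Finset.mem_singleton, Finset.mem_sdiff] at *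
    grind
  · intro w hw
    have := hy.2 w
    simp only [ctr, Finset.mem_insert, Finset.mem_singleton, Finset.mem_sdiff] at *
    grind

theorem solv_d {S : Finset α} {x y : α → α} {a b c d e f : α} (hx : Inv S x) (hy : Inv S y)
    (h1 : y a = b) (h2 : x b = c) (h3 : y c = d) (h4 : x d = e) (h5 : y e = f)
    (ha : a ∈ S \ {b, c, d, e}) (hf : f ∈ S \ {b, c, d, e})
    (h : Solv (S \ {b, c, d, e}) (res {b, c, d, e} x) (ctr a f {b, c, d, e} y)) : Solv S x y := by
  obtain ⟨z', hz', k1, k2⟩ := h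
  have h1' : y b = a := by rw [← h1, hy.1]
  have h2' : x c = b := by rw [← h2, hx.1]
  have h3' : y d = c := by rw [← h3, hy.1]
  have h4' : x e = d := by rw [← h4, hx.1]
  have h5' : y f = e := by rw [← h5, hy.1]
  have hR : ∀ w ∈ ({b, c, d, e} : Finset α), x w ∈ ({b, c, d, e} : Finset α) := by
    simp [h2, h2', h4, h4']
  have ha' := Finset.mem_sdiff.mp ha
  have hf' := Finset.mem_sdiff.mp hf
  have hbS : b ∈ S := h1 ▸ hy.mem ha'.1
  have hcS : c ∈ S := h2 ▸ hx.mem hbS
  have hdS : d ∈ S := h3 ▸ hy.mem hcS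
  have heS : e ∈ S := h4 ▸ hx.mem hdS
  refine ⟨glue {b, c, d, e} x z', glue_inv hx hR ?_ hz', adj_glue hx hR hz' k1, ?_⟩
  · intro w; simp only [Finset.mem_insert, Finset.mem_singleton]
    rintro (rfl | rfl | rfl | rfl) <;> assumption
  · intro F hF
    have a1 := hF a; have a2 := hF b; have a3 := hF c
    have a4 := hF d; have a5 := hF e; have a6 := hF f
    simp only [glue] at a1 a2 a3 a4 a5 a6
    rw [if_neg ha'.2, h1] at a1
    rw [if_neg hf'.2, h5'] at a6
    rw [if_pos (by simp), h1', h2] at a2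
    rw [if_pos (by simp), h3, h2'] at a3
    rw [if_pos (by simp), h3', h4] at a4
    rw [if_pos (by simp), h5, h4'] at a5
    have key := k2.transfer' (ctr_inv hy h1 h3 h5 ha hf) hz' F (by
      intro w hw
      by_cases hwa : w = a
      · rw [hwa]; simp only [ctr, if_true]; omega
      · by_cases hwf : w = f
        · simp only [ctr, if_neg hwa, if_pos hwf]; rw [hwf]; omega
        · have := hF w
          simp only [glue, if_neg hw] at this
          simp only [ctr, if_neg hw, if_neg hwa, if_neg hwf]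
          exact this)
    have b1 := key a ha'.2
    have b2 := key f hf'.2
    intro w
    by_cases hw : w ∈ ({b, c, d, e} : Finset α)
    · simp only [Finset.mem_insert, Finset.mem_singleton] at hw
      rcases hw with rfl | rfl | rfl | rfl <;> omega
    · exact key w hw

/-- eight-point base cases -/
theorem adj_eight {S : Finset α} {x z : α → α} {p1 p2 p3 p4 p5 p6 p7 p8 : α} (hx : Inv S x)
    (hz : Inv S z) (hS : S = {p1, p2, p3, p4, p5, p6, p7, p8})
    (h : ∀ F : α → ℤ, F (x p1) + F (z p1) = 0 → F (x p2) + F (z p2) = 0 → F (x p3) + F (z p3) = 0 →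
      F (x p4) + F (z p4) = 0 → F (x p5) + F (z p5) = 0 → F (x p6) + F (z p6) = 0 →
      F (x p7) + F (z p7) = 0 → F (x p8) + F (z p8) = 0 →
      F p1 = 0 ∧ F p2 = 0 ∧ F p3 = 0 ∧ F p4 = 0 ∧ F p5 = 0 ∧ F p6 = 0 ∧ F p7 = 0 ∧ F p8 = 0) :
    Adj x z := by
  intro F hF w
  have := h F (hF _) (hF _) (hF _) (hF _) (hF _) (hF _) (hF _) (hF _)
  by_cases hw : w ∈ S
  · rw [hS] at hw
    simp only [Finset.mem_insert, Finset.mem_singleton] at hw
    rcases hw with rfl | rfl | rfl | rfl | rfl | rfl | rfl | rfl <;> tauto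
  · have := hF w
    rw [hx.2 w hw, hz.2 w hw] at this
    omega

theorem exists_eight {p1 p2 p3 p4 p5 p6 p7 p8 : α} (h : [p1, p2, p3, p4, p5, p6, p7, p8].Nodup) :
    ∃ z : α → α, Inv {p1, p2, p3, p4, p5, p6, p7, p8} z ∧ z p1 = p2 ∧ z p2 = p1 ∧ z p3 = p4 ∧
      z p4 = p3 ∧ z p5 = p6 ∧ z p6 = p5 ∧ z p7 = p8 ∧ z p8 = p7 := by
  simp only [List.nodup_cons, List.mem_cons, List.not_mem_nil, or_false, not_or, List.nodup_nil] at h
  refine ⟨fun w => if w = p1 then p2 else if w = p2 then p1 else if w = p3 then p4 else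
    if w = p4 then p3 else if w = p5 then p6 else if w = p6 then p5 else if w = p7 then p8 else
    if w = p8 then p7 else w, ⟨?_, ?_⟩, ?_⟩
  · intro w; grind
  · intro w hw
    simp only [Finset.mem_insert, Finset.mem_singleton, not_or] at hw
    grind
  · grind

theorem solv_base1 {S : Finset α} {x y : α → α} {p1 p2 p3 p4 p5 p6 p7 p8 : α} (hx : Inv S x)
    (hy : Inv S y) (hS : S = {p1, p2, p3, p4, p5, p6, p7, p8})
    (h : [p1, p2, p3, p4, p5, p6, p7, p8].Nodup)
    (x1 : x p1 = p2) (x3 : x p3 = p4) (x5 : x p5 = p6) (x7 : x p7 = p8)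
    (y2 : y p2 = p3) (y4 : y p4 = p1) (y6 : y p6 = p7) (y8 : y p8 = p5) : Solv S x y := by
  have x2 : x p2 = p1 := by rw [← x1, hx.1]
  have x4 : x p4 = p3 := by rw [← x3, hx.1]
  have x6 : x p6 = p5 := by rw [← x5, hx.1]
  have x8 : x p8 = p7 := by rw [← x7, hx.1]
  have y3 : y p3 = p2 := by rw [← y2, hy.1]
  have y1 : y p1 = p4 := by rw [← y4, hy.1]
  have y7 : y p7 = p6 := by rw [← y6, hy.1]
  have y5 : y p5 = p8 := by rw [← y8, hy.1]
  have h' : [p2, p3, p4, p6, p1, p5, p7, p8].Nodup := by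
    simp only [List.nodup_cons, List.mem_cons, List.not_mem_nil, or_false, not_or, List.nodup_nil] at h ⊢
    grind
  obtain ⟨z, hz, z2, z3, z4, z6, z1, z5, z7, z8⟩ := exists_eight h'
  have e : ({p2, p3, p4, p6, p1, p5, p7, p8} : Finset α) = S := by
    rw [hS]; ext w; simp only [Finset.mem_insert, Finset.mem_singleton, or_comm, or_left_comm]
  rw [e] at hz
  refine ⟨z, hz, adj_eight hx hz hS ?_, adj_eight hy hz hS ?_⟩
  · intro F
    rw [x1, x2, x3, x4, x5, x6, x7, x8, z1, z2, z3, z4, z5, z6, z7, z8]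
    omega
  · intro F
    rw [y1, y2, y3, y4, y5, y6, y7, y8, z1, z2, z3, z4, z5, z6, z7, z8]
    omega

theorem solv_base2 {S : Finset α} {x y : α → α} {a b c d e f g h : α} (hx : Inv S x)
    (hy : Inv S y) (hS : S = {a, b, c, d, e, f, g, h})
    (hn : [a, b, c, d, e, f, g, h].Nodup)
    (x1 : x b = c) (x3 : x d = e) (x5 : x f = g) (x7 : x h = a)
    (y2 : y a = b) (y4 : y c = d) (y6 : y e = f) (y8 : y g = h) : Solv S x y := by
  have x2 : x c = b := by rw [← x1, hx.1]
  have x4 : x e = d := by rw [← x3, hx.1]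
  have x6 : x g = f := by rw [← x5, hx.1]
  have x8 : x a = h := by rw [← x7, hx.1]
  have y3 : y b = a := by rw [← y2, hy.1]
  have y1 : y d = c := by rw [← y4, hy.1]
  have y7 : y f = e := by rw [← y6, hy.1]
  have y5 : y h = g := by rw [← y8, hy.1]
  have h' : [c, d, e, g, f, b, h, a].Nodup := by
    simp only [List.nodup_cons, List.mem_cons, List.not_mem_nil, or_false, not_or, List.nodup_nil] at hn ⊢
    grind
  obtain ⟨z, hz, z2, z3, z4, z6, z1, z5, z7, z8⟩ := exists_eight h'
  have e : ({c, d, e, g, f, b, h, a} : Finset α) = S := by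
    rw [hS]; ext w; simp only [Finset.mem_insert, Finset.mem_singleton, or_comm, or_left_comm]
  rw [e] at hz
  refine ⟨z, hz, adj_eight hx hz hS ?_, adj_eight hy hz hS ?_⟩
  · intro F
    rw [x1, x2, x3, x4, x5, x6, x7, x8, z1, z2, z3, z4, z5, z6, z7, z8]
    omega
  · intro F
    rw [y1, y2, y3, y4, y5, y6, y7, y8, z1, z2, z3, z4, z5, z6, z7, z8]
    omega

/-- number of fixed points in `S` -/
def cnt (S : Finset α) (x : α → α) : ℕ := (S.filter fun w => x w = w).card

theorem cnt_res {S R : Finset α} (x : α → α) (hR : R ⊆ S) :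
    cnt (S \ R) (res R x) + cnt R x = cnt S x := by
  unfold cnt
  rw [← Finset.card_union_of_disjoint]
  · congr 1
    ext w
    have := @hR w
    simp only [res, Finset.mem_union, Finset.mem_filter, Finset.mem_sdiff]
    grind
  · rw [Finset.disjoint_left]
    intro w h1 h2
    simp only [Finset.mem_filter, Finset.mem_sdiff] at h1 h2
    exact h1.1.2 h2.1

theorem cnt_eq_zero {S : Finset α} {x : α → α} : cnt S x = 0 ↔ ∀ w ∈ S, x w ≠ w := by
  simp [cnt, Finset.filter_eq_empty_iff]

theorem Exc.spec {S : Finset α} {x y : α → α} (hx : Involutive x) (hy : Involutive y)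
    (h : Exc S x y) {a : α} (ha : a ∈ S) : C2 x y a ∧ S = {a, x a, y a, x (y a)} := by
  obtain ⟨p, ⟨c1, c2, c3, c4⟩, hS⟩ := h
  have i1 := hx p
  have i2 := hy p
  have i3 := hx (y p)
  have i4 := hy (x p)
  rw [hS] at ha ⊢
  simp only [Finset.mem_insert, Finset.mem_singleton] at ha
  unfold C2
  rcases ha with rfl | rfl | rfl | rfl
  · exact ⟨⟨c1, c2, c3, c4⟩, rfl⟩
  · refine ⟨by grind, ?_⟩
    ext w; simp only [Finset.mem_insert, Finset.mem_singleton]; grind
  · refine ⟨by grind, ?_⟩
    ext w; simp only [Finset.mem_insert, Finset.mem_singleton]; grind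
  · refine ⟨by grind, ?_⟩
    ext w; simp only [Finset.mem_insert, Finset.mem_singleton]; grind

theorem not_exc_res {S R : Finset α} {x y : α → α} (hx : Inv S x) (hy : Inv S y)
    (hRx : ∀ w ∈ R, x w ∈ R) (hRy : ∀ w ∈ R, y w ∈ R) (h : Exc (S \ R) (res R x) (res R y)) :
    ∃ q, q ∈ S \ R ∧ C2 x y q ∧ S \ R = {q, x q, y q, x (y q)} := by
  obtain ⟨q, ⟨c1, c2, c3, c4⟩, hS⟩ := h
  have hq : q ∈ S \ R := by rw [hS]; simp
  have h1 := (res_inv hx hRx).mem hq
  have h2 := (res_inv hy hRy).mem hq
  have hq' := (Finset.mem_sdiff.mp hq).2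
  have h1' := (Finset.mem_sdiff.mp h1).2
  have h2' := (Finset.mem_sdiff.mp h2).2
  simp only [res, if_neg hq'] at *
  simp only [if_neg h1', if_neg h2'] at *
  exact ⟨q, hq, ⟨c1, c2, c3, c4⟩, hS⟩

theorem solv_b_step {S : Finset α} {x y : α → α} (hx : Inv S x) (hy : Inv S y)
    (hcnt : cnt S x = cnt S y)
    (ih : ∀ T : Finset α, T.card < S.card → ∀ x y : α → α, Inv T x → Inv T y → cnt T x = cnt T y →
      ¬ Exc T x y → Solv T x y)
    {c : α} (hc : y c = c) (hbc : x c ≠ c) (hab : y (x c) ≠ x c) : Solv S x y := by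
  generalize hb : x c = b at *
  generalize ha : y b = a at *
  have hb' : x b = c := by rw [← hb, hx.1]
  have ha' : y a = b := by rw [← ha, hy.1]
  have hac : a ≠ c := by rintro rfl; exact hbc (ha'.symm.trans hc)
  have hR : ∀ w ∈ ({b, c} : Finset α), x w ∈ ({b, c} : Finset α) := by simp [hb, hb']
  have hR' : ∀ w ∈ ({a, b, c} : Finset α), y w ∈ ({a, b, c} : Finset α) := by simp [ha, ha', hc]
  have hcS : c ∈ S := hx.mem_of_ne (hb ▸ hbc)
  have hbS : b ∈ S := hb ▸ hx.mem hcS
  have haS : a ∈ S := ha ▸ hy.mem hbS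
  have hsub : ({b, c} : Finset α) ⊆ S := by
    intro w; simp only [Finset.mem_insert, Finset.mem_singleton]
    rintro (rfl | rfl) <;> assumption
  have hy' : Inv (S \ {b, c}) (res {a, b, c} y) :=
    (res_inv hy hR').mono (Finset.sdiff_subset_sdiff subset_rfl (Finset.subset_insert _ _))
  apply solv_b hx hy hc hb ha hbc hab
  apply ih _ _ _ _ (res_inv hx hR) hy'
  · have e1 := cnt_res x hsub
    have e2 : cnt {b, c} x = 0 := by
      rw [cnt_eq_zero]; simp [hb, hb', hbc, hbc.symm]
    have e3 : cnt (S \ {b, c}) (res {a, b, c} y) = cnt S y := by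
      unfold cnt
      have : ((S \ {b, c}).filter fun w => res {a, b, c} y w = w) =
          insert a ((S.filter fun w => y w = w).erase c) := by
        ext w
        simp only [res, Finset.mem_filter, Finset.mem_sdiff, Finset.mem_insert, Finset.mem_singleton,
          Finset.mem_erase]
        grind
      rw [this, Finset.card_insert_of_notMem, Finset.card_erase_add_one]
      · simp [hcS, hc]
      · simp [ha', hab.symm]
    omega
  · intro hE
    have := (hE.spec (res_inv hx hR).1 hy'.1 (a := a) (by simp [haS, hab, hac])).1.2.1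
    simp [res] at this
  · exact Finset.card_lt_card (Finset.sdiff_ssubset hsub (by simp))

theorem solv_case1 {S : Finset α} {x y : α → α} (hx : Inv S x) (hy : Inv S y)
    (hcnt : cnt S x = cnt S y)
    (ih : ∀ T : Finset α, T.card < S.card → ∀ x y : α → α, Inv T x → Inv T y → cnt T x = cnt T y →
      ¬ Exc T x y → Solv T x y) (hE : ¬ Exc S x y)
    (h1 : ∃ p, C2 x y p) : Solv S x y := by
  obtain ⟨p, hp⟩ := h1
  obtain ⟨c1, c2, c3, c4⟩ := id hp
  have hpS : p ∈ S := hx.mem_of_ne c1
  have m2 := hx.mem hpS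
  have m4 := hy.mem hpS
  have m3 := hx.mem m4
  have i1 := hx.1 p
  have i2 := hy.1 p
  have i3 := hx.1 (y p)
  have i4 := hy.1 (x p)
  have hsub : ({p, x p, x (y p), y p} : Finset α) ⊆ S := by
    intro w; simp only [Finset.mem_insert, Finset.mem_singleton]
    rintro (rfl | rfl | rfl | rfl) <;> assumption
  have hRx : ∀ w ∈ ({p, x p, x (y p), y p} : Finset α), x w ∈ ({p, x p, x (y p), y p} : Finset α) := by
    simp [i1, i3]
  have hRy : ∀ w ∈ ({p, x p, x (y p), y p} : Finset α), y w ∈ ({p, x p, x (y p), y p} : Finset α) := by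
    simp [i2, i4, c4]
  obtain ⟨t, ht⟩ : (S \ {p, x p, x (y p), y p}).Nonempty := by
    rw [Finset.sdiff_nonempty]
    intro h
    apply hE
    refine ⟨p, hp, ?_⟩
    rw [Finset.Subset.antisymm h hsub]
    ext w; simp only [Finset.mem_insert, Finset.mem_singleton]; tauto
  by_cases hE' : Exc (S \ {p, x p, x (y p), y p}) (res {p, x p, x (y p), y p} x)
      (res {p, x p, x (y p), y p} y)
  · obtain ⟨q, hq, ⟨d1, d2, d3, d4⟩, hS⟩ := not_exc_res hx hy hRx hRy hE'
    have j1 := hx.1 q
    have j2 := hy.1 q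
    have j3 := hx.1 (y q)
    have j4 := hy.1 (x q)
    have hq' := (Finset.mem_sdiff.mp hq).2
    simp only [Finset.mem_insert, Finset.mem_singleton, not_or] at hq'
    apply solv_base1 (p1 := p) (p2 := x p) (p3 := x (y p)) (p4 := y p) (p5 := q) (p6 := x q)
      (p7 := x (y q)) (p8 := y q) hx hy _ _ rfl i3 rfl j3 c4.symm i2 d4.symm j2
    · rw [← Finset.union_sdiff_of_subset hsub, hS]
      ext w; simp only [Finset.mem_union, Finset.mem_insert, Finset.mem_singleton, or_assoc, or_comm,
        or_left_comm]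
    · simp only [List.nodup_cons, List.mem_cons, List.not_mem_nil, or_false, not_or, List.nodup_nil]
      clear ih hE hE' hS hsub hRx hRy ht hq
      constructorm* _ ∧ _ <;> grind
  · apply solv_insert hx hy hp ht
    apply ih _ _ _ _ (res_inv hx hRx) (res_inv hy hRy) _ hE'
    · exact Finset.card_lt_card (Finset.sdiff_ssubset hsub (by simp))
    · have e1 := cnt_res x hsub
      have e2 := cnt_res y hsub
      have e3 : cnt {p, x p, x (y p), y p} x = 0 := by
        rw [cnt_eq_zero]; simp only [Finset.mem_insert, Finset.mem_singleton, forall_eq_or_imp, forall_eq]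
        clear ih hE hE' hsub hRx hRy ht
        grind
      have e4 : cnt {p, x p, x (y p), y p} y = 0 := by
        rw [cnt_eq_zero]; simp only [Finset.mem_insert, Finset.mem_singleton, forall_eq_or_imp, forall_eq]
        clear ih hE hE' hsub hRx hRy ht
        grind
      omega

theorem solv_case2 {S : Finset α} {x y : α → α} (hx : Inv S x) (hy : Inv S y)
    (hcnt : cnt S x = cnt S y)
    (ih : ∀ T : Finset α, T.card < S.card → ∀ x y : α → α, Inv T x → Inv T y → cnt T x = cnt T y →
      ¬ Exc T x y → Solv T x y) (h1 : ¬ ∃ p, C2 x y p)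
    (h2 : ∃ p ∈ S, x p = y p) : Solv S x y := by
  obtain ⟨p, hp, hxy⟩ := h2
  have hRx : ∀ w ∈ ({p, x p} : Finset α), x w ∈ ({p, x p} : Finset α) := by simp [hx.1 p]
  have e : ∀ w ∈ ({p, x p} : Finset α), x w = y w := by
    have := hy.1 p
    simp [hxy, this]; rw [← hxy, hx.1]
  have hRy : ∀ w ∈ ({p, x p} : Finset α), y w ∈ ({p, x p} : Finset α) :=
    fun w hw => e w hw ▸ hRx w hw
  have hsub : ({p, x p} : Finset α) ⊆ S := by
    intro w; simp only [Finset.mem_insert, Finset.mem_singleton]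
    rintro (rfl | rfl)
    · exact hp
    · exact hx.mem hp
  apply solv_a hx hy hp hxy
  apply ih _ _ _ _ (res_inv hx hRx) (res_inv hy hRy)
  · have e1 := cnt_res x hsub
    have e2 := cnt_res y hsub
    have e3 : cnt {p, x p} x = cnt {p, x p} y := by
      unfold cnt
      congr 1
      exact Finset.filter_congr fun w hw => by rw [e w hw]
    omega
  · intro hE'
    obtain ⟨q, -, hq, -⟩ := not_exc_res hx hy hRx hRy hE'
    exact h1 ⟨q, hq⟩
  · exact Finset.card_lt_card (Finset.sdiff_ssubset hsub (by simp))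

theorem solv_case4 {S : Finset α} {x y : α → α} (hx : Inv S x) (hy : Inv S y)
    (hcnt : cnt S x = cnt S y)
    (ih : ∀ T : Finset α, T.card < S.card → ∀ x y : α → α, Inv T x → Inv T y → cnt T x = cnt T y →
      ¬ Exc T x y → Solv T x y) (h1 : ∀ p, ¬ C2 x y p)
    (h2 : ∀ p ∈ S, x p ≠ y p) (h5 : cnt S y = 0) : Solv S x y := by
  have h6 := cnt_eq_zero.mp (hcnt.trans h5)
  have h7 := cnt_eq_zero.mp h5
  rcases S.eq_empty_or_nonempty with rfl | ⟨b, hb⟩
  · refine ⟨x, hx, Adj.refl hx.1, ?_⟩
    have : y = x := funext fun w => (hy.2 w (by simp)).trans (hx.2 w (by simp)).symm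
    rw [this]; exact Adj.refl hx.1
  have hc := hx.mem hb
  have ha := hy.mem hb
  have hd := hy.mem hc
  have he := hx.mem hd
  have hf := hy.mem he
  have n1 := h1 b
  unfold C2 at n1
  have i1 := hx.1 b
  have i2 := hy.1 b
  have i3 := hy.1 (x b)
  have i4 := hx.1 (y (x b))
  have i5 := hy.1 (x (y (x b)))
  have i6 := hx.1 (y b)
  have s1 := h6 _ hb
  have s2 := h7 _ hb
  have s3 := h7 _ hc
  have s4 := h6 _ hd
  have s5 := h7 _ he
  have t1 := h2 _ hb
  have t2 := h2 _ hc
  have t3 := h2 _ hd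
  generalize k1 : y b = a at *
  generalize k2 : x b = c at *
  generalize k3 : y c = d at *
  generalize k4 : x d = e at *
  generalize k5 : y e = f at *
  have hn : [a, b, c, d, e, f].Nodup := by
    simp only [List.nodup_cons, List.mem_cons, List.not_mem_nil, or_false, not_or, List.nodup_nil]
    clear ih h1 h2 h6 h7
    constructorm* _ ∧ _ <;> grind
  have hn' := hn
  simp only [List.nodup_cons, List.mem_cons, List.not_mem_nil, or_false, not_or, List.nodup_nil] at hn'
  have ha' : a ∈ S \ {b, c, d, e} := by simp [ha]; tauto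
  have hf' : f ∈ S \ {b, c, d, e} := by
    simp only [Finset.mem_sdiff, Finset.mem_insert, Finset.mem_singleton, hf, true_and]
    clear ih h1 h2 h6 h7
    grind
  have hRx : ∀ w ∈ ({b, c, d, e} : Finset α), x w ∈ ({b, c, d, e} : Finset α) := by
    simp [k2, i1, k4, i4]
  have hsub : ({b, c, d, e} : Finset α) ⊆ S := by
    intro w; simp only [Finset.mem_insert, Finset.mem_singleton]
    rintro (rfl | rfl | rfl | rfl) <;> assumption
  have hx' := res_inv hx hRx
  have hy' := ctr_inv hy i2 k3 k5 ha' hf'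
  by_cases hE' : Exc (S \ {b, c, d, e}) (res {b, c, d, e} x) (ctr a f {b, c, d, e} y)
  · obtain ⟨⟨d1, d2, d3, d4⟩, hS⟩ := hE'.spec hx'.1 hy'.1 ha'
    have hh := hx'.mem ha'
    have hg := hx'.mem hf'
    have u1 : ctr a f {b, c, d, e} y a = f := by simp [ctr]
    have u2 : res {b, c, d, e} x a = x a := by
      simp only [res, if_neg (Finset.mem_sdiff.mp ha').2]
    have u3 : res {b, c, d, e} x f = x f := by
      simp only [res, if_neg (Finset.mem_sdiff.mp hf').2]
    rw [u1] at d2 d3 d4 hS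
    rw [u2] at d1 d3 d4 hS hh
    rw [u3] at d4 hS hg
    have u4 : ctr a f {b, c, d, e} y (x a) = y (x a) := by
      simp only [ctr, if_neg d1, if_neg d3, if_neg (Finset.mem_sdiff.mp hh).2]
    rw [u4] at d4
    have j1 := hx.1 f
    have j2 := hy.1 (x a)
    have s6 := h6 _ hf
    simp only [Finset.mem_sdiff, Finset.mem_insert, Finset.mem_singleton, not_or] at hh hg
    apply solv_base2 (a := a) (b := b) (c := c) (d := d) (e := e) (f := f) (g := x f) (h := x a)
      hx hy _ _ k2 k4 rfl i6 i2 k3 k5 (by rw [d4, j2])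
    · rw [← Finset.union_sdiff_of_subset hsub, hS]
      ext w; simp only [Finset.mem_union, Finset.mem_insert, Finset.mem_singleton, or_assoc, or_comm,
        or_left_comm]
    · simp only [List.nodup_cons, List.mem_cons, List.not_mem_nil, or_false, not_or, List.nodup_nil]
      clear ih h1 h2 h6 h7 hE' hS hsub hRx u1 u2 u3 u4 ha' hf' hn
      constructorm* _ ∧ _ <;> grind
  · apply solv_d hx hy i2 k2 k3 k4 k5 ha' hf'
    apply ih _ _ _ _ hx' hy' _ hE'
    · exact Finset.card_lt_card (Finset.sdiff_ssubset hsub (by simp))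
    · rw [cnt_eq_zero.mpr, cnt_eq_zero.mpr]
      · intro w hw
        have hw' := Finset.mem_sdiff.mp hw
        have := h7 w hw'.1
        simp only [ctr, if_neg hw'.2]
        clear ih h1 h2 h6 h7 hE' hsub hRx ha' hf' hn hw hw'
        grind
      · intro w hw
        have hw' := Finset.mem_sdiff.mp hw
        simp only [res, if_neg hw'.2]
        exact h6 w hw'.1

theorem solv_case5 {S : Finset α} {x y : α → α} (hx : Inv S x) (hy : Inv S y)
    (hcnt : cnt S x = cnt S y)
    (ih : ∀ T : Finset α, T.card < S.card → ∀ x y : α → α, Inv T x → Inv T y → cnt T x = cnt T y →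
      ¬ Exc T x y → Solv T x y) (h1 : ∀ p, ¬ C2 x y p)
    (h2 : ∀ p ∈ S, x p ≠ y p) (h3 : ∀ c, y c = c → x c ≠ c → y (x c) = x c)
    (h4 : ∀ c, x c = c → y c ≠ c → x (y c) = y c) (h5 : ¬ cnt S y = 0) : Solv S x y := by
  have h6 : cnt S x ≠ 0 := hcnt ▸ h5
  rw [Ne, cnt_eq_zero] at h6
  rw [cnt_eq_zero] at h5
  push Not at h5 h6
  obtain ⟨b, hb, k1⟩ := h5
  obtain ⟨e, he, k2⟩ := h6
  have k3 : x b ≠ b := fun h => h2 b hb (h.trans k1.symm)
  have k4 : y e ≠ e := fun h => h2 e he (k2.trans h.symm)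
  have k5 := h3 b k1 k3
  have k6 := h4 e k2 k4
  have hc := hx.mem hb
  have hd := hy.mem he
  have i1 := hx.1 b
  have i2 := hy.1 e
  generalize k7 : x b = c at *
  generalize k8 : y e = d at *
  have hRx : ∀ w ∈ ({b, c, d, e} : Finset α), x w ∈ ({b, c, d, e} : Finset α) := by
    simp [k7, i1, k6, k2]
  have hRy : ∀ w ∈ ({b, c, d, e} : Finset α), y w ∈ ({b, c, d, e} : Finset α) := by
    simp [k8, i2, k1, k5]
  have hsub : ({b, c, d, e} : Finset α) ⊆ S := by
    intro w; simp only [Finset.mem_insert, Finset.mem_singleton]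
    rintro (rfl | rfl | rfl | rfl) <;> assumption
  apply solv_c hx hy k7 k6 k2 k8 k1 k5 k3.symm k4
  apply ih _ _ _ _ (res_inv hx hRx) (res_inv hy hRy)
  · have e1 := cnt_res x hsub
    have e2 := cnt_res y hsub
    have e3 : cnt {b, c, d, e} x = 2 := by
      unfold cnt
      rw [← Finset.card_pair k4]
      congr 1
      ext w
      simp only [Finset.mem_filter, Finset.mem_insert, Finset.mem_singleton]
      clear ih h1 h2 h3 h4 hsub hRx hRy
      grind
    have e4 : cnt {b, c, d, e} y = 2 := by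
      unfold cnt
      rw [← Finset.card_pair k3]
      congr 1
      ext w
      simp only [Finset.mem_filter, Finset.mem_insert, Finset.mem_singleton]
      clear ih h1 h2 h3 h4 hsub hRx hRy
      grind
    omega
  · intro hE'
    obtain ⟨q, -, hq, -⟩ := not_exc_res hx hy hRx hRy hE'
    exact h1 q hq
  · exact Finset.card_lt_card (Finset.sdiff_ssubset hsub (by simp))


theorem solv_main (n : ℕ) : ∀ S : Finset α, S.card = n → ∀ x y : α → α, Inv S x → Inv S y →
    cnt S x = cnt S y → ¬ Exc S x y → Solv S x y := by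
  induction n using Nat.strong_induction_on with
  | _ n ih0 =>
  intro S hn x y hx hy hcnt hE
  have ih : ∀ T : Finset α, T.card < S.card → ∀ x y : α → α, Inv T x → Inv T y → cnt T x = cnt T y →
      ¬ Exc T x y → Solv T x y := fun T hT => ih0 T.card (hn ▸ hT) T rfl
  clear ih0
  by_cases h1 : ∃ p, C2 x y p
  · exact solv_case1 hx hy hcnt ih hE h1
  by_cases h2 : ∃ p ∈ S, x p = y p
  · exact solv_case2 hx hy hcnt ih h1 h2
  by_cases h3 : ∃ c, y c = c ∧ x c ≠ c ∧ y (x c) ≠ x c
  · obtain ⟨c, k1, k2, k3⟩ := h3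
    exact solv_b_step hx hy hcnt ih k1 k2 k3
  by_cases h4 : ∃ c, x c = c ∧ y c ≠ c ∧ x (y c) ≠ y c
  · obtain ⟨c, k1, k2, k3⟩ := h4
    exact (solv_b_step hy hx hcnt.symm ih k1 k2 k3).symm
  push Not at h1 h2 h3 h4
  by_cases h5 : cnt S y = 0
  · exact solv_case4 hx hy hcnt ih h1 h2 h5
  · exact solv_case5 hx hy hcnt ih h1 h2 h3 h4 h5

end Cfsg.Agent.H1.OddGraph
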